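import Cfsg.Agent.TwoTransSquarePlusOne.Endgame

/-!
No imprimitive point stabiliser in degree `p ^ 2 + 1` for odd `p`.
-/

set_option autoImplicit false
set_option linter.style.haveILetI false
set_option linter.unusedSectionVars false
set_option linter.unusedVariables false

namespace CfsgLib.TwoTransSquare

open MulAction

universe u v

variable {G : Type u} {Ω : Type v} [Group G] [MulAction G Ω] [Finite G] [Finite Ω]
  [FaithfulSMul G Ω] {p : ℕ} [hp : Fact p.Prime]

namespace Sys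

variable (S : Sys G Ω p) (C : Ctx G Ω p) {a : Ω} (K : Reg G Ω p a)

theorem P₀_le : S.P₀ K ≤ K.P := inf_le_left

include S C K in
theorem semiregular_false {b : Ω} (hab : b ≠ a)
    (hsr : ∀ h ∈ H2 a b, h ≠ 1 → centr K h = ⊥) : False := by
  have h3 := C.three_le
  let D : CfsgLib.ZassAbelian.Setting G Ω :=
    { i := a
      o := b
      io := hab.symm
      pair := fun x y z w hxy hzw => C.exists_pair hxy hzw
      three := fun g x y z hxy hyz hxz hx hy hz => by
        obtain ⟨k, hka, hkb⟩ := C.exists_pair hxy hab.symm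
        have hkx : k⁻¹ • a = x := inv_smul_eq_iff.2 hka.symm
        have hky : k⁻¹ • b = y := inv_smul_eq_iff.2 hkb.symm
        set h := k * g * k⁻¹ with hh
        have hmem : h ∈ H2 a b := ⟨by
          show h • _ = _
          rw [hh, mul_smul, mul_smul, hkx, hx, hka], by
          show h • _ = _
          rw [hh, mul_smul, mul_smul, hky, hy, hkb]⟩
        by_contra hg
        have hne : h ≠ 1 := fun e => hg (by simpa [hh] using e)
        have hkz : k • z ≠ a := fun e => hxz (smul_left_cancel k (hka.trans e.symm))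
        obtain ⟨v, hv, hvb⟩ := K.trans b _ hab hkz
        have hfix : h • v • b = v • b := by
          rw [hvb, hh, mul_smul, mul_smul, inv_smul_smul, hz]
        have := (mem_centr K).2 ⟨hv, S.commute_of_smul_fix C K hab hmem hv hfix⟩
        rw [hsr h hmem hne, Subgroup.mem_bot] at this
        rw [this, one_smul, ← hkb] at hvb
        exact hyz (smul_left_cancel k hvb)
      third := by
        obtain ⟨z, hz⟩ : ∃ z, z ∉ ({a, b} : Set Ω) := by
          by_contra hh
          push Not at hh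
          have := Set.ncard_le_ncard (fun z (_ : z ∈ Set.univ) => hh z) (Set.toFinite _)
          rw [Set.ncard_univ, Set.ncard_pair hab.symm, C.card] at this
          nlinarith
        exact ⟨z, fun e => hz (Or.inl e), fun e => hz (Or.inr e)⟩
      F := K.P
      Fle := K.fix
      Fnorm := fun g hg v hv => S.reg_normal C K hg hv
      Fcomm := K.comm
      reg := fun y z hy hz => K.trans y z hy hz
      free := K.free }
  have hF : Nat.card D.F = p ^ 2 := K.card
  -- the two point stabiliser acts regularly on a subset of `P₀`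
  obtain ⟨φ, hφ0, -, hφm, -, hφi⟩ := S.exists_coord K hab
  have hu1 : φ 1 ≠ 1 := fun e => one_ne_zero (hφi (e.trans hφ0.symm))
  have hH : Nat.card D.H ≤ p - 1 := by
    have hinj : Function.Injective (fun h : H2 (G := G) a b =>
        (⟨(h : G) * φ 1 * (h : G)⁻¹, S.P₀_normal C K hab h.2.1 (hφm 1),
          fun e => hu1 (conj_eq_one_iff.1 e)⟩ : ((S.P₀ K : Set G) \ {1} : Set G))) := by
      intro h h' e
      have e' : (h : G) * φ 1 * (h : G)⁻¹ = (h' : G) * φ 1 * (h' : G)⁻¹ := congrArg Subtype.val e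
      have hk : (h' : G)⁻¹ * h ∈ H2 a b := mul_mem (inv_mem h'.2) h.2
      refine Subtype.ext (inv_mul_eq_one.1 ?_).symm
      by_contra hne
      have hc : φ 1 ∈ centr K ((h' : G)⁻¹ * h) := (mem_centr K).2 ⟨(hφm 1).1, by
        rw [mul_inv_eq_iff_eq_mul] at e'
        calc (h' : G)⁻¹ * h * φ 1 = (h' : G)⁻¹ * ((h : G) * φ 1) := mul_assoc _ _ _
          _ = φ 1 * ((h' : G)⁻¹ * h) := by rw [e']; group⟩
      rw [hsr _ hk hne, Subgroup.mem_bot] at hc
      exact hu1 hc
    have h := Nat.card_le_card_of_injective _ hinj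
    rw [Nat.card_coe_set_eq, Set.ncard_sdiff_singleton_of_mem (show (1 : G) ∈ (S.P₀ K : Set G) from
      one_mem _), ← Nat.card_coe_set_eq] at h
    exact h.trans (le_of_eq (congrArg (· - 1) (S.card_P₀ K hab)))
  have hp1 : 1 ≤ p ^ 2 := Nat.one_le_pow _ _ hp.out.pos
  have hp2 : 2 * p < p ^ 2 := by nlinarith
  rcases CfsgLib.ZassAbelian.classify D with h | ⟨h, -⟩ | h
  · rw [hF] at h; omega
  · rw [hF] at h; omega
  · exact not_hasRegularNormal C C.two h

include S C K in
/-- A conjugate in the two point stabiliser of such a subgroup is again one. -/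
theorem le_cH_or {b : Ω} (hab : b ≠ a) {Q W : Subgroup G} (hQ : Q ≤ K.P) (hQc : Nat.card Q = p)
    (hQne : Q ≠ S.P₀ K)
    (hQall : ∀ h ∈ H2 a b, h ≠ 1 → centr K h ≠ ⊥ → centr K h = S.P₀ K ∨ centr K h = Q)
    (hW : ∀ w ∈ W, w ∈ H2 a b ∧ 2 < ({z | w • z = z} : Set Ω).ncard) :
    W ≤ cH a b (S.P₀ K) ∨ W ≤ cH a b Q := by
  have hmem : ∀ w ∈ W, w ∈ cH a b (S.P₀ K) ∨ w ∈ cH a b Q := by
    intro w hw
    by_cases hw1 : w = 1
    · exact Or.inl (hw1 ▸ one_mem _)
    obtain ⟨hwH, hw3⟩ := hW w hw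
    obtain ⟨z, hz, hzab⟩ : ∃ z, w • z = z ∧ z ∉ ({a, b} : Set Ω) := by
      by_contra hh
      push Not at hh
      have := Set.ncard_le_ncard (fun z (hz : z ∈ {z | w • z = z}) => hh z hz) (Set.toFinite _)
      rw [Set.ncard_pair hab.symm] at this
      omega
    have hza : z ≠ a := fun e => hzab (Or.inl e)
    obtain ⟨v, hv, rfl⟩ := K.trans b z hab hza
    have hvc : v ∈ centr K w := (mem_centr K).2 ⟨hv, S.commute_of_smul_fix C K hab hwH hv hz⟩
    have hne : centr K w ≠ ⊥ := by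
      intro e
      rw [e, Subgroup.mem_bot] at hvc
      exact hzab (Or.inr (by rw [hvc, one_smul]; rfl))
    rcases hQall w hwH hw1 hne with e | e
    · exact Or.inl ((mem_cH K (S.P₀_le K)).2 ⟨hwH, e.ge⟩)
    · exact Or.inr ((mem_cH K hQ).2 ⟨hwH, e.ge⟩)
  by_contra hh
  push Not at hh
  obtain ⟨x, hx, hx0⟩ := SetLike.not_le_iff_exists.1 hh.1
  obtain ⟨y, hy, hy1⟩ := SetLike.not_le_iff_exists.1 hh.2
  have hx1 : x ∈ cH a b Q := (hmem x hx).resolve_left hx0
  have hy0 : y ∈ cH a b (S.P₀ K) := (hmem y hy).resolve_right hy1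
  rcases hmem _ (mul_mem hx hy) with h | h
  · exact hx0 (by simpa using mul_mem h (inv_mem hy0))
  · exact hy1 (by simpa using mul_mem (inv_mem hx1) h)

include S C in
theorem fixedBy_card {b : Ω} (hab : b ≠ a) {N : Subgroup G} (hN : N ≤ K.P) (hc : Nat.card N = p)
    {w : G} (hw : w ∈ cH a b N) (hne : cH a b N ≠ ⊥) (k : G) :
    2 < ({z | (k⁻¹ * w * k) • z = z} : Set Ω).ncard := by
  have h3 := C.three_le
  refine lt_of_lt_of_le (b := (p + 1)) (by omega) ?_
  rw [← S.ncard_fixSet_cH C K hab hN hc hne,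
    ← Set.ncard_image_of_injective _ (MulAction.injective (k⁻¹ : G))]
  refine Set.ncard_le_ncard ?_ (Set.toFinite _)
  rintro _ ⟨z, hz, rfl⟩
  show (k⁻¹ * w * k) • k⁻¹ • z = k⁻¹ • z
  rw [mul_smul, mul_smul, smul_inv_smul, hz w hw]

/-- A conjugate of one subgroup inside another of the same order fills it. -/
theorem conj_eq_of_card {W W' : Subgroup G} {k : G} (hle : ∀ w ∈ W, k⁻¹ * w * k ∈ W')
    (hcard : Nat.card W' ≤ Nat.card W) : ∀ w' ∈ W', k * w' * k⁻¹ ∈ W := by
  intro w' hw'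
  have hinj : Function.Injective (fun w : W => (⟨k⁻¹ * w * k, hle w w.2⟩ : W')) :=
    fun w w₁ e => Subtype.ext (by simpa using congrArg Subtype.val e)
  have hbij := (Nat.bijective_iff_injective_and_card _).2
    ⟨hinj, le_antisymm (Nat.card_le_card_of_injective _ hinj) hcard⟩
  obtain ⟨w, hw⟩ := hbij.2 ⟨w', hw'⟩
  have e : k⁻¹ * (w : G) * k = w' := congrArg Subtype.val hw
  rw [← e, show k * (k⁻¹ * (w : G) * k) * k⁻¹ = w by group]
  exact w.2

include S C K in
/-- The two subgroups cannot be conjugate. -/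
theorem fused_false {b : Ω} (hab : b ≠ a) {Q : Subgroup G} (hQ : Q ≤ K.P) (hQc : Nat.card Q = p)
    (hQne : Q ≠ S.P₀ K)
    (hQall : ∀ h ∈ H2 a b, h ≠ 1 → centr K h ≠ ⊥ → centr K h = S.P₀ K ∨ centr K h = Q)
    (h0 : cH a b (S.P₀ K) ≠ ⊥) (h1 : cH a b Q ≠ ⊥)
    (hcard : Nat.card (cH a b (S.P₀ K)) = Nat.card (cH a b Q))
    {k : G} (hk : ∀ w ∈ cH a b (S.P₀ K), k⁻¹ * w * k ∈ cH a b Q) : False := by
  classical
  haveI := Fintype.ofFinite Ω
  haveI := Fintype.ofFinite G
  have h3 := C.three_le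
  have hP₀ := S.card_P₀ K hab
  set W₀ := cH a b (S.P₀ K) with hW₀
  set W₁ := cH a b Q with hW₁
  set F₀ : Finset Ω := (fixSet W₀ : Set Ω).toFinset with hF₀
  set F₁ : Finset Ω := (fixSet W₁ : Set Ω).toFinset with hF₁
  have hc₀ : F₀.card = p + 1 := by
    rw [hF₀, ← Set.ncard_eq_toFinset_card', S.ncard_fixSet_cH C K hab (S.P₀_le K) hP₀ h0]
  have hdist : F₀ ≠ F₁ := by
    intro e
    rw [hF₀, hF₁, Set.toFinset_inj, S.fixSet_cH C K hab (S.P₀_le K) hP₀ h0,
      S.fixSet_cH C K hab hQ hQc h1] at e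
    refine hQne (Subgroup.eq_of_le_of_card_ge (fun v hv => ?_) (by rw [hP₀, hQc])).symm.symm
    have : v • b ∈ insert a ((fun v => v • b) '' (S.P₀ K : Set G)) :=
      e.symm ▸ Or.inr ⟨v, hv, rfl⟩
    rcases this with h | ⟨u, hu, hub⟩
    · exact absurd h (eq_inv_smul_ne (K.fix v (hQ hv)) hab)
    · have : u⁻¹ * v = 1 := K.free _ (mul_mem (inv_mem hu.1) (hQ hv)) b hab (by
        rw [mul_smul, inv_smul_eq_iff]; exact hub.symm)
      rw [← inv_mul_eq_one.1 this]
      exact hu
  have hkF : F₁.image (fun z => k • z) = F₀ := by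
    have hback := conj_eq_of_card hk hcard.ge
    ext z
    simp only [Finset.mem_image, hF₀, hF₁, Set.mem_toFinset]
    constructor
    · rintro ⟨y, hy, rfl⟩ w hw
      have := hy _ (hk w hw)
      rwa [mul_smul, mul_smul, inv_smul_eq_iff] at this
    · intro hz
      refine ⟨k⁻¹ • z, fun w hw => ?_, smul_inv_smul _ _⟩
      have := hz _ (hback w hw)
      rw [mul_smul, mul_smul] at this
      rw [eq_inv_smul_iff, this]
  set 𝓛 : Finset (Finset Ω) := Finset.univ.image (fun g : G => F₀.image (fun z => g • z)) with h𝓛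
  set pairs := (Finset.univ : Finset Ω).offDiag with hpairs
  let r : Finset Ω → Ω × Ω → Prop := fun L e => e.1 ∈ L ∧ e.2 ∈ L
  have hsum := Finset.sum_card_bipartiteAbove_eq_sum_card_bipartiteBelow (r := r) (s := 𝓛) (t := pairs)
  have habove : ∀ L ∈ 𝓛, (pairs.bipartiteAbove r L).card = (p + 1) * (p + 1) - (p + 1) := by
    intro L hL
    obtain ⟨g, -, rfl⟩ := Finset.mem_image.1 hL
    have hLc : (F₀.image (fun z => g • z)).card = p + 1 := by
      rw [Finset.card_image_of_injective _ (MulAction.injective g), hc₀]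
    rw [← hLc, ← Finset.offDiag_card]
    congr 1
    ext ⟨x, y⟩
    simp [pairs, r, Finset.mem_bipartiteAbove, and_comm, and_left_comm]
  have hbelow : ∀ e ∈ pairs, (𝓛.bipartiteBelow r e).card = 2 := by
    rintro ⟨x, y⟩ he
    obtain ⟨g, hgx, hgy⟩ := C.exists_pair hab.symm (Finset.mem_offDiag.1 he).2.2
    subst hgx hgy
    have hset : 𝓛.bipartiteBelow r (g • a, g • b)
        = {F₀.image (fun z => g • z), F₁.image (fun z => g • z)} := by
      ext L
      rw [Finset.mem_bipartiteBelow, Finset.mem_insert, Finset.mem_singleton]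
      constructor
      · rintro ⟨hL, hLa, hLb⟩
        obtain ⟨g', -, rfl⟩ := Finset.mem_image.1 hL
        set l := g'⁻¹ * g with hl
        have hla : l • a ∈ F₀ := by
          obtain ⟨z, hz, hze⟩ := Finset.mem_image.1 hLa
          rwa [hl, mul_smul, ← show g' • z = g • a from hze, inv_smul_smul]
        have hlb : l • b ∈ F₀ := by
          obtain ⟨z, hz, hze⟩ := Finset.mem_image.1 hLb
          rwa [hl, mul_smul, ← show g' • z = g • b from hze, inv_smul_smul]
        rw [hF₀, Set.mem_toFinset] at hla hlb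
        have hmaps : ∀ w ∈ W₀, l⁻¹ * w * l ∈ H2 a b := fun w hw => ⟨by
          show (l⁻¹ * w * l) • a = a
          rw [mul_smul, mul_smul, hla w hw, inv_smul_smul], by
          show (l⁻¹ * w * l) • b = b
          rw [mul_smul, mul_smul, hlb w hw, inv_smul_smul]⟩
        let W := W₀.map (MulAut.conj l⁻¹).toMonoidHom
        have hW : W ≤ cH a b (S.P₀ K) ∨ W ≤ cH a b Q := by
          refine S.le_cH_or C K hab hQ hQc hQne hQall ?_
          rintro _ ⟨w, hw, rfl⟩
          simp only [MulEquiv.coe_toMonoidHom, MulAut.conj_apply, inv_inv]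
          exact ⟨hmaps w hw, S.fixedBy_card C K hab (S.P₀_le K) hP₀ hw h0 l⟩
        have hfix : ∀ (W' : Subgroup G), W ≤ W' → Nat.card W' ≤ Nat.card W₀ →
            (fixSet W' : Set Ω).toFinset.image (fun z => l • z) = F₀ := by
          intro W' hle hc'
          have hle' : ∀ w ∈ W₀, l⁻¹ * w * l ∈ W' := fun w hw => hle ⟨w, hw, by simp⟩
          have hback := conj_eq_of_card hle' hc'
          ext z
          simp only [Finset.mem_image, hF₀, Set.mem_toFinset]
          constructor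
          · rintro ⟨y, hy, rfl⟩ w hw
            have := hy _ (hle' w hw)
            rwa [mul_smul, mul_smul, inv_smul_eq_iff] at this
          · intro hz
            refine ⟨l⁻¹ • z, fun w hw => ?_, smul_inv_smul _ _⟩
            have := hz _ (hback w hw)
            rw [mul_smul, mul_smul] at this
            rw [eq_inv_smul_iff, this]
        have key : ∀ F : Finset Ω, F.image (fun z => l • z) = F₀ →
            F₀.image (fun z => g' • z) = F.image (fun z => g • z) := fun F hF => by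
          rw [← hF, Finset.image_image]
          congr 1; funext z; simp [hl, smul_smul]
        rcases hW with hW | hW
        · exact Or.inl (key F₀ (hfix _ hW le_rfl))
        · exact Or.inr (key F₁ (hfix _ hW hcard.ge))
      · rintro (rfl | rfl)
        · refine ⟨Finset.mem_image.2 ⟨g, Finset.mem_univ _, rfl⟩, ?_, ?_⟩
          · exact Finset.mem_image.2 ⟨a, Set.mem_toFinset.2 fun w hw => hw.1.1, rfl⟩
          · exact Finset.mem_image.2 ⟨b, Set.mem_toFinset.2 fun w hw => hw.1.2, rfl⟩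
        · refine ⟨Finset.mem_image.2 ⟨g * k⁻¹, Finset.mem_univ _, ?_⟩, ?_, ?_⟩
          · rw [← hkF, Finset.image_image]
            congr 1; funext z; simp [smul_smul]
          · exact Finset.mem_image.2 ⟨a, Set.mem_toFinset.2 fun w hw => hw.1.1, rfl⟩
          · exact Finset.mem_image.2 ⟨b, Set.mem_toFinset.2 fun w hw => hw.1.2, rfl⟩
    rw [hset, Finset.card_pair]
    exact fun e => hdist (Finset.image_injective (MulAction.injective g) e)
  rw [Finset.sum_congr rfl habove, Finset.sum_congr rfl hbelow, Finset.sum_const, Finset.sum_const,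
    smul_eq_mul, smul_eq_mul, Finset.offDiag_card, Finset.card_univ, ← Nat.card_eq_fintype_card,
    C.card, ← Nat.mul_sub_one, ← Nat.mul_sub_one, Nat.add_sub_cancel, Nat.add_sub_cancel] at hsum
  have hp3 : p = 3 := by
    have hd : p + 1 ∣ (2 * (p ^ 2 + 1)) * p ^ 2 := ⟨𝓛.card * p, by linear_combination -hsum⟩
    have hd2 : p + 1 ∣ 2 * (p ^ 2 + 1) := (Nat.Coprime.pow_right 2 (by simp)).dvd_of_dvd_mul_right hd
    obtain ⟨c, hc⟩ := hd2
    have h4 : p + 1 ∣ 4 := by
      refine (Int.natCast_dvd_natCast (m := p + 1) (n := 4)).1 ⟨(c : ℤ) - 2 * ((p : ℤ) - 1), ?_⟩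
      have : (2 * ((p : ℤ) ^ 2 + 1)) = ((p : ℤ) + 1) * c := by exact_mod_cast hc
      push_cast
      linear_combination this
    have := Nat.le_of_dvd (by norm_num) h4
    omega
  subst hp3
  -- the exceptional degree ten
  have hdis : ∀ w, w ∈ W₀ → w ∈ W₁ → w = 1 := by
    intro w hw hw'
    by_contra hw1
    have e0 := (mem_cH K (S.P₀_le K)).1 hw
    have e1 := (mem_cH K hQ).1 hw'
    have hne : centr K w ≠ ⊥ := fun e => by
      have := (e ▸ e0.2 : S.P₀ K ≤ ⊥)
      rw [le_bot_iff] at this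
      rw [this, Subgroup.card_bot] at hP₀
      exact absurd hP₀ (by norm_num)
    have hcw := S.card_centr C K hab e0.1 hw1 hne
    exact hQne ((Subgroup.eq_of_le_of_card_ge e1.2 (by rw [hcw, hQc])).trans
      (Subgroup.eq_of_le_of_card_ge e0.2 (by rw [hcw, hP₀])).symm)
  obtain ⟨u, hu, hu1⟩ : ∃ u ∈ S.P₀ K, u ≠ 1 := by
    by_contra hh
    push Not at hh
    rw [(Subgroup.eq_bot_iff_forall _).2 hh, Subgroup.card_bot] at hP₀
    exact absurd hP₀ (by norm_num)
  obtain ⟨q, hq, hq1⟩ : ∃ q ∈ Q, q ≠ 1 := by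
    by_contra hh
    push Not at hh
    rw [(Subgroup.eq_bot_iff_forall _).2 hh, Subgroup.card_bot] at hQc
    exact absurd hQc (by norm_num)
  have hQnorm : ∀ h ∈ H2 a b, h * q * h⁻¹ ∈ Q := by
    intro h hh
    obtain ⟨w, hw, hw1⟩ : ∃ w ∈ W₁, w ≠ 1 := by
      by_contra hh'
      push Not at hh'
      exact h1 ((Subgroup.eq_bot_iff_forall _).2 hh')
    have hwc := (mem_cH K hQ).1 hw
    have hne : centr K w ≠ ⊥ := fun e => hq1 (by simpa [e] using hwc.2 hq)
    have hQeq : Q = centr K w :=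
      Subgroup.eq_of_le_of_card_ge hwc.2 (by rw [S.card_centr C K hab hwc.1 hw1 hne, hQc])
    have hq' := (mem_centr K).1 (hwc.2 hq)
    rw [hQeq]
    refine (mem_centr K).2 ⟨S.conj_mem C K hh hq'.1, ?_⟩
    have e : w * h = h * w := S.H2_comm C K hab hwc.1 hh
    calc w * (h * q * h⁻¹) = (w * h) * q * h⁻¹ := by group
      _ = h * (w * q) * h⁻¹ := by rw [e]; group
      _ = h * q * (h⁻¹ * (h * w)) * h⁻¹ := by rw [hq'.2]; group
      _ = h * q * h⁻¹ * w := by rw [← e]; group
  -- at most four elements fix two points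
  have hinjH : ∀ h ∈ H2 a b, ∀ h' ∈ H2 a b, h * u * h⁻¹ = h' * u * h'⁻¹ →
      h * q * h⁻¹ = h' * q * h'⁻¹ → h = h' := by
    intro h hh h' hh' eu eq'
    have hk' : h'⁻¹ * h ∈ H2 a b := mul_mem (inv_mem hh') hh
    have com : ∀ v : G, h * v * h⁻¹ = h' * v * h'⁻¹ → h'⁻¹ * h * v = v * (h'⁻¹ * h) := fun v e => by
      rw [mul_inv_eq_iff_eq_mul] at e
      rw [mul_assoc, e]; group
    refine (inv_mul_eq_one.1 ?_).symm
    by_contra hne
    have hcu : u ∈ centr K (h'⁻¹ * h) := (mem_centr K).2 ⟨hu.1, com u eu⟩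
    have hcq : q ∈ centr K (h'⁻¹ * h) := (mem_centr K).2 ⟨hQ hq, com q eq'⟩
    have hne' : centr K (h'⁻¹ * h) ≠ ⊥ := fun e => hu1 (by simpa [e] using hcu)
    have hcc := S.card_centr C K hab hk' hne hne'
    exact hQne ((eq_of_card_prime hQc hcc hq hcq hq1).trans
      (eq_of_card_prime hP₀ hcc hu hcu hu1).symm)
  have hH4 : Nat.card (H2 (G := G) a b) ≤ 4 := by
    have hinj : Function.Injective (fun h : H2 (G := G) a b =>
        ((⟨(h : G) * u * (h : G)⁻¹, S.P₀_normal C K hab h.2.1 hu, fun e => hu1 (conj_eq_one_iff.1 e)⟩,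
          ⟨(h : G) * q * (h : G)⁻¹, hQnorm h h.2, fun e => hq1 (conj_eq_one_iff.1 e)⟩) :
          ((S.P₀ K : Set G) \ {1} : Set G) × ((Q : Set G) \ {1} : Set G))) := fun h h' e =>
      Subtype.ext (hinjH h h.2 h' h'.2 (congrArg (fun x => (x.1 : G)) e)
        (congrArg (fun x => (x.2 : G)) e))
    have h := Nat.card_le_card_of_injective _ hinj
    rw [Nat.card_prod, Nat.card_coe_set_eq, Nat.card_coe_set_eq,
      Set.ncard_sdiff_singleton_of_mem (show (1 : G) ∈ (S.P₀ K : Set G) from one_mem _),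
      Set.ncard_sdiff_singleton_of_mem (show (1 : G) ∈ (Q : Set G) from one_mem _)] at h
    rw [← Nat.card_coe_set_eq, ← Nat.card_coe_set_eq] at h
    change _ ≤ (Nat.card (S.P₀ K) - 1) * (Nat.card Q - 1) at h
    rw [hP₀, hQc] at h
    exact h
  obtain ⟨t₀, ht₀, ht₀1⟩ : ∃ w ∈ W₀, w ≠ 1 := by
    by_contra hh
    push Not at hh
    exact h0 ((Subgroup.eq_bot_iff_forall _).2 hh)
  obtain ⟨t₁, ht₁, ht₁1⟩ : ∃ w ∈ W₁, w ≠ 1 := by
    by_contra hh
    push Not at hh
    exact h1 ((Subgroup.eq_bot_iff_forall _).2 hh)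
  have hne01 : t₀ ≠ t₁ := fun e => ht₀1 (hdis t₀ ht₀ (e ▸ ht₁))
  have hne2 : t₀ * t₁ ≠ 1 := fun e => ht₀1 (hdis t₀ ht₀
    (by rw [mul_eq_one_iff_eq_inv.1 e]; exact inv_mem ht₁))
  have ht₀H : t₀ ∈ H2 a b := ht₀.1
  have ht₁H : t₁ ∈ H2 a b := ht₁.1
  have hHcases : ∀ h ∈ H2 a b, h = 1 ∨ h = t₀ ∨ h = t₁ ∨ h = t₀ * t₁ := by
    intro h hh
    by_contra hcon
    push Not at hcon
    obtain ⟨e1, e2, e3, e4⟩ := hcon
    have hsub : ({1, t₀, t₁, t₀ * t₁, h} : Finset G) ⊆ ((H2 (G := G) a b : Subgroup G) : Set G).toFinset := by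
      intro z hz
      simp only [Finset.mem_insert, Finset.mem_singleton] at hz
      rw [Set.mem_toFinset]
      rcases hz with rfl | rfl | rfl | rfl | rfl
      exacts [one_mem _, ht₀H, ht₁H, mul_mem ht₀H ht₁H, hh]
    have hle := Finset.card_le_card hsub
    rw [← Set.ncard_eq_toFinset_card', ← Nat.card_coe_set_eq] at hle
    rw [Finset.card_insert_of_notMem, Finset.card_insert_of_notMem, Finset.card_insert_of_notMem,
      Finset.card_pair e4.symm] at hle
    · change _ ≤ Nat.card (H2 (G := G) a b) at hle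
      omega
    · simp only [Finset.mem_insert, Finset.mem_singleton]
      rintro (e | e)
      · exact ht₀1 (by simpa using e.symm)
      · exact e3 e.symm
    · simp only [Finset.mem_insert, Finset.mem_singleton]
      rintro (e | e | e)
      · exact hne01 e
      · exact ht₁1 (by simpa using e.symm)
      · exact e2 e.symm
    · simp only [Finset.mem_insert, Finset.mem_singleton]
      rintro (e | e | e | e)
      · exact ht₀1 e.symm
      · exact ht₁1 e.symm
      · exact hne2 e.symm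
      · exact e1 e.symm
  have hsq₀ : t₀ * t₀ = 1 := by
    rcases hHcases _ (mul_mem ht₀H ht₀H) with e | e | e | e
    · exact e
    · exact absurd (by simpa using e) ht₀1
    · exact absurd (hdis _ (e ▸ mul_mem ht₀ ht₀) ht₁) ht₁1
    · exact absurd (mul_left_cancel e) hne01
  have hsq₁ : t₁ * t₁ = 1 := by
    rcases hHcases _ (mul_mem ht₁H ht₁H) with e | e | e | e
    · exact e
    · exact absurd (hdis _ ht₀ (e ▸ mul_mem ht₁ ht₁)) ht₀1
    · exact absurd (by simpa using e) ht₁1
    · exact absurd (mul_right_cancel e).symm hne01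
  -- the sign character
  let σ : G →* ℤˣ := Equiv.Perm.sign.comp (MulAction.toPermHom G Ω)
  have hodd : ∀ (N' : Subgroup G) (t : G), N' ≤ K.P → Nat.card N' = 3 → t ∈ cH a b N' → t ≠ 1 →
      t * t = 1 → σ t = -1 := by
    intro N' t hN' hN'c ht ht1 htt
    have hne : cH a b N' ≠ ⊥ := fun e => ht1 (by simpa [e] using ht)
    have ht' := (mem_cH K hN').1 ht
    have hfix : ({z | t • z = z} : Set Ω) = fixSet (cH a b N') := by
      refine subset_antisymm (fun z hz => ?_) fun z hz => hz t ht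
      rw [S.fixSet_cH C K hab hN' hN'c hne]
      by_cases hza : z = a
      · exact Or.inl hza
      obtain ⟨v, hv, rfl⟩ := K.trans b z hab hza
      refine Or.inr ⟨v, ?_, rfl⟩
      have hv' : v ∈ centr K t := (mem_centr K).2 ⟨hv, S.commute_of_smul_fix C K hab ht'.1 hv hz⟩
      have hne' : centr K t ≠ ⊥ := fun e => by
        have := (e ▸ ht'.2 : N' ≤ ⊥)
        rw [le_bot_iff] at this
        rw [this, Subgroup.card_bot] at hN'c
        exact absurd hN'c (by norm_num)
      rwa [← Subgroup.eq_of_le_of_card_ge ht'.2 (by rw [S.card_centr C K hab ht'.1 ht1 hne', hN'c])] at hv'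
    have hpow : (MulAction.toPermHom G Ω t) ^ 2 = 1 := by rw [← map_pow, sq, htt, map_one]
    change Equiv.Perm.sign (MulAction.toPermHom G Ω t) = -1
    rw [Equiv.Perm.sign_of_pow_two_eq_one hpow, ← Nat.card_eq_fintype_card,
      ← Nat.card_eq_fintype_card, C.card]
    rw [show Nat.card (Function.fixedPoints (MulAction.toPermHom G Ω t)) = 4 from
      (Nat.card_coe_set_eq _).trans ((congrArg Set.ncard hfix).trans
        (S.ncard_fixSet_cH C K hab hN' hN'c hne))]
    decide
  have hσ₀ := hodd _ t₀ (S.P₀_le K) hP₀ ht₀ ht₀1 hsq₀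
  have hσ₁ := hodd _ t₁ hQ hQc ht₁ ht₁1 hsq₁
  set N := σ.ker with hN
  have hPN : ∀ v ∈ K.P, v ∈ N := by
    intro v hv
    have h9 : σ v ^ 9 = 1 := by
      have := pow_card_eq_one' (G := K.P) (x := ⟨v, hv⟩)
      rw [K.card] at this
      rw [← map_pow, show v ^ 9 = 1 from congrArg Subtype.val this, map_one]
    rcases Int.units_eq_one_or (σ v) with e | e
    · exact e
    · rw [e] at h9; exact absurd h9 (by decide)
  -- the kernel is doubly transitive
  have htrN : ∀ x : Ω, ∃ n ∈ N, n • x = a := by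
    intro x
    by_cases hx : x = a
    · exact ⟨1, one_mem _, by rw [hx, one_smul]⟩
    obtain ⟨y, hyx, hya⟩ : ∃ y, y ≠ x ∧ y ≠ a := by
      by_contra hh
      push Not at hh
      have := Set.ncard_le_ncard (s := Set.univ) (t := {x, a}) (fun y _ => by
        by_cases hyx : y = x
        · exact Or.inl hyx
        · exact Or.inr (hh y hyx)) (Set.toFinite _)
      rw [Set.ncard_univ, Set.ncard_pair hx, C.card] at this
      omega
    obtain ⟨g, hga, hgb⟩ := C.exists_pair hab.symm (show y ≠ x from hyx)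
    obtain ⟨v, hv, hvb⟩ := K.trans b (g⁻¹ • a) hab (fun e => hya (by
      rw [inv_smul_eq_iff, hga] at e; exact e.symm))
    refine ⟨g * v * g⁻¹, ?_, ?_⟩
    · rw [hN, MonoidHom.mem_ker, map_mul, map_mul, map_inv,
        MonoidHom.mem_ker.1 (hPN v hv), mul_one, mul_inv_cancel]
    · rw [mul_smul, mul_smul, inv_smul_eq_iff.2 hgb.symm, hvb, smul_inv_smul]
  have hpair : ∀ x y z w : Ω, x ≠ y → z ≠ w → ∃ n : N, n • x = z ∧ n • y = w := by
    intro x y z w hxy hzw
    obtain ⟨n₁, hn₁, hn₁x⟩ := htrN x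
    obtain ⟨n₂, hn₂, hn₂z⟩ := htrN z
    obtain ⟨v, hv, hvy⟩ := K.trans (n₁ • y) (n₂ • w)
      (fun e => hxy (smul_left_cancel n₁ (hn₁x.trans e.symm)))
      (fun e => hzw (smul_left_cancel n₂ (hn₂z.trans e.symm)))
    refine ⟨⟨n₂⁻¹ * v * n₁, mul_mem (mul_mem (inv_mem hn₂) (hPN v hv)) hn₁⟩, ?_, ?_⟩
    · change (n₂⁻¹ * v * n₁) • x = z
      rw [mul_smul, mul_smul, hn₁x, K.fix v hv, inv_smul_eq_iff, hn₂z]
    · change (n₂⁻¹ * v * n₁) • y = w
      rw [mul_smul, mul_smul, hvy, inv_smul_smul]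
  have hHN : ∀ h ∈ H2 a b, h ∈ N → h = 1 ∨ h = t₀ * t₁ := by
    intro h hh hhN
    rw [hN, MonoidHom.mem_ker] at hhN
    rcases hHcases h hh with e | e | e | e
    · exact Or.inl e
    · rw [e, hσ₀] at hhN; exact absurd hhN (by decide)
    · rw [e, hσ₁] at hhN; exact absurd hhN (by decide)
    · exact Or.inr e
  have hfree2 : ∀ v ∈ K.P, (t₀ * t₁) • v • b = v • b → v = 1 := by
    intro v hv hfix
    have hH : t₀ * t₁ ∈ H2 a b := mul_mem ht₀H ht₁H
    have hv' : v ∈ centr K (t₀ * t₁) :=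
      (mem_centr K).2 ⟨hv, S.commute_of_smul_fix C K hab hH hv hfix⟩
    by_contra hv1
    have hne : centr K (t₀ * t₁) ≠ ⊥ := fun e => hv1 (by simpa [e] using hv')
    rcases hQall _ hH hne2 hne with e | e
    · have h' : t₀ * t₁ ∈ W₀ := (mem_cH K (S.P₀_le K)).2 ⟨hH, e.ge⟩
      exact ht₁1 (hdis t₁ (by simpa using mul_mem (inv_mem ht₀) h') ht₁)
    · have h' : t₀ * t₁ ∈ W₁ := (mem_cH K hQ).2 ⟨hH, e.ge⟩
      exact ht₀1 (hdis t₀ ht₀ (by simpa using mul_mem h' (inv_mem ht₁)))
  let D : CfsgLib.ZassAbelian.Setting N Ω :=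
    { i := a
      o := b
      io := hab.symm
      pair := hpair
      three := fun g x y z hxy hyz hxz hx hy hz => by
        obtain ⟨m, hmx, hmy⟩ := hpair x y a b hxy hab.symm
        have hmx' : (m : G) • x = a := hmx
        have hmy' : (m : G) • y = b := hmy
        set h : G := m * g * (m : G)⁻¹ with hh
        have hmem : h ∈ H2 a b := ⟨by
          show h • _ = _
          rw [hh, mul_smul, mul_smul, inv_smul_eq_iff.2 hmx'.symm,
            show (g : G) • x = x from hx, hmx'], by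
          show h • _ = _
          rw [hh, mul_smul, mul_smul, inv_smul_eq_iff.2 hmy'.symm,
            show (g : G) • y = y from hy, hmy']⟩
        rcases hHN h hmem (mul_mem (mul_mem m.2 g.2) (inv_mem m.2)) with e | e
        · exact Subtype.ext (conj_eq_one_iff.1 e)
        · exfalso
          have hmz : (m : G) • z ≠ a := fun e' => hxz (smul_left_cancel (m : G) (hmx'.trans e'.symm))
          obtain ⟨v, hv, hvb⟩ := K.trans b _ hab hmz
          have hv1 := hfree2 v hv (by
            rw [← e, hvb, hh, mul_smul, mul_smul, inv_smul_smul, show (g : G) • z = z from hz])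
          rw [hv1, one_smul, ← hmy'] at hvb
          exact hyz (smul_left_cancel (m : G) hvb)
      third := by
        obtain ⟨v, hv, hv1⟩ : ∃ v ∈ K.P, v ≠ 1 := ⟨u, hu.1, hu1⟩
        exact ⟨v • b, eq_inv_smul_ne (K.fix v hv) hab, fun e => hv1 (K.free v hv b hab e)⟩
      F := K.P.subgroupOf N
      Fle := fun v hv => K.fix v hv
      Fnorm := fun g hg v hv => S.reg_normal C K (show (g : G) • a = a from hg) hv
      Fcomm := fun v hv w hw => Subtype.ext (K.comm v hv w hw)
      reg := fun y z hy hz => by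
        obtain ⟨v, hv, hvy⟩ := K.trans y z hy hz
        exact ⟨⟨v, hPN v hv⟩, hv, hvy⟩
      free := fun v hv y hy hvy => Subtype.ext (K.free v hv y hy hvy) }
  have hF : Nat.card D.F = 9 := by
    have := D.card_Omega
    rw [C.card] at this
    omega
  have hH : Nat.card D.H ≤ 2 := by
    have hsub : (D.H : Set N) ⊆ {1, ⟨t₀ * t₁, by
        rw [hN, MonoidHom.mem_ker, map_mul, hσ₀, hσ₁]; decide⟩} := by
      intro h hh
      obtain ⟨ha', hb'⟩ := D.mem_H.1 hh
      rcases hHN (h : G) ⟨ha', hb'⟩ h.2 with e | e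
      · exact Or.inl (Subtype.ext e)
      · exact Or.inr (Subtype.ext e)
    refine le_trans ?_ (le_trans (Set.ncard_le_ncard hsub (Set.toFinite _))
      ((Set.ncard_insert_le _ _).trans (by rw [Set.ncard_singleton])))
    rw [← Nat.card_coe_set_eq]
    exact le_rfl
  rcases CfsgLib.ZassAbelian.classify D with h | ⟨h, -⟩ | h
  · omega
  · omega
  · haveI := D.faithful
    exact not_hasRegularNormal C (is_two_pretransitive_iff.2 fun hxy hzw => hpair _ _ _ _ hxy hzw) h

include S C in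
/-- No block system at all. -/
theorem false_of_sys : False := by
  classical
  obtain ⟨⟨a⟩, -⟩ := Nat.card_pos_iff.1 (by rw [C.card]; omega : 0 < Nat.card Ω)
  obtain ⟨b, hab⟩ := C.exists_ne a
  obtain ⟨K⟩ := S.exists_reg C a
  have h3 := C.three_le
  by_cases hsr : ∀ h ∈ H2 a b, h ≠ 1 → centr K h = ⊥
  · exact S.semiregular_false C K hab hsr
  push Not at hsr
  have hP₀ := S.card_P₀ K hab
  have hwc : ∀ W : Subgroup G, W ≤ H2 a b → W ≠ ⊥ → 2 < (fixSet W : Set Ω).ncard →
      (∀ k : G, (∀ w ∈ W, k⁻¹ * w * k ∈ H2 a b) → ∀ w ∈ W, k⁻¹ * w * k ∈ W) → False :=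
    fun W hW hne h hcl => hne (eq_bot_of_weaklyClosed hp.out C.odd C.card C.two hab.symm W
      (fun w hw => hW hw) (fun k hk => hcl k fun w hw => hk w hw) h)
  have hfix : ∀ N : Subgroup G, N ≤ K.P → Nat.card N = p → cH a b N ≠ ⊥ →
      2 < (fixSet (cH a b N) : Set Ω).ncard := fun N hN hc hne => by
    rw [S.ncard_fixSet_cH C K hab hN hc hne]; omega
  obtain ⟨Q, hQ, hQc, hQne, hQall⟩ : ∃ Q : Subgroup G, Q ≤ K.P ∧ Nat.card Q = p ∧ Q ≠ S.P₀ K ∧
      ∀ h ∈ H2 a b, h ≠ 1 → centr K h ≠ ⊥ → centr K h = S.P₀ K ∨ centr K h = Q := by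
    by_cases hex : ∃ h ∈ H2 a b, h ≠ 1 ∧ centr K h ≠ ⊥ ∧ centr K h ≠ S.P₀ K
    · obtain ⟨h, hh, h1, h2, h3⟩ := hex
      refine ⟨centr K h, inf_le_left, S.card_centr C K hab hh h1 h2, h3, fun g hg g1 g2 => ?_⟩
      by_cases g3 : centr K g = S.P₀ K
      · exact Or.inl g3
      · exact Or.inr (S.centr_unique C K hab hg hh (S.card_centr C K hab hg g1 g2)
          (S.card_centr C K hab hh h1 h2) g3 h3)
    · push Not at hex
      obtain ⟨φ, hφ0, -, -, -, -⟩ := S.exists_coord K hab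
      -- any other subgroup of order `p`, or a degenerate one
      exfalso
      refine hwc (cH a b (S.P₀ K)) inf_le_left ?_ (hfix _ (S.P₀_le K) hP₀ ?_) fun k hk w hw => ?_
      all_goals
        obtain ⟨h, hh, h1, h2⟩ := hsr
        have hmem : h ∈ cH a b (S.P₀ K) :=
          (mem_cH K (S.P₀_le K)).2 ⟨hh, (hex h hh h1 h2).ge⟩
        have hne : cH a b (S.P₀ K) ≠ ⊥ := fun e => h1 (by simpa [e] using hmem)
      · exact hne
      · exact hne
      · by_cases hw1 : k⁻¹ * w * k = 1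
        · rw [hw1]; exact one_mem _
        refine (mem_cH K (S.P₀_le K)).2 ⟨hk w hw, (hex _ (hk w hw) hw1 ?_).ge⟩
        intro e
        obtain ⟨z, hz, hzab⟩ : ∃ z, (k⁻¹ * w * k) • z = z ∧ z ∉ ({a, b} : Set Ω) := by
          by_contra hh'
          push Not at hh'
          have := Set.ncard_le_ncard (fun z (hz : z ∈ {z | (k⁻¹ * w * k) • z = z}) => hh' z hz)
            (Set.toFinite _)
          rw [Set.ncard_pair hab.symm] at this
          have := S.fixedBy_card C K hab (S.P₀_le K) hP₀ hw hne k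
          omega
        obtain ⟨v, hv, rfl⟩ := K.trans b z hab (fun e' => hzab (Or.inl e'))
        have hv' := (mem_centr K).2 ⟨hv, S.commute_of_smul_fix C K hab (hk w hw) hv hz⟩
        rw [e, Subgroup.mem_bot] at hv'
        exact hzab (Or.inr (by rw [hv', one_smul]; rfl))
  set W₀ := cH a b (S.P₀ K) with hW₀
  set W₁ := cH a b Q with hW₁
  have hor : ∀ (W : Subgroup G) (N : Subgroup G), W = cH a b N → N ≤ K.P → Nat.card N = p → W ≠ ⊥ →
      ∀ k : G, (∀ w ∈ W, k⁻¹ * w * k ∈ H2 a b) →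
        (∀ w ∈ W, k⁻¹ * w * k ∈ W₀) ∨ (∀ w ∈ W, k⁻¹ * w * k ∈ W₁) := by
    rintro W N rfl hN hNc hne k hk
    let W' := (cH a b N).map (MulAut.conj k⁻¹).toMonoidHom
    have h := S.le_cH_or C K hab hQ hQc hQne hQall (W := W') (by
      rintro _ ⟨w, hw, rfl⟩
      simp only [MulEquiv.coe_toMonoidHom, MulAut.conj_apply, inv_inv]
      exact ⟨hk w hw, S.fixedBy_card C K hab hN hNc hw hne k⟩)
    rcases h with h | h
    · exact Or.inl fun w hw => h ⟨w, hw, by simp⟩
    · exact Or.inr fun w hw => h ⟨w, hw, by simp⟩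
  have hcardle : ∀ (W W' : Subgroup G) (k : G), (∀ w ∈ W, k⁻¹ * w * k ∈ W') →
      Nat.card W ≤ Nat.card W' := fun W W' k h =>
    Nat.card_le_card_of_injective (fun w : W => (⟨k⁻¹ * w * k, h w w.2⟩ : W'))
      fun w w₁ e => Subtype.ext (by simpa using congrArg Subtype.val e)
  rcases lt_trichotomy (Nat.card W₁) (Nat.card W₀) with hlt | heq | hlt
  · -- the first subgroup is weakly closed
    have hne : W₀ ≠ ⊥ := fun e => by
      rw [e, Subgroup.card_bot] at hlt
      have := Nat.card_pos (α := W₁)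
      omega
    refine hwc W₀ inf_le_left hne (hfix _ (S.P₀_le K) hP₀ hne) fun k hk => ?_
    refine (hor W₀ _ rfl (S.P₀_le K) hP₀ hne k hk).resolve_right fun h => ?_
    exact absurd (hcardle _ _ k h) (not_le.2 hlt)
  · have hne : W₀ ≠ ⊥ := by
      obtain ⟨h, hh, h1, h2⟩ := hsr
      rcases hQall h hh h1 h2 with e | e
      · exact fun eb => h1 (by simpa [← hW₀, eb] using ((mem_cH K (S.P₀_le K)).2 ⟨hh, e.ge⟩ : h ∈ W₀))
      · intro eb
        have hW₁1 : W₁ = ⊥ := Subgroup.card_eq_one.1 (by rw [heq, eb, Subgroup.card_bot])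
        exact h1 (by simpa [← hW₁, hW₁1] using ((mem_cH K hQ).2 ⟨hh, e.ge⟩ : h ∈ W₁))
    have hne1 : W₁ ≠ ⊥ := fun e => hne (Subgroup.card_eq_one.1 (by rw [← heq, e, Subgroup.card_bot]))
    by_cases hf : ∃ k : G, ∀ w ∈ W₀, k⁻¹ * w * k ∈ W₁
    · obtain ⟨k, hk⟩ := hf
      exact S.fused_false C K hab hQ hQc hQne hQall hne hne1 heq.symm hk
    · refine hwc W₀ inf_le_left hne (hfix _ (S.P₀_le K) hP₀ hne) fun k hk => ?_
      exact (hor W₀ _ rfl (S.P₀_le K) hP₀ hne k hk).resolve_right fun h => hf ⟨k, h⟩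
  · have hne : W₁ ≠ ⊥ := fun e => by
      rw [e, Subgroup.card_bot] at hlt
      have := Nat.card_pos (α := W₀)
      omega
    refine hwc W₁ inf_le_left hne (hfix _ hQ hQc hne) fun k hk => ?_
    refine (hor W₁ _ rfl hQ hQc hne k hk).resolve_left fun h => ?_
    exact absurd (hcardle _ _ k h) (not_le.2 hlt)

end Sys

end CfsgLib.TwoTransSquare
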