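import Cfsg.Agent.TwoTransSquarePlusOne.Design
import Mathlib.GroupTheory.Sylow
import Mathlib.GroupTheory.SpecificGroups.Cyclic
import Mathlib.Data.ZMod.Basic

/-!
Block systems of the point stabilisers of a doubly transitive group of degree `p ^ 2 + 1`.
-/

set_option autoImplicit false
set_option linter.style.haveILetI false
set_option linter.unusedSectionVars false

namespace CfsgLib.TwoTransSquare

open MulAction

/-- Standing assumptions. -/
structure Ctx (G Ω : Type*) [Group G] [MulAction G Ω] (p : ℕ) : Prop where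
  odd : p ≠ 2
  card : Nat.card Ω = p ^ 2 + 1
  two : IsMultiplyPretransitive G Ω 2

/-- An invariant family: for every point `x` a partition of the other points into sets of size `p`. -/
structure Sys (G Ω : Type*) [Group G] [MulAction G Ω] (p : ℕ) where
  R : Ω → Ω → Ω → Prop
  ne : ∀ {x y z}, R x y z → y ≠ x ∧ z ≠ x
  refl : ∀ {x y}, y ≠ x → R x y y
  symm : ∀ {x y z}, R x y z → R x z y
  trans : ∀ {x y z w}, R x y z → R x z w → R x y w
  equiv : ∀ (g : G) {x y z}, R x y z → R (g • x) (g • y) (g • z)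
  card : ∀ {x y}, y ≠ x → {z | R x y z}.ncard = p

/-- A regular abelian subgroup of order `p ^ 2` of the stabiliser of `a`. -/
structure Reg (G Ω : Type*) [Group G] [MulAction G Ω] (p : ℕ) (a : Ω) where
  P : Subgroup G
  fix : ∀ v ∈ P, v • a = a
  card : Nat.card P = p ^ 2
  comm : ∀ v ∈ P, ∀ w ∈ P, v * w = w * v
  trans : ∀ y z : Ω, y ≠ a → z ≠ a → ∃ v ∈ P, v • y = z
  free : ∀ v ∈ P, ∀ y : Ω, y ≠ a → v • y = y → v = 1

variable {G Ω : Type*} [Group G] [MulAction G Ω] [Finite G] [Finite Ω] [FaithfulSMul G Ω]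
  {p : ℕ} [hp : Fact p.Prime]

theorem ne_one_of_smul_ne {g : G} {y : Ω} (h : g • y ≠ y) : g ≠ 1 := fun e => h (by rw [e, one_smul])

namespace Ctx

variable (C : Ctx G Ω p)

include C

theorem three_le : 3 ≤ p := by have := hp.out.two_le; have := C.odd; omega

theorem exists_pair {a b c d : Ω} (hab : a ≠ b) (hcd : c ≠ d) : ∃ g : G, g • a = c ∧ g • b = d :=
  exists_smul_pair C.two hab hcd

theorem exists_ne (a : Ω) : ∃ b, b ≠ a := by
  haveI : Nontrivial Ω := Finite.one_lt_card_iff_nontrivial.1 (by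
    rw [C.card]; have := pow_pos hp.out.pos 2; omega)
  exact _root_.exists_ne a

theorem card_compl (a : Ω) : ({a}ᶜ : Set Ω).ncard = p ^ 2 := by
  rw [Set.ncard_compl, Set.ncard_singleton, C.card, Nat.add_sub_cancel]

/-- The order of the stabiliser of a point. -/
theorem card_stabilizer {a b : Ω} (hab : b ≠ a) :
    Nat.card (stabilizer G a) = p ^ 2 * Nat.card ↥(stabilizer G a ⊓ stabilizer G b) := by
  classical
  have horb : orbit (stabilizer G a) b = ({a}ᶜ : Set Ω) := by
    ext z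
    constructor
    · rintro ⟨⟨g, hg⟩, rfl⟩ hz
      exact hab (MulAction.injective g ((Set.mem_singleton_iff.1 hz).trans (mem_stabilizer_iff.1 hg).symm))
    · intro hz
      obtain ⟨g, hga, hgb⟩ := C.exists_pair hab.symm (Ne.symm hz)
      exact ⟨⟨g, hga⟩, hgb⟩
  rw [Subgroup.card_eq_card_quotient_mul_card_subgroup (stabilizer (stabilizer G a) b),
    ← Nat.card_congr (orbitEquivQuotientStabilizer (stabilizer G a) b), Nat.card_coe_set_eq, horb,
    C.card_compl]
  congr 1
  refine Nat.card_congr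
    { toFun := fun g => ⟨(g : stabilizer G a), ⟨(g : stabilizer G a).2, g.2⟩⟩
      invFun := fun g => ⟨⟨g, g.2.1⟩, g.2.2⟩
      left_inv := fun _ => rfl
      right_inv := fun _ => rfl }

end Ctx

namespace Sys

variable (S : Sys G Ω p) (C : Ctx G Ω p)

/-- The block of `y` seen from `x`, together with `x`. -/
def line (x y : Ω) : Set Ω := insert x {z | S.R x y z}

theorem equiv_iff (g : G) {x y z : Ω} : S.R (g • x) (g • y) (g • z) ↔ S.R x y z :=
  ⟨fun h => by simpa using S.equiv g⁻¹ h, S.equiv g⟩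

theorem equiv_of_fix {g : G} {x y z : Ω} (hx : g • x = x) (h : S.R x y z) :
    S.R x (g • y) (g • z) := by simpa [hx] using S.equiv g h

theorem line_ncard {x y : Ω} (h : y ≠ x) : (S.line x y).ncard = p + 1 := by
  rw [line, Set.ncard_insert_of_notMem (fun e : x ∈ {z | S.R x y z} => (S.ne e).2 rfl), S.card h]

theorem mem_line {x y : Ω} (h : y ≠ x) : x ∈ S.line x y ∧ y ∈ S.line x y :=
  ⟨Set.mem_insert _ _, Set.mem_insert_of_mem _ (S.refl h)⟩

theorem line_congr {x y z : Ω} (h : S.R x y z) : S.line x z = S.line x y := by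
  unfold line
  congr 1
  ext w
  exact ⟨fun hw => S.trans h hw, fun hw => S.trans (S.symm h) hw⟩

theorem line_smul (g : G) (x y : Ω) : S.line (g • x) (g • y) = (fun z => g • z) '' S.line x y := by
  unfold line
  rw [Set.image_insert_eq]
  congr 1
  ext w
  constructor
  · intro hw
    exact ⟨g⁻¹ • w, (S.equiv_iff g).1 (by rwa [smul_inv_smul]), smul_inv_smul _ _⟩
  · rintro ⟨z, hz, rfl⟩
    exact S.equiv g hz

include C in
/-- Lines are not symmetric. -/
theorem line_ne_swap {a b : Ω} (hab : b ≠ a) : S.line a b ≠ S.line b a := by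
  intro h
  have hsymm : ∀ x y : Ω, x ≠ y → S.line x y = S.line y x := by
    intro x y hxy
    obtain ⟨g, rfl, rfl⟩ := C.exists_pair hab.symm hxy
    rw [S.line_smul, S.line_smul, h]
  have h3 := C.three_le
  refine no_design hp.out C.odd C.card S.line (k := p + 1) (by omega)
    (by nlinarith) (fun x y hxy => S.mem_line (Ne.symm hxy)) (fun x y hxy u hu v hv huv => ?_)
    (fun x y hxy => S.line_ncard (Ne.symm hxy))
  rcases Set.mem_insert_iff.1 hu with rfl | hu
  · exact S.line_congr ((Set.mem_insert_iff.1 hv).resolve_left (Ne.symm huv))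
  · have hux : u ≠ x := (S.ne hu).2
    have e1 : S.line u x = S.line x y := by rw [hsymm u x hux, S.line_congr hu]
    have hv' : v ∈ S.line u x := e1 ▸ hv
    rw [S.line_congr ((Set.mem_insert_iff.1 hv').resolve_left (Ne.symm huv)), e1]

include C in
/-- The block of `a` seen from `b` is not inside the block of `b` seen from `a`. -/
theorem exists_outside {a b : Ω} (hab : b ≠ a) :
    ∃ c, S.R b a c ∧ c ≠ a ∧ ¬ S.R a b c := by
  by_contra hh
  push Not at hh
  refine S.line_ne_swap C hab (Set.eq_of_subset_of_ncard_le ?_ ?_ (Set.toFinite _)).symm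
  · intro z hz
    rcases Set.mem_insert_iff.1 hz with rfl | hz
    · exact (S.mem_line hab).2
    · by_cases hza : z = a
      · rw [hza]; exact (S.mem_line hab).1
      · exact Set.mem_insert_of_mem _ (hh z hz hza)
  · rw [S.line_ncard hab, S.line_ncard hab.symm]

theorem fix_block_of_pow {a b : Ω} (hab : b ≠ a) {g : G} {k : ℕ} (hg : g ^ p ^ k = 1)
    (ha : g • a = a) (hb : g • b = b) {z : Ω} (hz : S.R a b z) : g • z = z := by
  by_cases hzb : z = b
  · rw [hzb, hb]
  refine smul_eq_of_pow_of_small (S := {w | S.R a b w} \ {b}) hg (fun w hw => ?_) ?_ ⟨hz, hzb⟩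
  · refine ⟨?_, fun e => hw.2 ?_⟩
    · have := S.equiv_of_fix ha hw.1
      rwa [hb] at this
    · exact MulAction.injective g ((Set.mem_singleton_iff.1 e).trans hb.symm)
  · rw [Set.ncard_sdiff_singleton_of_mem (show b ∈ {w | S.R a b w} from S.refl hab), S.card hab]
    have := hp.out.pos; omega

include S C in
theorem not_dvd_card_H {a b : Ω} (hab : b ≠ a) :
    ¬ p ∣ Nat.card ↥(stabilizer G a ⊓ stabilizer G b) := by
  intro hdvd
  obtain ⟨⟨g, hg⟩, hord⟩ := exists_prime_orderOf_dvd_card' p hdvd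
  set T : Set G := {t | t • a = a ∧ t • b = b ∧ ∃ k, t ^ p ^ k = 1}
  have hbot : Subgroup.closure T = ⊥ := by
    have hle : Subgroup.closure T ≤ stabilizer G a ⊓ stabilizer G b :=
      (Subgroup.closure_le _).2 fun t ht => ⟨ht.1, ht.2.1⟩
    refine eq_bot_of_weaklyClosed hp.out C.odd C.card C.two hab.symm _
      (fun w hw => hle hw) (fun k hk w hw => ?_) ?_
    · induction hw using Subgroup.closure_induction with
      | mem t ht =>
        obtain ⟨j, hj⟩ := ht.2.2
        refine Subgroup.subset_closure ⟨(hk t (Subgroup.subset_closure ht)).1,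
          (hk t (Subgroup.subset_closure ht)).2, j, ?_⟩
        have : k⁻¹ * t * k = k⁻¹ * t * k⁻¹⁻¹ := by rw [inv_inv]
        rw [this, conj_pow, hj]; group
      | one => simp
      | mul x y _ _ hx hy =>
        rw [show k⁻¹ * (x * y) * k = (k⁻¹ * x * k) * (k⁻¹ * y * k) by group]
        exact mul_mem hx hy
      | inv x _ hx =>
        rw [show k⁻¹ * x⁻¹ * k = (k⁻¹ * x * k)⁻¹ by group]
        exact inv_mem hx
    · have hsub : insert a {z | S.R a b z} ⊆ (fixSet (Subgroup.closure T) : Set Ω) := by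
        intro z hz w hw
        induction hw using Subgroup.closure_induction with
        | mem t ht =>
          rcases Set.mem_insert_iff.1 hz with rfl | hz
          · exact ht.1
          · exact S.fix_block_of_pow hab ht.2.2.choose_spec ht.1 ht.2.1 hz
        | one => exact one_smul _ _
        | mul x y _ _ hx hy => rw [mul_smul, hy, hx]
        | inv x _ hx => rw [inv_smul_eq_iff, hx]
      refine lt_of_lt_of_le ?_ (Set.ncard_le_ncard hsub (Set.toFinite _))
      have h := S.line_ncard hab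
      have := C.three_le
      unfold line at h
      omega
  have hgp : g ^ p = 1 := by
    have := pow_orderOf_eq_one (⟨g, hg⟩ : ↥(stabilizer G a ⊓ stabilizer G b))
    rw [hord] at this
    exact congrArg Subtype.val this
  have : g ∈ Subgroup.closure T := Subgroup.subset_closure ⟨hg.1, hg.2, 1, by rwa [pow_one]⟩
  rw [hbot, Subgroup.mem_bot] at this
  subst this
  rw [show (⟨1, hg⟩ : ↥(stabilizer G a ⊓ stabilizer G b)) = 1 from rfl, orderOf_one] at hord
  exact hp.out.one_lt.ne hord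

include S C in
theorem exists_reg (a : Ω) : Nonempty (Reg G Ω p a) := by
  obtain ⟨b, hab⟩ := C.exists_ne a
  have hcard := C.card_stabilizer hab
  obtain ⟨Q, hQ⟩ := Sylow.exists_subgroup_card_pow_prime (G := stabilizer G a) p (n := 2)
    (Dvd.intro _ hcard.symm)
  let P : Subgroup G := Q.map (stabilizer G a).subtype
  have hPc : Nat.card P = p ^ 2 := by
    rw [Subgroup.card_map_of_injective (stabilizer G a).subtype_injective, hQ]
  have hfix : ∀ v ∈ P, v • a = a := by rintro _ ⟨q, -, rfl⟩; exact q.2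
  have hfree : ∀ v ∈ P, ∀ y : Ω, y ≠ a → v • y = y → v = 1 := by
    intro v hv y hy hvy
    have h1 : orderOf v ∣ p ^ 2 := hPc ▸ Subgroup.orderOf_dvd_natCard _ hv
    obtain ⟨i, -, hi⟩ := (Nat.dvd_prime_pow hp.out).1 h1
    rcases i with _ | i
    · exact orderOf_eq_one_iff.1 hi
    · exfalso
      refine S.not_dvd_card_H C hy ((dvd_pow_self p (Nat.succ_ne_zero i)).trans ?_)
      rw [← hi]
      exact Subgroup.orderOf_dvd_natCard _ ⟨hfix v hv, hvy⟩
  refine ⟨⟨P, hfix, hPc, ?_, ?_, hfree⟩⟩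
  · intro v hv w hw
    have hc := (IsPGroup.isMulCommutative_of_card_eq_prime_sq hPc).is_comm.comm
      (⟨v, hv⟩ : P) ⟨w, hw⟩
    exact congrArg Subtype.val hc
  · intro y z hy hz
    have himg : (fun v : P => (v : G) • y) '' Set.univ = ({a}ᶜ : Set Ω) := by
      refine Set.eq_of_subset_of_ncard_le ?_ ?_ (Set.toFinite _)
      · rintro _ ⟨v, -, rfl⟩ h
        exact hy (MulAction.injective (v : G) ((Set.mem_singleton_iff.1 h).trans (hfix v v.2).symm))
      · rw [Set.ncard_image_of_injective _ ?_, Set.ncard_univ, hPc, C.card_compl]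
        intro v w hvw
        refine Subtype.ext (inv_mul_eq_one.1 (hfree _ (mul_mem (inv_mem v.2) w.2) y hy ?_))
        rw [mul_smul, inv_smul_eq_iff]
        exact hvw.symm
    obtain ⟨v, -, hv⟩ := (himg ▸ hz : z ∈ (fun v : P => (v : G) • y) '' Set.univ)
    exact ⟨v, v.2, hv⟩

/-- The kernel of the stabiliser of `a` on its blocks. -/
def ker (a : Ω) : Subgroup G where
  carrier := {g | g • a = a ∧ ∀ y, y ≠ a → S.R a y (g • y)}
  one_mem' := ⟨one_smul _ _, fun y hy => by rw [one_smul]; exact S.refl hy⟩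
  mul_mem' := by
    rintro g h ⟨hga, hg⟩ ⟨hha, hh⟩
    refine ⟨by rw [mul_smul, hha, hga], fun y hy => ?_⟩
    rw [mul_smul]
    exact S.trans (hh y hy) (hg _ (S.ne (hh y hy)).2)
  inv_mem' := by
    rintro g ⟨hga, hg⟩
    have hga' : g⁻¹ • a = a := by rw [inv_smul_eq_iff, hga]
    refine ⟨hga', fun y hy => ?_⟩
    have h := hg (g⁻¹ • y) (fun e => hy (MulAction.injective g⁻¹ (e.trans hga'.symm)))
    rw [smul_inv_smul] at h
    exact S.symm h

theorem mem_ker {a : Ω} {g : G} : g ∈ S.ker a ↔ g • a = a ∧ ∀ y, y ≠ a → S.R a y (g • y) :=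
  Iff.rfl

theorem conj_mem_ker {a : Ω} {g m : G} (hg : g • a = a) (hm : m ∈ S.ker a) :
    g * m * g⁻¹ ∈ S.ker a := by
  obtain ⟨hma, hm⟩ := S.mem_ker.1 hm
  have hga' : g⁻¹ • a = a := by rw [inv_smul_eq_iff, hg]
  refine S.mem_ker.2 ⟨by rw [mul_smul, mul_smul, hga', hma, hg], fun y hy => ?_⟩
  have h := S.equiv_of_fix hg (hm (g⁻¹ • y) fun e => hy (MulAction.injective g⁻¹ (e.trans hga'.symm)))
  rw [smul_inv_smul] at h
  rwa [mul_smul, mul_smul]

variable {a : Ω} (K : Reg G Ω p a)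

/-- The elements of the regular subgroup fixing all blocks. -/
def P₀ : Subgroup G := K.P ⊓ S.ker a

theorem mem_P₀ {v : G} {y : Ω} (hv : v ∈ K.P) (h : S.R a y (v • y)) : v ∈ S.P₀ K := by
  refine ⟨hv, S.mem_ker.2 ⟨K.fix v hv, fun z hz => ?_⟩⟩
  obtain ⟨w, hw, rfl⟩ := K.trans y z (S.ne h).1 hz
  have := S.equiv_of_fix (K.fix w hw) h
  rwa [← mul_smul, K.comm w hw v hv, mul_smul] at this

theorem exists_P₀_smul {y z : Ω} (h : S.R a y z) : ∃ v ∈ S.P₀ K, v • y = z := by
  obtain ⟨v, hv, rfl⟩ := K.trans y z (S.ne h).1 (S.ne h).2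
  exact ⟨v, S.mem_P₀ K hv h, rfl⟩

theorem R_smul_P₀ {v : G} (hv : v ∈ S.P₀ K) {y : Ω} (hy : y ≠ a) : S.R a y (v • y) := hv.2.2 y hy

theorem card_P₀ {b : Ω} (hab : b ≠ a) : Nat.card (S.P₀ K) = p := by
  refine Eq.trans ?_ ((Nat.card_coe_set_eq _).trans (S.card hab))
  refine Nat.card_congr (Equiv.ofBijective (fun v => ⟨(v : G) • b, S.R_smul_P₀ K v.2 hab⟩) ⟨?_, ?_⟩)
  · intro v w hvw
    refine Subtype.ext (inv_mul_eq_one.1 (K.free _ (mul_mem (inv_mem v.2.1) w.2.1) b hab ?_))
    rw [mul_smul, inv_smul_eq_iff]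
    exact (congrArg Subtype.val hvw).symm
  · rintro ⟨z, hz⟩
    obtain ⟨v, hv, hvz⟩ := S.exists_P₀_smul K hz
    exact ⟨⟨v, hv⟩, Subtype.ext hvz⟩

theorem exists_coord {b : Ω} (hab : b ≠ a) : ∃ φ : ZMod p → G,
    φ 0 = 1 ∧ (∀ i j, φ (i + j) = φ i * φ j) ∧ (∀ i, φ i ∈ S.P₀ K) ∧
      (∀ v ∈ S.P₀ K, ∃ i, φ i = v) ∧ Function.Injective φ := by
  have hc := S.card_P₀ K hab
  haveI : IsCyclic (S.P₀ K) := isCyclic_of_prime_card hc
  obtain ⟨u, hu⟩ := IsCyclic.exists_ofOrder_eq_natCard (α := S.P₀ K)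
  rw [hc] at hu
  have hmod : ∀ n : ℕ, u ^ (n % p) = u ^ n := fun n => by
    have e := pow_mod_orderOf u n
    rwa [hu] at e
  refine ⟨fun i => ((u ^ i.val : S.P₀ K) : G), by simp, fun i j => ?_, fun i => (u ^ i.val).2,
    fun v hv => ?_, fun i j h => ?_⟩
  · change ((u ^ (i + j).val : S.P₀ K) : G) = ((u ^ i.val : S.P₀ K) : G) * ((u ^ j.val : S.P₀ K) : G)
    rw [← Subgroup.coe_mul, ← pow_add, ZMod.val_add]
    exact congrArg Subtype.val (hmod _)
  · have : (⟨v, hv⟩ : S.P₀ K) ∈ Subgroup.zpowers u := by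
      rw [zpowers_eq_top_of_prime_card hc (fun e => by rw [e, orderOf_one] at hu; exact hp.out.one_lt.ne hu)]
      trivial
    obtain ⟨n, hn⟩ := mem_powers_iff_mem_zpowers.2 this
    refine ⟨(n : ZMod p), ?_⟩
    change ((u ^ (n : ZMod p).val : S.P₀ K) : G) = v
    have hn' : u ^ n = ⟨v, hv⟩ := hn
    rw [ZMod.val_natCast]
    exact congrArg Subtype.val ((hmod n).trans hn')
  · have h' : u ^ i.val = u ^ j.val := Subtype.ext h
    rw [pow_eq_pow_iff_modEq, hu] at h'
    exact ZMod.val_injective p (Nat.ModEq.eq_of_lt_of_lt h' (ZMod.val_lt i) (ZMod.val_lt j))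

theorem ker_decomp {b : Ω} (hab : b ≠ a) {m : G} (hm : m ∈ S.ker a) :
    ∃ v ∈ S.P₀ K, ∃ r ∈ S.ker a, r • b = b ∧ m = v * r := by
  obtain ⟨v, hv, hvb⟩ := S.exists_P₀_smul K (hm.2 b hab)
  exact ⟨v, hv, v⁻¹ * m, mul_mem (inv_mem hv.2) hm,
    by rw [mul_smul, inv_smul_eq_iff, hvb], by group⟩

include C K in
/-- The kernel is faithful on every block. -/
theorem ker_eq_one {b : Ω} (hab : b ≠ a) {m : G} (hm : m ∈ S.ker a)
    (hfix : ∀ z, S.R a b z → m • z = z) : m = 1 := by
  classical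
  let N : Subgroup G :=
    { carrier := {g | g ∈ S.ker a ∧ ∀ z, S.R a b z → g • z = z}
      one_mem' := ⟨one_mem _, fun z _ => one_smul _ _⟩
      mul_mem' := fun {g h} hg hh =>
        ⟨mul_mem hg.1 hh.1, fun z hz => by rw [mul_smul, hh.2 z hz, hg.2 z hz]⟩
      inv_mem' := fun {g} hg =>
        ⟨inv_mem hg.1, fun z hz => by rw [inv_smul_eq_iff, hg.2 z hz]⟩ }
  have hnorm : ∀ v ∈ S.P₀ K, ∀ n ∈ N, v * n * v⁻¹ ∈ N := by
    intro v hv n hn
    refine ⟨mul_mem (mul_mem hv.2 hn.1) (inv_mem hv.2), fun z hz => ?_⟩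
    rw [mul_smul, mul_smul, hn.2, smul_inv_smul]
    exact S.trans hz ((inv_mem hv.2 : v⁻¹ ∈ S.ker a).2 z (S.ne hz).2)
  suffices h : ∀ y, y ≠ a → m • y = y by
    refine FaithfulSMul.eq_of_smul_eq_smul fun z : Ω => ?_
    by_cases hz : z = a
    · rw [hz, one_smul]; exact hm.1
    · rw [one_smul]; exact h z hz
  intro y hy
  obtain ⟨v, hv, hvy⟩ := S.exists_P₀_smul K (hm.2 y hy)
  by_contra hne
  have hv1 : v ≠ 1 := ne_one_of_smul_ne (hvy ▸ hne : v • y ≠ y)
  have hvorb : ∀ z ∈ orbit N y, v • z ∈ orbit N y := by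
    rintro _ ⟨n, rfl⟩
    refine ⟨⟨v * n * v⁻¹, hnorm v hv n n.2⟩ * ⟨m, ⟨hm, hfix⟩⟩, ?_⟩
    change (v * n * v⁻¹ * m) • y = v • (n : G) • y
    rw [mul_smul, ← hvy, ← mul_smul, ← mul_smul]
    congr 1; group
  have hblock : {z | S.R a y z} ⊆ orbit N y := by
    intro z hz
    obtain ⟨w, hw, rfl⟩ := S.exists_P₀_smul K hz
    have hwv : (⟨w, hw⟩ : S.P₀ K) ∈ Subgroup.zpowers (⟨v, hv⟩ : S.P₀ K) := by
      rw [zpowers_eq_top_of_prime_card (S.card_P₀ K hab) (fun e => hv1 (congrArg Subtype.val e))]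
      trivial
    obtain ⟨k, hk⟩ := mem_powers_iff_mem_zpowers.2 hwv
    have hk' : v ^ k = w := congrArg Subtype.val hk
    rw [← hk']
    clear hk hk' hwv hz
    induction k with
    | zero => rw [pow_zero, one_smul]; exact mem_orbit_self y
    | succ k ih => rw [pow_succ', mul_smul]; exact hvorb _ ih
  have heq : orbit N y = {z | S.R a y z} := by
    refine subset_antisymm ?_ hblock
    rintro _ ⟨n, rfl⟩
    exact n.2.1.2 y hy
  have hdvd : p ∣ Nat.card N := by
    rw [← S.card hy, ← heq, ← Nat.card_coe_set_eq,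
      Nat.card_congr (orbitEquivQuotientStabilizer N y)]
    exact Dvd.intro _ (Subgroup.card_eq_card_quotient_mul_card_subgroup _).symm
  refine S.not_dvd_card_H C hab (hdvd.trans (Subgroup.card_dvd_of_le fun n hn => ?_))
  exact ⟨hn.1.1, hn.2 b (S.refl hab)⟩

end Sys

end CfsgLib.TwoTransSquare
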