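import Mathlib.RingTheory.Polynomial.Cyclotomic.Roots
import Mathlib.RingTheory.RootsOfUnity.Complex
import Mathlib.Algebra.MonoidAlgebra.Defs
import Mathlib.FieldTheory.Finite.Basic
import Mathlib.Algebra.CharP.Algebra
import Mathlib.Algebra.MonoidAlgebra.Basic

/-!
Subsets of `ZMod p` whose `p`-fold sum takes every value but one equally often.
-/

set_option autoImplicit false

namespace CfsgLib.TwoTransSquare

open Finset Polynomial

variable {p : ℕ} [hp : Fact p.Prime]

/-- The number of ways of writing `z` as a sum of `k` elements of `D`. -/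
def conv (D : Finset (ZMod p)) : ℕ → ZMod p → ℕ
  | 0, z => if z = 0 then 1 else 0
  | k + 1, z => ∑ d ∈ D, conv D k (z - d)

theorem pow_sum_char (D : Finset (ZMod p)) {A : Type*} [CommSemiring A] (χ : ZMod p → A)
    (h0 : χ 0 = 1) (hadd : ∀ a b, χ (a + b) = χ a * χ b) (k : ℕ) :
    (∑ d ∈ D, χ d) ^ k = ∑ z, (conv D k z : A) * χ z := by
  induction k with
  | zero =>
    rw [pow_zero, Finset.sum_eq_single (0 : ZMod p)]
    · simp [conv, h0]
    · intro z _ hz; simp [conv, hz]
    · simp
  | succ k ih =>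
    rw [pow_succ, ih, Finset.mul_sum]
    simp only [conv, Nat.cast_sum, Finset.sum_mul]
    conv_rhs => rw [Finset.sum_comm]
    refine Finset.sum_congr rfl fun d _ => ?_
    rw [← Equiv.sum_comp (Equiv.addRight d) (fun z => (conv D k (z - d) : A) * χ z)]
    refine Finset.sum_congr rfl fun z _ => ?_
    simp only [Equiv.coe_addRight, add_sub_cancel_right]
    rw [hadd, mul_assoc]

theorem conv_prime_mod (D : Finset (ZMod p)) (z : ZMod p) :
    (conv D p z : ZMod p) = if z = 0 then (D.card : ZMod p) else 0 := by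
  classical
  let χ : ZMod p → AddMonoidAlgebra (ZMod p) (ZMod p) := fun d => AddMonoidAlgebra.single d 1
  have : CharP (AddMonoidAlgebra (ZMod p) (ZMod p)) p :=
    charP_of_injective_ringHom (f := AddMonoidAlgebra.singleZeroRingHom)
      (fun a b h => by simpa using congrArg (fun f => AddMonoidAlgebra.coeff f 0) h) p
  have hadd : ∀ a b, χ (a + b) = χ a * χ b := fun a b => by
    simp [χ, AddMonoidAlgebra.single_mul_single]
  have h1 := pow_sum_char D χ rfl hadd p
  rw [sum_pow_char] at h1
  have h2 : ∀ d : ZMod p, χ d ^ p = χ 0 := fun d => by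
    simp [χ, AddMonoidAlgebra.single_pow, nsmul_eq_mul]
  simp only [h2, Finset.sum_const] at h1
  have h3 := congrArg (fun f => AddMonoidAlgebra.coeff f z) h1
  simpa [χ, Finsupp.single_apply, nsmul_eq_mul, AddMonoidAlgebra.natCast_def,
    AddMonoidAlgebra.single_mul_single, Finset.sum_apply', eq_comm] using h3.symm

theorem coeff_const_of_root {ζ : ℂ} (hζ : IsPrimitiveRoot ζ p) (c : ZMod p → ℚ)
    (h : ∑ z, (c z : ℂ) * ζ ^ z.val = 0) : ∀ z, c z = c 0 := by
  set q : ℚ[X] := ∑ z, C (c z) * X ^ z.val with hq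
  have hcoeff : ∀ z : ZMod p, q.coeff z.val = c z := by
    intro z
    simp only [hq, finsetSum_coeff, coeff_C_mul_X_pow]
    rw [Finset.sum_eq_single z]
    · simp
    · intro w _ hw
      rw [if_neg]
      exact fun e => hw (ZMod.val_injective p e.symm)
    · simp
  have hroot : aeval ζ q = 0 := by simpa [hq] using h
  have hdvd : cyclotomic p ℚ ∣ q := by
    rw [cyclotomic_eq_minpoly_rat hζ hp.out.pos]
    exact minpoly.dvd ℚ ζ hroot
  have hdeg : q.natDegree ≤ p - 1 := by
    refine natDegree_sum_le_of_forall_le _ _ fun z _ => (natDegree_C_mul_X_pow_le _ _).trans ?_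
    have := ZMod.val_lt z
    omega
  have hcdeg : (cyclotomic p ℚ).natDegree = p - 1 := by
    rw [natDegree_cyclotomic, Nat.totient_prime hp.out]
  obtain ⟨r, hr⟩ := hdvd
  obtain ⟨r0, hr0⟩ : ∃ r0, r = C r0 := by
    by_cases h0 : r = 0
    · exact ⟨0, by rw [h0, C_0]⟩
    refine ⟨_, eq_C_of_natDegree_eq_zero ?_⟩
    have := natDegree_mul (cyclotomic_ne_zero p ℚ) h0
    rw [← hr, hcdeg] at this
    omega
  have hall : ∀ i, i < p → q.coeff i = r0 := by
    intro i hi
    rw [hr, hr0, coeff_mul_C, cyclotomic_prime, finsetSum_coeff]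
    simp [coeff_X_pow, hi]
  intro z
  rw [← hcoeff z, ← hcoeff 0, hall _ (ZMod.val_lt z), hall _ (ZMod.val_lt 0)]

theorem pow_val_add {ζ : ℂ} (hζ : IsPrimitiveRoot ζ p) (a b : ZMod p) :
    ζ ^ (a + b).val = ζ ^ a.val * ζ ^ b.val := by
  rw [← pow_add, ZMod.val_add, ← pow_eq_pow_mod _ hζ.pow_eq_one]

theorem eq_of_sum_eq {ζ : ℂ} (hζ : IsPrimitiveRoot ζ p) {A B : Finset (ZMod p)}
    (hcard : A.card = B.card) (h : ∑ d ∈ A, ζ ^ d.val = ∑ d ∈ B, ζ ^ d.val) : A = B := by
  classical
  let c : ZMod p → ℚ := fun z => (if z ∈ A then 1 else 0) - (if z ∈ B then 1 else 0)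
  have hc := coeff_const_of_root hζ c (by
    simp only [c, Rat.cast_sub, apply_ite ((↑) : ℚ → ℂ), Rat.cast_one, Rat.cast_zero, sub_mul,
      Finset.sum_sub_distrib, ite_mul, one_mul, zero_mul, Finset.sum_ite_mem, Finset.univ_inter]
    rw [h, sub_self])
  have h0 : c 0 = 0 := by
    have : ∑ z, c z = 0 := by
      simp [c, Finset.sum_sub_distrib, hcard]
    rw [Finset.sum_congr rfl (fun z _ => hc z), Finset.sum_const, Finset.card_univ, ZMod.card,
      nsmul_eq_mul] at this
    exact (mul_eq_zero.1 this).resolve_left (by exact_mod_cast hp.out.ne_zero)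
  ext z
  have := (hc z).trans h0
  simp only [c] at this
  split_ifs at this with h1 h2 h2 <;> simp_all

theorem card_le_one_or_of_conv (hp2 : p ≠ 2) (D : Finset (ZMod p)) (t : ZMod p) (m : ℕ)
    (hm : ∀ z : ZMod p, z ≠ 0 → conv D p (z - t) = m) : D.card ≤ 1 ∨ p - 1 ≤ D.card := by
  classical
  have hp3 : 3 ≤ p := by have := hp.out.two_le; omega
  by_cases hkp : p ≤ D.card
  · right; omega
  by_cases hk0 : D.card = 0
  · left; omega
  have hk : (D.card : ZMod p) ≠ 0 := by
    rw [Ne, ZMod.natCast_eq_zero_iff]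
    exact fun h => hkp (Nat.le_of_dvd (by omega) h)
  have ht : t = 0 := by
    by_contra ht
    obtain ⟨z, hz0, hzt⟩ : ∃ z : ZMod p, z ≠ 0 ∧ z ≠ t := by
      by_contra hh
      push Not at hh
      have hsub : (Finset.univ : Finset (ZMod p)) ⊆ {0, t} := by
        intro z _
        rw [Finset.mem_insert, Finset.mem_singleton]
        exact or_iff_not_imp_left.2 (hh z)
      have := Finset.card_le_card hsub
      rw [Finset.card_univ, ZMod.card] at this
      have := Finset.card_le_two (a := (0 : ZMod p)) (b := t)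
      omega
    have h1 := conv_prime_mod D (t - t)
    have h2 := conv_prime_mod D (z - t)
    rw [hm t ht, sub_self, if_pos rfl] at h1
    rw [hm z hz0, if_neg (sub_ne_zero.2 hzt)] at h2
    exact hk (h1.symm.trans h2)
  subst ht
  simp only [sub_zero] at hm
  set ζ := Complex.exp (2 * Real.pi * Complex.I / p)
  have hζ : IsPrimitiveRoot ζ p := Complex.isPrimitiveRoot_exp p hp.out.ne_zero
  have hadd := pow_val_add hζ
  have h0 : ζ ^ (0 : ZMod p).val = 1 := by simp
  have hgeom : ∑ z : ZMod p, ζ ^ z.val = 0 := by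
    have := hζ.geom_sum_eq_zero hp.out.one_lt
    rw [← this]
    refine Finset.sum_bij (fun z _ => z.val) (fun z _ => Finset.mem_range.2 (ZMod.val_lt z))
      (fun a _ b _ e => ZMod.val_injective p e) (fun i hi => ?_) (fun _ _ => rfl)
    exact ⟨(i : ZMod p), Finset.mem_univ _, ZMod.val_natCast_of_lt (Finset.mem_range.1 hi)⟩
  have hpowmul : ∀ (j : ZMod p) (a b : ZMod p),
      ζ ^ (j * (a + b)).val = ζ ^ (j * a).val * ζ ^ (j * b).val := fun j a b => by
    rw [mul_add, hadd]
  -- the value of the power sum at every conjugate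
  have hval : ∀ j : ZMod p, j ≠ 0 →
      (∑ d ∈ D, ζ ^ (j * d).val) ^ p = (conv D p 0 : ℂ) - m := by
    intro j hj
    rw [pow_sum_char D (fun d => ζ ^ (j * d).val) (by simp) (hpowmul j) p]
    have e : ∀ z : ZMod p, (conv D p z : ℂ) * ζ ^ (j * z).val
        = (if z = 0 then (conv D p 0 : ℂ) - m else 0) + (m : ℂ) * ζ ^ (j * z).val := by
      intro z
      by_cases hz : z = 0
      · subst hz; simp
      · simp [hz, hm z hz]
    rw [Finset.sum_congr rfl fun z _ => e z, Finset.sum_add_distrib, ← Finset.mul_sum]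
    have : ∑ z : ZMod p, ζ ^ (j * z).val = 0 := by
      rw [← hgeom]
      exact Fintype.sum_equiv (Equiv.mulLeft₀ j hj) _ _ (fun _ => rfl)
    simp [this]
  -- every multiple of `D` is a translate of `D`
  have hne : ∑ d ∈ D, ζ ^ d.val ≠ 0 := by
    intro h
    let c : ZMod p → ℚ := fun z => if z ∈ D then 1 else 0
    have hc := coeff_const_of_root hζ c (by
      simp only [c, apply_ite ((↑) : ℚ → ℂ), Rat.cast_one, Rat.cast_zero, ite_mul, one_mul,
        zero_mul, Finset.sum_ite_mem, Finset.univ_inter]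
      exact h)
    obtain ⟨d, hd⟩ := Finset.card_pos.1 (Nat.pos_of_ne_zero hk0)
    refine hkp (le_of_eq ?_)
    have hall : ∀ z, z ∈ D := fun z => by
      have := (hc z).trans (hc d).symm
      simp only [c, if_pos hd] at this
      by_contra hz
      rw [if_neg hz] at this
      exact one_ne_zero this.symm
    rw [Finset.eq_univ_of_forall hall, Finset.card_univ, ZMod.card]
  have htrans : ∀ j : ZMod p, j ≠ 0 → ∃ s, D.image (fun d => j * d) = D.image (fun d => d + s) := by
    intro j hj
    have h1 := hval j hj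
    have h2 := hval 1 one_ne_zero
    simp only [one_mul] at h2
    have hw : ((∑ d ∈ D, ζ ^ (j * d).val) / ∑ d ∈ D, ζ ^ d.val) ^ p = 1 := by
      rw [div_pow, h1, ← h2, div_self (pow_ne_zero _ hne)]
    obtain ⟨s, hs, hse⟩ := hζ.eq_pow_of_pow_eq_one hw
    refine ⟨(s : ZMod p), eq_of_sum_eq hζ ?_ ?_⟩
    · rw [Finset.card_image_of_injective _ (mul_right_injective₀ hj),
        Finset.card_image_of_injective _ (add_left_injective _)]
    rw [Finset.sum_image (fun a _ b _ e => mul_right_injective₀ hj e),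
      Finset.sum_image (fun a _ b _ e => add_left_injective _ e)]
    simp_rw [hadd]
    rw [← Finset.sum_mul, ZMod.val_natCast_of_lt hs, hse, mul_div_assoc', mul_comm,
      mul_div_assoc, div_self hne, mul_one]
  obtain ⟨s, hs⟩ := htrans (-1) (by simp)
  have h2 : (2 : ZMod p) ≠ 0 := by
    intro h
    have : ((2 : ℕ) : ZMod p) = 0 := by exact_mod_cast h
    rw [ZMod.natCast_eq_zero_iff] at this
    exact hp2 ((Nat.prime_dvd_prime_iff_eq hp.out Nat.prime_two).1 this)
  set c : ZMod p := s / 2 with hc
  have hsc : s = c + c := by rw [hc, ← add_div, ← two_mul, mul_div_assoc, mul_comm,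
    div_mul_cancel₀ s h2]
  -- the centred set
  set E := D.image (fun d => d + c) with hE
  have hEcard : E.card = D.card := Finset.card_image_of_injective _ (add_left_injective _)
  have hneg : ∀ e ∈ E, -e ∈ E := by
    intro e he
    obtain ⟨d, hd, rfl⟩ := Finset.mem_image.1 he
    have h3 : -1 * d ∈ D.image (fun d => d + s) := hs ▸ Finset.mem_image_of_mem _ hd
    obtain ⟨d', hd', hde⟩ := Finset.mem_image.1 h3
    refine Finset.mem_image.2 ⟨d', hd', ?_⟩
    have h4 : d' = -1 * d - s := eq_sub_of_add_eq hde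
    rw [h4, hsc]; ring
  have hmul : ∀ j : ZMod p, j ≠ 0 → ∀ e ∈ E, j * e ∈ E := by
    intro j hj
    obtain ⟨s', hs'⟩ := htrans j hj
    -- `j E = E + w`
    obtain ⟨w, hw⟩ : ∃ w, ∀ x, x ∈ E.image (fun d => j * d) ↔ x - w ∈ E := by
      refine ⟨s' - c + j * c, fun x => ?_⟩
      rw [hE, Finset.image_image, Finset.mem_image, Finset.mem_image]
      constructor
      · rintro ⟨d, hd, rfl⟩
        obtain ⟨d', hd', hde⟩ := Finset.mem_image.1 (hs' ▸ Finset.mem_image_of_mem _ hd :
          j * d ∈ D.image (fun d => d + s'))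
        refine ⟨d', hd', ?_⟩
        simp only [Function.comp]
        linear_combination hde
      · rintro ⟨d', hd', hde⟩
        obtain ⟨d, hd, hde'⟩ := Finset.mem_image.1 (hs'.symm ▸ Finset.mem_image_of_mem _ hd' :
          d' + s' ∈ D.image (fun d => j * d))
        refine ⟨d, hd, ?_⟩
        simp only [Function.comp]
        linear_combination hde' + hde
    have hww' : ∀ x, x ∈ E → x - (w + w) ∈ E := by
      intro x hx
      have h4 : -x + w ∈ E.image (fun d => j * d) := (hw _).2 (by simpa using hneg x hx)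
      obtain ⟨d, hd, hde⟩ := Finset.mem_image.1 h4
      have h5 : j * (-d) ∈ E.image (fun d => j * d) := Finset.mem_image_of_mem _ (hneg d hd)
      have e : j * -d - w = x - (w + w) := by linear_combination -hde
      exact e ▸ (hw _).1 h5
    have hww : ∀ x, x ∈ E → x + (w + w) ∈ E := by
      intro x hx
      have h3 := hneg _ (hww' _ (hneg x hx))
      rwa [show -(-x - (w + w)) = x + (w + w) by ring] at h3
    have hw0 : w = 0 := by
      by_contra hw0
      have h4 : w + w ≠ 0 := by rw [← two_mul]; exact mul_ne_zero h2 hw0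
      obtain ⟨e, he⟩ := Finset.card_pos.1 (hEcard.symm ▸ Nat.pos_of_ne_zero hk0)
      have hall : ∀ i : ℕ, e + (i : ZMod p) * (w + w) ∈ E := by
        intro i
        induction i with
        | zero => simpa using he
        | succ i ih =>
          have := hww _ ih
          convert this using 1
          push_cast; ring
      refine hkp (le_of_eq ?_)
      rw [← hEcard, Finset.eq_univ_of_forall (s := E) fun x => ?_, Finset.card_univ, ZMod.card]
      have := hall ((x - e) / (w + w)).val
      rwa [ZMod.natCast_zmod_val, div_mul_cancel₀ _ h4, add_sub_cancel] at this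
    intro e he
    simpa [hw0] using (hw _).1 (Finset.mem_image_of_mem (fun d => j * d) he)
  by_cases hex : ∃ e ∈ E, e ≠ 0
  · obtain ⟨e, he, he0⟩ := hex
    right
    rw [← hEcard]
    have hsub : (Finset.univ : Finset (ZMod p)).erase 0 ⊆ E := fun x hx => by
      have := hmul (x / e) (div_ne_zero (Finset.ne_of_mem_erase hx) he0) e he
      rwa [div_mul_cancel₀ _ he0] at this
    refine le_trans (le_of_eq ?_) (Finset.card_le_card hsub)
    rw [Finset.card_erase_of_mem (Finset.mem_univ _), Finset.card_univ, ZMod.card]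
  · left
    push Not at hex
    rw [← hEcard]
    exact Finset.card_le_one.2 fun x hx y hy => (hex x hx).trans (hex y hy).symm

end CfsgLib.TwoTransSquare
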