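import Cfsg.Agent.TwoTransSquarePlusOne.Blocks
import Cfsg.Agent.TwoTransSquarePlusOne.DifferenceSet

/-!
The kernel on the blocks cannot be doubly transitive on a block.
-/

set_option autoImplicit false
set_option linter.style.haveILetI false
set_option linter.unusedSectionVars false

namespace CfsgLib.TwoTransSquare

open MulAction

variable {G Ω : Type*} [Group G] [MulAction G Ω] [Finite G] [Finite Ω] [FaithfulSMul G Ω]
  {p : ℕ} [hp : Fact p.Prime]

namespace Sys

variable (S : Sys G Ω p) (C : Ctx G Ω p) {a : Ω} (K : Reg G Ω p a)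

theorem eq_inv_smul_ne {v : G} (hv : v • a = a) {y : Ω} (hy : y ≠ a) : v • y ≠ a := fun e =>
  hy (MulAction.injective v (e.trans hv.symm))

include C K in
/-- The two point stabiliser of the kernel cannot fix the block of `a` seen from `b`. -/
theorem block_fix {b : Ω} (hab : b ≠ a) {m₀ : G} (hm₀ : m₀ ∈ S.ker a) (hm₀b : m₀ • b = b)
    (hm₀1 : m₀ ≠ 1) (hfix : ∀ m ∈ S.ker a, m • b = b → ∀ c, S.R b a c → m • c = c) : False := by
  classical
  set N := S.ker a ⊓ stabilizer G b with hN
  have hmemN : ∀ m, m ∈ N ↔ m ∈ S.ker a ∧ m • b = b := fun m => Iff.rfl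
  set PΦ : Subgroup G :=
    { carrier := {v | v ∈ K.P ∧ ∀ m : G, v * m * v⁻¹ ∈ N ↔ m ∈ N}
      one_mem' := ⟨one_mem _, fun m => by rw [one_mul, inv_one, mul_one]⟩
      mul_mem' := fun {v w} hv hw => ⟨mul_mem hv.1 hw.1, fun m => by
        rw [show v * w * m * (v * w)⁻¹ = v * (w * m * w⁻¹) * v⁻¹ by group]
        exact (hv.2 _).trans (hw.2 m)⟩
      inv_mem' := fun {v} hv => ⟨inv_mem hv.1, fun m => by
        rw [← hv.2]; group⟩ } with hPΦ
  have hmemΦ : ∀ v ∈ K.P, (v ∈ PΦ ↔ ∀ m ∈ N, m • v • b = v • b) := by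
    intro v hv
    have hsub : (∀ m ∈ N, m • v • b = v • b) ↔ ∀ m, m ∈ N → v⁻¹ * m * v ∈ N := by
      refine forall₂_congr fun m hm => ?_
      rw [hmemN, mul_smul, mul_smul, inv_smul_eq_iff]
      refine ⟨fun h => ⟨?_, h⟩, And.right⟩
      have h1 := S.conj_mem_ker (show v⁻¹ • a = a by rw [inv_smul_eq_iff, K.fix v hv]) hm.1
      rwa [inv_inv] at h1
    rw [hsub]
    constructor
    · intro h m hm
      rw [← h.2]
      convert hm using 1; group
    · intro h
      refine ⟨hv, fun m => ⟨fun hm => ?_, fun hm => ?_⟩⟩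
      · have := h _ hm
        convert this using 1; group
      · have hsurj : Function.Surjective (fun n : N => (⟨v⁻¹ * n * v, h n n.2⟩ : N)) :=
          Finite.injective_iff_surjective.1 fun n n' e => Subtype.ext (by
            simpa using congrArg Subtype.val e)
        obtain ⟨n, hn⟩ := hsurj ⟨m, hm⟩
        have hn' : v⁻¹ * (n : G) * v = m := congrArg Subtype.val hn
        rw [← hn', show v * (v⁻¹ * (n : G) * v) * v⁻¹ = n by group]
        exact n.2
  set Φ : Set Ω := {z | z ≠ a ∧ ∀ m ∈ N, m • z = z} with hΦ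
  have hcardΦ : Φ.ncard = Nat.card PΦ := by
    rw [← Nat.card_coe_set_eq]
    refine (Nat.card_congr (Equiv.ofBijective (fun v : PΦ => (⟨(v : G) • b,
      eq_inv_smul_ne (K.fix v v.2.1) hab, (hmemΦ v v.2.1).1 v.2⟩ : Φ)) ⟨?_, ?_⟩)).symm
    · intro v w hvw
      refine Subtype.ext (inv_mul_eq_one.1 (K.free _ (mul_mem (inv_mem v.2.1) w.2.1) b hab ?_))
      rw [mul_smul, inv_smul_eq_iff]
      exact (congrArg Subtype.val hvw).symm
    · rintro ⟨z, hza, hz⟩
      obtain ⟨v, hv, rfl⟩ := K.trans b z hab hza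
      exact ⟨⟨v, (hmemΦ v hv).2 hz⟩, rfl⟩
  have hsub : insert b ({z | S.R b a z} \ {a}) ⊆ Φ := by
    rintro z (rfl | ⟨hz, hza⟩)
    · exact ⟨hab, fun m hm => hm.2⟩
    · exact ⟨hza, fun m hm => hfix m hm.1 hm.2 z hz⟩
  have hsubcard : (insert b ({z | S.R b a z} \ {a})).ncard = p := by
    rw [Set.ncard_insert_of_notMem (fun h : b ∈ {z | S.R b a z} \ {a} => (S.ne h.1).2 rfl),
      Set.ncard_sdiff_singleton_of_mem (show a ∈ {z | S.R b a z} from S.refl hab.symm),
      S.card hab.symm]
    have := hp.out.pos; omega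
  have hlow : p ≤ Φ.ncard := hsubcard ▸ Set.ncard_le_ncard hsub (Set.toFinite _)
  have hdvd : Φ.ncard ∣ p ^ 2 := hcardΦ ▸ K.card ▸ Subgroup.card_dvd_of_le (fun v hv => hv.1)
  obtain ⟨i, hi, hie⟩ := (Nat.dvd_prime_pow hp.out).1 hdvd
  have hΦeq : Φ = insert b ({z | S.R b a z} \ {a}) := by
    refine (Set.eq_of_subset_of_ncard_le hsub ?_ (Set.toFinite _)).symm
    rw [hsubcard, hie]
    interval_cases i
    · rw [pow_zero]; exact hp.out.pos
    · rw [pow_one]
    · exfalso
      have huniv : Φ = ({a}ᶜ : Set Ω) := Set.eq_of_subset_of_ncard_le (fun z hz => hz.1)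
        (by rw [C.card_compl, hie]) (Set.toFinite _)
      refine hm₀1 (FaithfulSMul.eq_of_smul_eq_smul (α := Ω) fun z => ?_)
      rw [one_smul]
      by_cases hz : z = a
      · rw [hz]; exact hm₀.1
      · exact ((huniv ▸ hz : z ∈ Φ)).2 m₀ ⟨hm₀, hm₀b⟩
  -- the lines through `a` and the points fixed by `N`
  have hline : ∀ c, S.R b a c → c ≠ a → S.line c a = S.line b a := by
    intro c hc hca
    obtain ⟨g, hga, hgb⟩ := C.exists_pair hab.symm (Ne.symm hca)
    obtain ⟨v, hv, hvb⟩ := K.trans b c hab hca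
    have hcΦ : c ∈ Φ := hsub (Or.inr ⟨hc, hca⟩)
    have hvΦ : v ∈ PΦ := (hmemΦ v hv).2 (hvb.symm ▸ hcΦ.2)
    refine Set.eq_of_subset_of_ncard_le ?_ ?_ (Set.toFinite _)
    · intro z hz
      rcases Set.mem_insert_iff.1 hz with rfl | hz
      · exact Set.mem_insert_of_mem _ hc
      · have hz' : S.R b a (g⁻¹ • z) := by
          rw [← S.equiv_iff g, hgb, hga, smul_inv_smul]; exact hz
        by_cases hza : z = a
        · rw [hza]; exact (S.mem_line hab.symm).2
        have hzΦ : z ∈ Φ := by
          refine ⟨hza, fun m hm => ?_⟩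
          have hm' : g⁻¹ * m * g ∈ N := by
            refine ⟨by simpa using S.conj_mem_ker (show g⁻¹ • a = a by rw [inv_smul_eq_iff, hga]) hm.1,
              mem_stabilizer_iff.2 ?_⟩
            rw [mul_smul, mul_smul, hgb, hcΦ.2 m hm, inv_smul_eq_iff, hgb]
          have h := hfix _ hm'.1 hm'.2 _ hz'
          rwa [mul_smul, mul_smul, smul_inv_smul, smul_left_cancel_iff] at h
        rw [hΦeq] at hzΦ
        rcases hzΦ with rfl | ⟨h, -⟩
        · exact Set.mem_insert _ _
        · exact Set.mem_insert_of_mem _ h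
    · rw [S.line_ncard (Ne.symm hca), S.line_ncard hab.symm]
  have hrule : ∀ x y c : Ω, y ≠ x → S.R y x c → c ≠ x → S.line c x = S.line y x := by
    intro x y c hyx hc hcx
    obtain ⟨g, rfl, rfl⟩ := C.exists_pair hab.symm hyx.symm
    obtain ⟨d, rfl⟩ : ∃ d, g • d = c := ⟨g⁻¹ • c, smul_inv_smul _ _⟩
    rw [S.line_smul, S.line_smul, hline d ((S.equiv_iff g).1 hc) (fun e => hcx (by rw [e]))]
  obtain ⟨c, hc, hca, -⟩ := S.exists_outside C hab
  have hcb : c ≠ b := (S.ne hc).2
  have hL := hline c hc hca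
  have hbc : S.R c a b := by
    have hb : b ∈ S.line c a := hL ▸ (S.mem_line hab.symm).1
    exact (Set.mem_insert_iff.1 hb).resolve_left hcb.symm
  have h1 : S.line c b = S.line c a := S.line_congr hbc
  have h2 : S.line a b = S.line c b := hrule b c a hcb (S.symm hbc) hab.symm
  exact S.line_ne_swap C hab (h2.trans (h1.trans hL))

include C K in
/-- The kernel is not doubly transitive on a block. -/
theorem not_transitive {b : Ω} (hab : b ≠ a)
    (htr : ∀ y z, S.R a b y → S.R a b z → y ≠ b → z ≠ b → ∃ m ∈ S.ker a, m • b = b ∧ m • y = z) :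
    False := by
  classical
  haveI := Fintype.ofFinite Ω
  have h3 := C.three_le
  obtain ⟨φ, hφ0, hφadd, hφmem, hφsurj, hφinj⟩ := S.exists_coord K hab
  have hφb : ∀ i j, φ i • b = φ j • b → i = j := fun i j h => hφinj (inv_mul_eq_one.1
    (K.free _ (mul_mem (inv_mem (hφmem i).1) (hφmem j).1) b hab (by
      rw [mul_smul, inv_smul_eq_iff, h])))
  -- a nontrivial element
  have hC : 1 < ({z | S.R a b z} \ {b} : Set Ω).ncard := by
    rw [Set.ncard_sdiff_singleton_of_mem (show b ∈ {w | S.R a b w} from S.refl hab), S.card hab]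
    omega
  obtain ⟨y, z, hy, hz, hyz⟩ := (Set.one_lt_ncard_iff (Set.toFinite _)).1 hC
  obtain ⟨m₀, hm₀, hm₀b, hm₀y⟩ := htr y z hy.1 hz.1 hy.2 hz.2
  have hm₀1 : m₀ ≠ 1 := fun e => hyz (by rw [← hm₀y, e, one_smul])
  -- no point of the block of `a` seen from `b` lies in the block of `b`
  have hout : ∀ c, S.R b a c → c ≠ a → ¬ S.R a b c := by
    intro c hc hca hcB
    refine S.line_ne_swap C hab (Set.eq_of_subset_of_ncard_le ?_ ?_ (Set.toFinite _))
    · intro z hz
      rcases Set.mem_insert_iff.1 hz with rfl | hz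
      · exact (S.mem_line hab.symm).2
      · by_cases hzb : z = b
        · rw [hzb]; exact Set.mem_insert _ _
        obtain ⟨m, hm, hmb, hmc⟩ := htr c z hcB hz (S.ne hc).2 hzb
        refine Set.mem_insert_of_mem _ ?_
        have := S.equiv_of_fix hmb hc
        rwa [hm.1, hmc] at this
    · rw [S.line_ncard hab, S.line_ncard hab.symm]
  -- the intersection with any block
  have key : ∀ c, S.R b a c → c ≠ a →
      ({z | S.R a c z ∧ S.R b a z} : Set Ω).ncard ≤ 1 ∨
        p - 1 ≤ ({z | S.R a c z ∧ S.R b a z} : Set Ω).ncard := by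
    intro c hc hca
    set O : Set Ω := {z | S.R a c z ∧ S.R b a z} with hO
    have hOinv : ∀ r ∈ S.ker a, r • b = b → ∀ z ∈ O, r • z ∈ O := by
      intro r hr hrb z hz
      refine ⟨S.trans hz.1 (hr.2 z (S.ne hz.1).2), ?_⟩
      have := S.equiv_of_fix hrb hz.2
      rwa [hr.1] at this
    obtain ⟨x, hx, hxb⟩ := K.trans b c hab hca
    obtain ⟨t, ht⟩ : ∃ t, φ t = x ^ p := by
      refine hφsurj _ ?_
      haveI : ((S.P₀ K).subgroupOf K.P).Normal :=
        ⟨fun v hv g => by
          rw [show g * v * g⁻¹ = v from Subtype.ext (by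
            rw [Subgroup.coe_mul, Subgroup.coe_mul, K.comm g g.2 v v.2, mul_assoc,
              Subgroup.coe_inv, mul_inv_cancel, mul_one])]
          exact hv⟩
      have hidx : ((S.P₀ K).subgroupOf K.P).index = p := by
        have h := Subgroup.card_mul_index ((S.P₀ K).subgroupOf K.P)
        rw [Nat.card_congr (Subgroup.subgroupOfEquivOfLe (show S.P₀ K ≤ K.P from inf_le_left)).toEquiv,
          S.card_P₀ K hab, K.card, sq] at h
        exact Nat.eq_of_mul_eq_mul_left hp.out.pos h
      have h := Subgroup.pow_index_mem ((S.P₀ K).subgroupOf K.P) ⟨x, hx⟩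
      rw [hidx] at h
      exact h
    set D : Finset (ZMod p) := Finset.univ.filter fun i => (x * φ i) • b ∈ O with hD
    have hOim : ∀ z ∈ O, ∃ i ∈ D, z = (x * φ i) • b := by
      intro z hz
      have h1 : S.R a b (x⁻¹ • z) := by
        rw [← S.equiv_iff x, K.fix x hx, hxb, smul_inv_smul]; exact hz.1
      obtain ⟨v, hv, hvb⟩ := S.exists_P₀_smul K h1
      obtain ⟨i, rfl⟩ := hφsurj v hv
      have e : z = (x * φ i) • b := by rw [mul_smul, hvb, smul_inv_smul]
      exact ⟨i, Finset.mem_filter.2 ⟨Finset.mem_univ _, e ▸ hz⟩, e⟩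
    have hOcard : O.ncard = D.card := by
      have hO' : O = (fun i => (x * φ i) • b) '' (D : Set (ZMod p)) := by
        ext z
        refine ⟨fun hz => ?_, ?_⟩
        · obtain ⟨i, hi, e⟩ := hOim z hz; exact ⟨i, hi, e.symm⟩
        · rintro ⟨i, hi, rfl⟩; exact (Finset.mem_filter.1 hi).2
      rw [hO', Set.ncard_image_of_injective _ ?_, Set.ncard_coe_finset]
      intro i j h
      simp only [mul_smul] at h
      exact hφb i j (MulAction.injective x h)
    -- the composed relation
    let T : Ω → Ω → Prop := fun y w => ∃ v ∈ K.P, v • b = y ∧ v⁻¹ • w ∈ O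
    have hT : ∀ m ∈ S.ker a, ∀ y w, T y w → T (m • y) (m • w) := by
      rintro m hm y w ⟨v, hv, rfl, hw⟩
      have hvb : v • b ≠ a := eq_inv_smul_ne (K.fix v hv) hab
      obtain ⟨v', hv', hv'b⟩ := K.trans b _ hab (eq_inv_smul_ne hm.1 hvb)
      refine ⟨v', hv', hv'b, ?_⟩
      have hrel : S.R a b ((v⁻¹ * v') • b) := by
        rw [← S.equiv_iff v, K.fix v hv, mul_smul, smul_inv_smul, hv'b]
        exact hm.2 _ hvb
      have hw' : v⁻¹ * v' ∈ S.ker a := (S.mem_P₀ K (mul_mem (inv_mem hv) hv') hrel).2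
      have hconj : v⁻¹ * m * v ∈ S.ker a := by
        have := S.conj_mem_ker (show v⁻¹ • a = a by rw [inv_smul_eq_iff, K.fix v hv]) hm
        rwa [inv_inv] at this
      have h := hOinv _ (mul_mem (inv_mem hw') hconj)
        (by rw [show (v⁻¹ * v')⁻¹ * (v⁻¹ * m * v) = v'⁻¹ * m * v by group, mul_smul, mul_smul,
          ← hv'b, inv_smul_smul]) _ hw
      rwa [← mul_smul, show (v⁻¹ * v')⁻¹ * (v⁻¹ * m * v) * v⁻¹ = v'⁻¹ * m by group, mul_smul] at h
    have hTiff : ∀ m ∈ S.ker a, ∀ y w, T (m • y) (m • w) ↔ T y w := fun m hm y w =>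
      ⟨fun h => by simpa using hT m⁻¹ (inv_mem hm) _ _ h, hT m hm y w⟩
    let F : ℕ → Ω → ℕ := fun k => Nat.rec (fun y => if y = b then 1 else 0)
      (fun _ f w => ∑ y, if T y w then f y else 0) k
    have hFinv : ∀ m ∈ S.ker a, m • b = b → ∀ k y, F k (m • y) = F k y := by
      intro m hm hmb k
      induction k with
      | zero =>
        intro y
        change (if m • y = b then 1 else 0) = if y = b then 1 else 0
        refine if_congr ⟨fun h => MulAction.injective m (h.trans hmb.symm), fun h => by rw [h, hmb]⟩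
          rfl rfl
      | succ k ih =>
        intro w
        change (∑ y, if T y (m • w) then F k y else 0) = ∑ y, if T y w then F k y else 0
        rw [← Equiv.sum_comp (MulAction.toPerm m) (fun y => if T y (m • w) then F k y else 0)]
        refine Finset.sum_congr rfl fun y _ => ?_
        simp only [MulAction.toPerm_apply]
        exact if_congr (hTiff m hm y w) (ih y) rfl
    have hpows : ∀ k : ℕ, x ^ k ∈ K.P := fun k => pow_mem hx k
    have hFcoord : ∀ k, (∀ i, F k ((x ^ k * φ i) • b) = conv D k i) ∧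
        ∀ y, F k y ≠ 0 → ∃ i, y = (x ^ k * φ i) • b := by
      intro k
      induction k with
      | zero =>
        refine ⟨fun i => ?_, fun y hy => ⟨0, ?_⟩⟩
        · change (if (x ^ 0 * φ i) • b = b then 1 else 0) = if i = 0 then 1 else 0
          refine if_congr ⟨fun h => hφb i 0 ?_, fun h => ?_⟩ rfl rfl
          · rw [pow_zero, one_mul] at h
            rw [h, hφ0, one_smul]
          · rw [h, hφ0, pow_zero, one_mul, one_smul]
        · rw [pow_zero, one_mul, hφ0, one_smul]
          by_contra hne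
          exact hy (if_neg hne)
      | succ k ih =>
        have hTc : ∀ i w, T ((x ^ k * φ i) • b) w ↔
            ∃ d ∈ D, w = (x ^ (k + 1) * φ (i + d)) • b := by
          intro i w
          have e : ∀ d, (x ^ k * φ i) * (x * φ d) = x ^ (k + 1) * φ (i + d) := fun d => by
            rw [mul_assoc, ← mul_assoc (φ i), K.comm _ (hφmem i).1 x hx, mul_assoc x,
              ← hφadd, ← mul_assoc, ← pow_succ]
          constructor
          · rintro ⟨v, hv, hvb, hw⟩
            have : v = x ^ k * φ i := inv_mul_eq_one.1 (K.free _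
              (mul_mem (inv_mem hv) (mul_mem (hpows k) (hφmem i).1)) b hab
              (by rw [mul_smul, inv_smul_eq_iff, hvb]))
            subst this
            obtain ⟨d, hd, hde⟩ := hOim _ hw
            exact ⟨d, hd, by rw [← e, mul_smul, ← hde, smul_inv_smul]⟩
          · rintro ⟨d, hd, rfl⟩
            refine ⟨_, mul_mem (hpows k) (hφmem i).1, rfl, ?_⟩
            rw [← e, mul_smul (x ^ k * φ i), inv_smul_smul]
            exact (Finset.mem_filter.1 hd).2
        refine ⟨fun j => ?_, fun w hw => ?_⟩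
        · change (∑ y, if T y ((x ^ (k + 1) * φ j) • b) then F k y else 0) =
            ∑ d ∈ D, conv D k (j - d)
          have hinj : Function.Injective (fun i : ZMod p => (x ^ k * φ i) • b) := fun i i' h => by
            simp only [mul_smul] at h
            exact hφb i i' (MulAction.injective _ h)
          rw [← Fintype.sum_of_injective _ hinj
            (fun i => if j - i ∈ D then conv D k i else 0) _ ?_ ?_]
          · rw [← Equiv.sum_comp (Equiv.subLeft j) (fun i => if j - i ∈ D then conv D k i else 0)]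
            simp [Finset.sum_ite_mem]
          · intro y hy
            split_ifs with hTy
            · by_contra hne
              obtain ⟨i, rfl⟩ := ih.2 y hne
              exact hy ⟨i, rfl⟩
            · rfl
          · intro i
            refine if_congr ?_ (ih.1 i).symm rfl
            rw [hTc]
            constructor
            · intro h; exact ⟨j - i, h, by rw [add_sub_cancel]⟩
            · rintro ⟨d, hd, hde⟩
              simp only [mul_smul] at hde
              rw [hφb _ _ (MulAction.injective _ hde), add_sub_cancel_left]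
              exact hd
        · obtain ⟨y, -, hy⟩ := Finset.exists_ne_zero_of_sum_ne_zero
            (hw : (∑ y, if T y w then F k y else 0) ≠ 0)
          split_ifs at hy with hTy
          · obtain ⟨i, rfl⟩ := ih.2 y hy
            obtain ⟨d, -, hde⟩ := (hTc i w).1 hTy
            exact ⟨i + d, hde⟩
          · exact absurd rfl hy
    have hconst : ∀ i : ZMod p, i ≠ 0 → conv D p (i - t) = F p (φ 1 • b) := by
      intro i hi
      rw [← (hFcoord p).1, ← ht, ← hφadd, add_sub_cancel]
      obtain ⟨m, hm, hmb, hme⟩ := htr (φ i • b) (φ 1 • b) (S.R_smul_P₀ K (hφmem i) hab)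
        (S.R_smul_P₀ K (hφmem 1) hab)
        (fun e => hi (hφb i 0 (by rw [e, hφ0, one_smul])))
        (fun e => one_ne_zero (hφb 1 0 (by rw [e, hφ0, one_smul])))
      rw [← hme, hFinv m hm hmb]
    rw [hOcard]
    exact card_le_one_or_of_conv C.odd D t _ hconst
  -- conclusion
  refine S.block_fix C K hab hm₀ hm₀b hm₀1 fun m hm hmb c hc => ?_
  by_cases hca : c = a
  · rw [hca]; exact hm.1
  rcases key c hc hca with h1 | h1
  · refine (Set.ncard_le_one (Set.toFinite _)).1 h1 _ ⟨hm.2 c hca, ?_⟩ _ ⟨S.refl hca, hc⟩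
    have := S.equiv_of_fix hmb hc
    rwa [hm.1] at this
  · exfalso
    set O : Set Ω := {z | S.R a c z ∧ S.R b a z} with hO
    have hOC : O = {z | S.R b a z} \ {a} := by
      refine Set.eq_of_subset_of_ncard_le (fun z hz => ⟨hz.2, (S.ne hz.1).2⟩) ?_ (Set.toFinite _)
      rw [Set.ncard_sdiff_singleton_of_mem (show a ∈ {z | S.R b a z} from S.refl hab.symm),
        S.card hab.symm]
      exact h1
    have hlt : O.ncard < ({z | S.R a c z} : Set Ω).ncard := by
      rw [hOC, Set.ncard_sdiff_singleton_of_mem (show a ∈ {z | S.R b a z} from S.refl hab.symm),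
        S.card hab.symm, S.card hca]
      omega
    obtain ⟨e, he, heO⟩ := Set.exists_mem_notMem_of_ncard_lt_ncard hlt (Set.toFinite _)
    have hW := eq_bot_of_weaklyClosed hp.out C.odd C.card C.two hab.symm
      (stabilizer G a ⊓ stabilizer G b) (fun w hw => hw) (fun k hk w hw => hk w hw) ?_
    · exact hm₀1 ((Subgroup.eq_bot_iff_forall _).1 hW m₀ ⟨hm₀.1, hm₀b⟩)
    have heb : e ≠ b := fun h => hout c hc hca (S.symm (h ▸ he))
    refine lt_of_lt_of_le ?_ (Set.ncard_le_ncard (s := {a, b, e}) ?_ (Set.toFinite _))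
    · rw [Set.ncard_insert_of_notMem (by simp [hab.symm, (S.ne he).2.symm]),
        Set.ncard_pair heb.symm]
      norm_num
    intro z hz w hw
    rcases hz with rfl | rfl | rfl
    · exact hw.1
    · exact hw.2
    · -- `w` preserves the block of `c`
      have hwc : S.R b a (w • c) := by
        have := S.equiv_of_fix (show w • b = b from hw.2) hc
        rwa [show w • a = a from hw.1] at this
      have hwcO : w • c ∈ O := hOC ▸ ⟨hwc, eq_inv_smul_ne hw.1 hca⟩
      have hwe : S.R a c (w • z) :=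
        S.trans hwcO.1 (S.equiv_of_fix (show w • a = a from hw.1) he)
      have hone : ({w | S.R a c w} \ O).ncard ≤ 1 := by
        rw [Set.ncard_sdiff (fun z hz => hz.1) (Set.toFinite _), S.card hca]
        omega
      refine (Set.ncard_le_one (Set.toFinite _)).1 hone _ ⟨hwe, fun h => heO ?_⟩ _ ⟨he, heO⟩
      rw [hOC] at h ⊢
      refine ⟨?_, (S.ne he).2⟩
      rw [Set.mem_ofPred_eq, ← S.equiv_iff w, show w • b = b from hw.2, show w • a = a from hw.1]
      exact h.1

end Sys

end CfsgLib.TwoTransSquare
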