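import Mathlib.GroupTheory.GroupAction.MultipleTransitivity
import Mathlib.GroupTheory.PGroup
import Mathlib.Algebra.Group.Pointwise.Set.Card
import Mathlib.Tactic.LinearCombination
import Mathlib.Tactic.IntervalCases

/-!
Doubly transitive groups on `p ^ 2 + 1` points do not preserve a design with one line through
two points.
-/

set_option autoImplicit false
set_option linter.style.haveILetI false
set_option linter.unusedSectionVars false

namespace CfsgLib.TwoTransSquare

open MulAction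

variable {G Ω : Type*} [Group G] [MulAction G Ω] [Finite Ω]

/-- The lines through one point partition the other points. -/
theorem line_size_sub_one_dvd (L : Ω → Ω → Set Ω) {k : ℕ}
    (hmem : ∀ x y, x ≠ y → x ∈ L x y ∧ y ∈ L x y)
    (hline : ∀ x y, x ≠ y → ∀ u ∈ L x y, ∀ v ∈ L x y, u ≠ v → L u v = L x y)
    (hk : ∀ x y, x ≠ y → (L x y).ncard = k) (x : Ω) : k - 1 ∣ Nat.card Ω - 1 := by
  classical
  haveI := Fintype.ofFinite Ω
  have hcard := Finset.card_eq_sum_card_fiberwise (f := fun y => L x y)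
    (s := Finset.univ.erase x) (t := (Finset.univ.erase x).image (fun y => L x y))
    (fun y hy => Finset.mem_image_of_mem _ hy)
  rw [Finset.card_erase_of_mem (Finset.mem_univ _), Finset.card_univ] at hcard
  have hfib : ∀ S ∈ (Finset.univ.erase x).image (fun y => L x y),
      ((Finset.univ.erase x).filter fun y => L x y = S).card = k - 1 := by
    intro S hS
    obtain ⟨y, hy, rfl⟩ := Finset.mem_image.1 hS
    have hxy : x ≠ y := (Finset.ne_of_mem_erase hy).symm
    rw [← hk x y hxy, ← Set.ncard_sdiff_singleton_of_mem (hmem x y hxy).1,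
      Set.ncard_eq_toFinset_card']
    congr 1
    ext z
    simp only [Finset.mem_filter, Finset.mem_erase, Finset.mem_univ, and_true, Set.mem_toFinset,
      Set.mem_sdiff, Set.mem_singleton_iff]
    constructor
    · rintro ⟨hz, he⟩
      exact ⟨he ▸ (hmem x z (Ne.symm hz)).2, hz⟩
    · rintro ⟨hz, hzx⟩
      exact ⟨hzx, hline x y hxy x (hmem x y hxy).1 z hz (Ne.symm hzx)⟩
  rw [Finset.sum_congr rfl hfib, Finset.sum_const, smul_eq_mul] at hcard
  rw [Nat.card_eq_fintype_card, hcard]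
  exact dvd_mul_left _ _

/-- The number of ordered pairs on a line divides the number of ordered pairs. -/
theorem line_pairs_dvd (L : Ω → Ω → Set Ω) {k : ℕ}
    (hmem : ∀ x y, x ≠ y → x ∈ L x y ∧ y ∈ L x y)
    (hline : ∀ x y, x ≠ y → ∀ u ∈ L x y, ∀ v ∈ L x y, u ≠ v → L u v = L x y)
    (hk : ∀ x y, x ≠ y → (L x y).ncard = k) :
    k * k - k ∣ Nat.card Ω * Nat.card Ω - Nat.card Ω := by
  classical
  haveI := Fintype.ofFinite Ω
  have hcard := Finset.card_eq_sum_card_fiberwise (f := fun e : Ω × Ω => L e.1 e.2)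
    (s := (Finset.univ : Finset Ω).offDiag)
    (t := (Finset.univ : Finset Ω).offDiag.image (fun e : Ω × Ω => L e.1 e.2))
    (fun y hy => Finset.mem_image_of_mem _ hy)
  rw [Finset.offDiag_card, Finset.card_univ] at hcard
  have hfib : ∀ S ∈ (Finset.univ : Finset Ω).offDiag.image (fun e : Ω × Ω => L e.1 e.2),
      ((Finset.univ : Finset Ω).offDiag.filter fun e : Ω × Ω => L e.1 e.2 = S).card
        = k * k - k := by
    intro S hS
    obtain ⟨⟨u, v⟩, huv, rfl⟩ := Finset.mem_image.1 hS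
    have hne : u ≠ v := (Finset.mem_offDiag.1 huv).2.2
    have hkc : (L u v).toFinset.card = k := by rw [← Set.ncard_eq_toFinset_card', hk u v hne]
    rw [← hkc, ← Finset.offDiag_card]
    congr 1
    ext ⟨x, y⟩
    simp only [Finset.mem_filter, Finset.mem_offDiag, Finset.mem_univ, true_and,
      Set.mem_toFinset]
    constructor
    · rintro ⟨hxy, he⟩
      exact ⟨he ▸ (hmem x y hxy).1, he ▸ (hmem x y hxy).2, hxy⟩
    · rintro ⟨hx, hy, hxy⟩
      exact ⟨hxy, hline u v hne x hx y hy hxy⟩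
  rw [Finset.sum_congr rfl hfib, Finset.sum_const, smul_eq_mul] at hcard
  rw [Nat.card_eq_fintype_card, hcard]
  exact dvd_mul_left _ _

/-- No such design on `p ^ 2 + 1` points, `p` odd. -/
theorem no_design {p : ℕ} (hp : p.Prime) (hp2 : p ≠ 2) (hΩ : Nat.card Ω = p ^ 2 + 1)
    (L : Ω → Ω → Set Ω) {k : ℕ} (hk2 : 2 < k) (hkn : k ≤ p ^ 2)
    (hmem : ∀ x y, x ≠ y → x ∈ L x y ∧ y ∈ L x y)
    (hline : ∀ x y, x ≠ y → ∀ u ∈ L x y, ∀ v ∈ L x y, u ≠ v → L u v = L x y)
    (hk : ∀ x y, x ≠ y → (L x y).ncard = k) : False := by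
  have hp3 : 3 ≤ p := by have := hp.two_le; omega
  obtain ⟨⟨x⟩, -⟩ := Nat.card_pos_iff.1 (by omega : 0 < Nat.card Ω)
  have h1 := line_size_sub_one_dvd L hmem hline hk x
  rw [hΩ, Nat.add_sub_cancel] at h1
  obtain ⟨i, hi, he⟩ := (Nat.dvd_prime_pow hp).1 h1
  have hk' : k = p + 1 := by
    interval_cases i
    · rw [pow_zero] at he; omega
    · rw [pow_one] at he; omega
    · omega
  subst hk'
  obtain ⟨m, hm⟩ := line_pairs_dvd L hmem hline hk
  rw [hΩ] at hm
  have e1 : (p + 1) * (p + 1) - (p + 1) = (p + 1) * p := by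
    rw [← Nat.mul_sub_one, Nat.add_sub_cancel]
  have e2 : (p ^ 2 + 1) * (p ^ 2 + 1) - (p ^ 2 + 1) = (p ^ 2 + 1) * p ^ 2 := by
    rw [← Nat.mul_sub_one, Nat.add_sub_cancel]
  rw [e1, e2] at hm
  have h2 : p + 1 ∣ (p ^ 2 + 1) * p ^ 2 := ⟨p * m, by rw [hm]; ring⟩
  have hcop : Nat.Coprime (p + 1) (p ^ 2) := by
    apply Nat.Coprime.pow_right
    simp
  have h3 : p + 1 ∣ p ^ 2 + 1 := hcop.dvd_of_dvd_mul_right h2
  obtain ⟨c, hc⟩ := h3
  have h4 : p + 1 ∣ 2 := by
    refine (Int.natCast_dvd_natCast (m := p + 1) (n := 2)).1 ⟨(c : ℤ) - ((p : ℤ) - 1), ?_⟩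
    have : ((p : ℤ) ^ 2 + 1) = ((p : ℤ) + 1) * c := by exact_mod_cast hc
    push_cast
    linear_combination this
  have := Nat.le_of_dvd two_pos h4
  omega

theorem exists_smul_pair (h2 : IsMultiplyPretransitive G Ω 2) {a b c d : Ω} (hab : a ≠ b)
    (hcd : c ≠ d) : ∃ g : G, g • a = c ∧ g • b = d :=
  is_two_pretransitive_iff.1 h2 hab hcd

/-- A `p`-element stabilising a set with fewer than `p` points fixes it. -/
theorem smul_eq_of_pow_of_small {p : ℕ} [Fact p.Prime] {g : G} {k : ℕ} (hg : g ^ p ^ k = 1)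
    {S : Set Ω} (hS : ∀ z ∈ S, g • z ∈ S) (hlt : S.ncard < p) {z : Ω} (hz : z ∈ S) :
    g • z = z := by
  have hper : Function.minimalPeriod (g • ·) z ∣ p ^ k := by
    apply Function.IsPeriodicPt.minimalPeriod_dvd
    change ((g • ·) : Ω → Ω)^[p ^ k] z = z
    rw [smul_iterate, hg]
    exact one_smul _ _
  have hle : Function.minimalPeriod (g • ·) z ≤ S.ncard := by
    have hmaps : ∀ j : ℕ, ((g • ·) : Ω → Ω)^[j] z ∈ S := by
      intro j
      induction j with
      | zero => exact hz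
      | succ j ih => rw [Function.iterate_succ_apply']; exact hS _ ih
    calc Function.minimalPeriod (g • ·) z
        = (Set.image (fun j => ((g • ·) : Ω → Ω)^[j] z)
            (Set.Iio (Function.minimalPeriod (g • ·) z))).ncard := by
          rw [(Function.iterate_injOn_Iio_minimalPeriod).ncard_image, ← Finset.coe_Iio,
            Set.ncard_coe_finset, Nat.card_Iio]
      _ ≤ S.ncard := Set.ncard_le_ncard (by rintro _ ⟨j, -, rfl⟩; exact hmaps j) (Set.toFinite _)
  obtain ⟨i, -, hi⟩ := (Nat.dvd_prime_pow (Fact.out : p.Prime)).1 hper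
  rcases i with _ | i
  · rw [pow_zero] at hi
    exact Function.minimalPeriod_eq_one_iff_isFixedPt.1 hi
  · exfalso
    have := Nat.le_self_pow (n := i + 1) (by omega) p
    omega

/-- The common fixed points of a subgroup. -/
def fixSet (W : Subgroup G) : Set Ω := {z | ∀ w ∈ W, w • z = z}

theorem smul_mem_fixSet {W : Subgroup G} {k : G} (hk : ∀ w ∈ W, k⁻¹ * w * k ∈ W) {z : Ω}
    (hz : z ∈ fixSet W) : k • z ∈ fixSet W := by
  intro w hw
  have h := hz _ (hk w hw)
  rwa [mul_smul, mul_smul, inv_smul_eq_iff] at h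

theorem image_fixSet {W : Subgroup G} {k : G} (hk : ∀ w ∈ W, k⁻¹ * w * k ∈ W) :
    (fun z : Ω => k • z) '' fixSet W = fixSet W := by
  refine Set.eq_of_subset_of_ncard_le ?_ ?_ (Set.toFinite _)
  · rintro _ ⟨z, hz, rfl⟩
    exact smul_mem_fixSet hk hz
  · rw [Set.ncard_image_of_injective _ (MulAction.injective k)]

/-- A weakly closed subgroup of a two point stabiliser fixes at most two points. -/
theorem eq_bot_of_weaklyClosed [FaithfulSMul G Ω] {p : ℕ} (hp : p.Prime) (hp2 : p ≠ 2)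
    (hΩ : Nat.card Ω = p ^ 2 + 1) (h2 : IsMultiplyPretransitive G Ω 2) {a b : Ω} (hab : a ≠ b)
    (W : Subgroup G) (hW : ∀ w ∈ W, w • a = a ∧ w • b = b)
    (hclosed : ∀ k : G, (∀ w ∈ W, (k⁻¹ * w * k) • a = a ∧ (k⁻¹ * w * k) • b = b) →
      ∀ w ∈ W, k⁻¹ * w * k ∈ W)
    (h3 : 2 < (fixSet W : Set Ω).ncard) : W = ⊥ := by
  classical
  by_contra hW0
  have hne : (fixSet W : Set Ω) ≠ Set.univ := by
    intro h
    refine hW0 ((Subgroup.eq_bot_iff_forall _).2 fun w hw => FaithfulSMul.eq_of_smul_eq_smul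
      (α := Ω) fun z => ?_)
    rw [one_smul]
    exact (h ▸ Set.mem_univ z : z ∈ fixSet W) w hw
  have hkn : (fixSet W : Set Ω).ncard ≤ p ^ 2 := by
    have := (Set.ssubset_univ_iff.2 hne : (fixSet W : Set Ω) ⊂ Set.univ)
    have h := Set.ncard_lt_ncard this (Set.toFinite _)
    rw [Set.ncard_univ, hΩ] at h
    omega
  let t : Ω → Ω → G := fun x y =>
    if h : x ≠ y then (exists_smul_pair h2 hab h).choose else 1
  have ht : ∀ x y, x ≠ y → t x y • a = x ∧ t x y • b = y := fun x y h => by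
    simp only [t, dif_pos h]
    exact (exists_smul_pair h2 hab h).choose_spec
  let L : Ω → Ω → Set Ω := fun x y => (fun z => t x y • z) '' fixSet W
  have key : ∀ g u v : G, ∀ x y : Ω, x ∈ fixSet W → y ∈ fixSet W →
      u • a = g • x → u • b = g • y → v = g →
      (fun z => u • z) '' fixSet W = (fun z => v • z) '' (fixSet W : Set Ω) := by
    rintro g u v x y hx hy hua hub rfl
    have hk := hclosed (v⁻¹ * u) (fun w hw => by
      have ea : (v⁻¹ * u) • a = x := by rw [mul_smul, hua, inv_smul_smul]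
      have eb : (v⁻¹ * u) • b = y := by rw [mul_smul, hub, inv_smul_smul]
      exact ⟨by rw [mul_smul, mul_smul, ea, hx w hw, inv_smul_eq_iff, ea],
        by rw [mul_smul, mul_smul, eb, hy w hw, inv_smul_eq_iff, eb]⟩)
    conv_rhs => rw [← image_fixSet hk, Set.image_image]
    simp [smul_smul]
  refine no_design hp hp2 hΩ L h3 hkn (fun x y h => ?_) (fun x y h u hu v hv huv => ?_)
    (fun x y h => Set.ncard_image_of_injective _ (MulAction.injective _))
  · exact ⟨⟨a, fun w hw => (hW w hw).1, (ht x y h).1⟩, ⟨b, fun w hw => (hW w hw).2, (ht x y h).2⟩⟩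
  · obtain ⟨u', hu', rfl⟩ := hu
    obtain ⟨v', hv', rfl⟩ := hv
    exact key (t x y) _ _ u' v' hu' hv' (ht _ _ huv).1 (ht _ _ huv).2 rfl

end CfsgLib.TwoTransSquare
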