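import Cfsg.Agent.TwoTransSquarePlusOne.Normal
import Cfsg.Agent.PermGroups.RegularNormal
import Cfsg.Agent.ZassAbelian.Main
import Mathlib.GroupTheory.Perm.Cycle.Type
import Mathlib.Combinatorics.Enumerative.DoubleCounting

/-!
The case of a normal regular subgroup of order `p ^ 2` in the point stabiliser.
-/

set_option autoImplicit false
set_option linter.style.haveILetI false
set_option linter.unusedSectionVars false

namespace CfsgLib.TwoTransSquare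

open MulAction

variable {G Ω : Type*} [Group G] [MulAction G Ω] [Finite G] [Finite Ω] [FaithfulSMul G Ω]
  {p : ℕ} [hp : Fact p.Prime]

/-- No regular normal subgroup on `p ^ 2 + 1` points. -/
theorem not_hasRegularNormal {G' : Type*} [Group G'] [MulAction G' Ω] [FaithfulSMul G' Ω] (C : Ctx G Ω p)
    (h2 : IsMultiplyPretransitive G' Ω 2) : ¬ CfsgLib.ZassAbelian.HasRegularNormal G' Ω := by
  rintro ⟨M, hM, ht, hf⟩
  haveI := hM
  haveI := CfsgLib.ZassAbelian.isPretransitive_of_exists ht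
  have h3 := C.three_le
  have hn : 2 ≤ Nat.card Ω := by rw [C.card]; nlinarith
  obtain ⟨-, r, j, hr, hj, he, -⟩ := CfsgLib.PermGroups.regular_normal_elementary_of_two_transitive
    h2 hn M (CfsgLib.ZassAbelian.stabilizer_of_free hf)
  rw [C.card] at he
  obtain ⟨k, hk⟩ : Odd p := hp.out.odd_of_ne_two C.odd
  subst hk
  have he2 : (2 * k + 1) ^ 2 + 1 = 2 * (2 * (k * k + k) + 1) := by ring
  have hr2 : r = 2 := by
    have : 2 ∣ r ^ j := he ▸ ⟨_, he2⟩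
    exact ((Nat.prime_dvd_prime_iff_eq Nat.prime_two hr).1 (Nat.prime_two.dvd_of_dvd_pow this)).symm
  subst hr2
  rw [he2] at he
  rcases j with _ | _ | j
  · omega
  · simp at he; omega
  · rw [pow_succ, pow_succ] at he; omega

namespace Sys

variable (S : Sys G Ω p) (C : Ctx G Ω p) {a : Ω} (K : Reg G Ω p a)

/-- The part of the regular subgroup centralised by `h`. -/
def centr (h : G) : Subgroup G := K.P ⊓ Subgroup.centralizer {h}

theorem mem_centr {h v : G} : v ∈ centr K h ↔ v ∈ K.P ∧ h * v = v * h := by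
  rw [centr, Subgroup.mem_inf, Subgroup.mem_centralizer_singleton_iff, eq_comm]

/-- The two point stabiliser. -/
abbrev H2 (a b : Ω) : Subgroup G := stabilizer G a ⊓ stabilizer G b

include S C in
theorem conj_mem {b : Ω} {h v : G} (hh : h ∈ H2 a b) (hv : v ∈ K.P) : h * v * h⁻¹ ∈ K.P :=
  S.reg_normal C K hh.1 hv

theorem smul_fix_of_commute {b : Ω} {h v : G} (hb : h • b = b) (hc : h * v = v * h) :
    h • v • b = v • b := by rw [← mul_smul, hc, mul_smul, hb]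

include S C in
theorem commute_of_smul_fix {b : Ω} (hab : b ≠ a) {h v : G} (hh : h ∈ H2 a b) (hv : v ∈ K.P)
    (hfix : h • v • b = v • b) : h * v = v * h := by
  have hb : h⁻¹ • b = b := inv_smul_eq_iff.2 hh.2.symm
  have h1 : v⁻¹ * (h * v * h⁻¹) = 1 :=
    K.free _ (mul_mem (inv_mem hv) (S.conj_mem C K hh hv)) b hab (by
      rw [mul_smul, mul_smul, mul_smul, hb, hfix, inv_smul_smul])
  have h2 : v = h * v * h⁻¹ := inv_mul_eq_one.1 h1
  conv_rhs => rw [h2]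
  group

theorem eq_one_of_commute_all {b : Ω} (hab : b ≠ a) {h : G} (hh : h ∈ H2 a b)
    (hc : ∀ v ∈ K.P, h * v = v * h) : h = 1 := by
  refine FaithfulSMul.eq_of_smul_eq_smul (α := Ω) fun z => ?_
  rw [one_smul]
  by_cases hz : z = a
  · rw [hz]; exact hh.1
  obtain ⟨v, hv, rfl⟩ := K.trans b z hab hz
  exact smul_fix_of_commute hh.2 (hc v hv)

/-- A subgroup of order `p` and an element outside it generate the regular subgroup. -/
theorem exists_mul_zpow {N : Subgroup G} (hN : N ≤ K.P) (hc : Nat.card N = p) {q : G}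
    (hq : q ∈ K.P) (hqN : q ∉ N) {v : G} (hv : v ∈ K.P) : ∃ w ∈ N, ∃ j : ℤ, v = w * q ^ j := by
  let L : Subgroup G :=
    { carrier := {x | x ∈ K.P ∧ ∃ w ∈ N, ∃ j : ℤ, x = w * q ^ j}
      one_mem' := ⟨one_mem _, 1, one_mem _, 0, by simp⟩
      mul_mem' := by
        rintro x y ⟨hx, w, hw, i, rfl⟩ ⟨hy, w', hw', j, rfl⟩
        refine ⟨mul_mem hx hy, w * w', mul_mem hw hw', i + j, ?_⟩
        rw [zpow_add, mul_assoc w, ← mul_assoc (q ^ i) w',
          K.comm _ (zpow_mem hq i) w' (hN hw')]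
        group
      inv_mem' := by
        rintro x ⟨hx, w, hw, i, rfl⟩
        refine ⟨inv_mem hx, w⁻¹, inv_mem hw, -i, ?_⟩
        rw [mul_inv_rev, ← zpow_neg, K.comm _ (zpow_mem hq _) _ (hN (inv_mem hw))] }
  have hNL : N ≤ L := fun w hw => ⟨hN hw, w, hw, 0, by simp⟩
  have hqL : q ∈ L := ⟨hq, 1, one_mem _, 1, by simp⟩
  have hdvd : Nat.card L ∣ p ^ 2 := K.card ▸ Subgroup.card_dvd_of_le fun x hx => hx.1
  obtain ⟨i, hi, hie⟩ := (Nat.dvd_prime_pow hp.out).1 hdvd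
  have hlt : p < Nat.card L := by
    rw [← hc]
    by_contra hle
    exact hqN ((Subgroup.eq_of_le_of_card_ge hNL (not_lt.1 hle)).symm ▸ hqL)
  interval_cases i
  · rw [pow_zero] at hie; have := hp.out.one_lt; omega
  · rw [pow_one] at hie; omega
  · have hLP : L = K.P := Subgroup.eq_of_le_of_card_ge (fun x hx => hx.1) (by rw [hie, K.card])
    exact (hLP.symm ▸ hv : v ∈ L).2

include S C in
theorem card_centr {b : Ω} (hab : b ≠ a) {h : G} (hh : h ∈ H2 a b) (h1 : h ≠ 1)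
    (hne : centr K h ≠ ⊥) : Nat.card (centr K h) = p := by
  have hdvd : Nat.card (centr K h) ∣ p ^ 2 := K.card ▸ Subgroup.card_dvd_of_le inf_le_left
  obtain ⟨i, hi, hie⟩ := (Nat.dvd_prime_pow hp.out).1 hdvd
  interval_cases i
  · exact absurd (Subgroup.card_eq_one.1 (hie.trans (pow_zero p))) hne
  · rw [hie, pow_one]
  · refine absurd (eq_one_of_commute_all K hab hh fun v hv => ?_) h1
    have : centr K h = K.P := Subgroup.eq_of_le_of_card_ge inf_le_left (by rw [hie, K.card])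
    exact ((mem_centr K).1 (this.symm ▸ hv)).2

theorem eq_of_card_prime {N N' : Subgroup G} (hN : Nat.card N = p) (hN' : Nat.card N' = p)
    {x : G} (hx : x ∈ N) (hx' : x ∈ N') (hx1 : x ≠ 1) : N = N' := by
  have key : ∀ M : Subgroup G, Nat.card M = p → x ∈ M → Subgroup.zpowers x = M := by
    intro M hM hxM
    refine Subgroup.eq_of_le_of_card_ge (by rwa [Subgroup.zpowers_le]) ?_
    rw [hM, Nat.card_zpowers]
    have h : orderOf x ∣ p := hM ▸ Subgroup.orderOf_dvd_natCard _ hxM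
    rcases (Nat.dvd_prime hp.out).1 h with h | h
    · exact absurd (orderOf_eq_one_iff.1 h) hx1
    · exact h.ge
  rw [← key N hN hx, key N' hN' hx']

include S C K in
/-- The two point stabiliser is abelian. -/
theorem H2_comm {b : Ω} (hab : b ≠ a) {h₁ h₂ : G} (hh₁ : h₁ ∈ H2 a b) (hh₂ : h₂ ∈ H2 a b) :
    h₁ * h₂ = h₂ * h₁ := by
  obtain ⟨φ, hφ0, hφadd, hφmem, hφsurj, hφinj⟩ := S.exists_coord K hab
  have hu : φ 1 ∈ S.P₀ K := hφmem 1
  have hu1 : φ 1 ≠ 1 := fun e => one_ne_zero (hφinj (e.trans hφ0.symm))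
  have hcard := S.card_P₀ K hab
  have hgen : ∀ v ∈ S.P₀ K, ∃ i : ℤ, φ 1 ^ i = v := by
    intro v hv
    have h := zpowers_eq_top_of_prime_card hcard (g := (⟨φ 1, hu⟩ : S.P₀ K))
      (fun e => hu1 (congrArg Subtype.val e))
    obtain ⟨i, hi⟩ := (h ▸ Subgroup.mem_top (⟨v, hv⟩ : S.P₀ K) :
      (⟨v, hv⟩ : S.P₀ K) ∈ Subgroup.zpowers (⟨φ 1, hu⟩ : S.P₀ K))
    exact ⟨i, congrArg Subtype.val hi⟩
  obtain ⟨x, hx, hxN⟩ : ∃ x ∈ K.P, x ∉ S.P₀ K := by
    by_contra hh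
    push Not at hh
    have := Nat.le_of_dvd Nat.card_pos (Subgroup.card_dvd_of_le hh)
    rw [hcard, K.card] at this
    have := C.three_le
    nlinarith
  -- the action on `P₀` and on the quotient is by powers
  have hpow : ∀ h ∈ H2 a b, ∃ i : ℤ, (∀ v ∈ S.P₀ K, h * v * h⁻¹ = v ^ i) ∧
      ∃ j : ℤ, ∃ w ∈ S.P₀ K, h * x * h⁻¹ = w * x ^ j := by
    intro h hh
    obtain ⟨i, hi⟩ := hgen _ (S.P₀_normal C K hab hh.1 hu)
    refine ⟨i, fun v hv => ?_, ?_⟩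
    · obtain ⟨n, rfl⟩ := hgen v hv
      rw [← conj_zpow, ← hi, ← zpow_mul, ← zpow_mul, mul_comm]
    · obtain ⟨w, hw, j, hj⟩ := exists_mul_zpow K (inf_le_left : S.P₀ K ≤ K.P) hcard hx hxN
        (S.conj_mem C K hh hx)
      exact ⟨j, w, hw, hj⟩
  obtain ⟨i₁, hu₁, j₁, w₁, hw₁, hx₁⟩ := hpow h₁ hh₁
  obtain ⟨i₂, hu₂, j₂, w₂, hw₂, hx₂⟩ := hpow h₂ hh₂
  have hprod : ∀ (k l : G) (ik il jk jl : ℤ) (wk wl : G), wk ∈ S.P₀ K → wl ∈ S.P₀ K →
      (∀ v ∈ S.P₀ K, k * v * k⁻¹ = v ^ ik) → (∀ v ∈ S.P₀ K, l * v * l⁻¹ = v ^ il) →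
      k * x * k⁻¹ = wk * x ^ jk → l * x * l⁻¹ = wl * x ^ jl →
      (∀ v ∈ S.P₀ K, k * l * v * (k * l)⁻¹ = v ^ (il * ik)) ∧
        ∃ w ∈ S.P₀ K, k * l * x * (k * l)⁻¹ = w * x ^ (jl * jk) := by
    intro k l ik il jk jl wk wl hwk hwl hk hl hkx hlx
    refine ⟨fun v hv => ?_, wl ^ ik * wk ^ jl, mul_mem (zpow_mem hwl _) (zpow_mem hwk _), ?_⟩
    · rw [show k * l * v * (k * l)⁻¹ = k * (l * v * l⁻¹) * k⁻¹ by group, hl v hv, ← conj_zpow,
        hk v hv, ← zpow_mul, mul_comm]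
    · rw [show k * l * x * (k * l)⁻¹ = k * (l * x * l⁻¹) * k⁻¹ by group, hlx,
        show k * (wl * x ^ jl) * k⁻¹ = (k * wl * k⁻¹) * (k * x ^ jl * k⁻¹) by group, hk wl hwl,
        ← conj_zpow, hkx, Commute.mul_zpow (K.comm _ hwk.1 _ (zpow_mem hx _)), ← zpow_mul,
        mul_comm jk jl, mul_assoc]
  obtain ⟨hkP, wk, hwk, hkx⟩ :=
    hprod h₁ h₂ i₁ i₂ j₁ j₂ w₁ w₂ hw₁ hw₂ hu₁ hu₂ hx₁ hx₂
  obtain ⟨hlP, wl, hwl, hlx⟩ :=
    hprod h₂ h₁ i₂ i₁ j₂ j₁ w₂ w₁ hw₂ hw₁ hu₂ hu₁ hx₂ hx₁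
  set k := h₁ * h₂ with hk
  set l := h₂ * h₁ with hl
  set c := k * l⁻¹ with hc
  have hcH : c ∈ H2 a b := mul_mem (mul_mem hh₁ hh₂) (inv_mem (mul_mem hh₂ hh₁))
  set y := l * x * l⁻¹ with hy
  have hcu : ∀ v ∈ S.P₀ K, c * v * c⁻¹ = v := by
    intro v hv
    have hv' : l⁻¹ * v * l ∈ S.P₀ K := by
      simpa using S.P₀_normal C K hab (inv_mem (mul_mem hh₂.1 hh₁.1) : l⁻¹ ∈ stabilizer G a) hv
    calc c * v * c⁻¹ = k * (l⁻¹ * v * l) * k⁻¹ := by rw [hc]; group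
      _ = l * (l⁻¹ * v * l) * l⁻¹ := by rw [hkP _ hv', hlP _ hv', mul_comm i₁ i₂]
      _ = v := by group
  have hcy : c * y * c⁻¹ = (wk * wl⁻¹) * y := by
    calc c * y * c⁻¹ = k * x * k⁻¹ := by rw [hc, hy]; group
      _ = wk * x ^ (j₁ * j₂) := by rw [hkx, mul_comm j₂ j₁]
      _ = (wk * wl⁻¹) * (wl * x ^ (j₁ * j₂)) := by group
      _ = (wk * wl⁻¹) * y := by rw [hlx]
  have hw : wk * wl⁻¹ ∈ S.P₀ K := mul_mem hwk (inv_mem hwl)
  have hiter : ∀ n : ℕ, c ^ n * y * (c ^ n)⁻¹ = (wk * wl⁻¹) ^ n * y := by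
    intro n
    induction n with
    | zero => simp
    | succ n ih =>
      rw [pow_succ', show c * c ^ n * y * (c * c ^ n)⁻¹ = c * (c ^ n * y * (c ^ n)⁻¹) * c⁻¹ by group,
        ih, show c * ((wk * wl⁻¹) ^ n * y) * c⁻¹
          = (c * (wk * wl⁻¹) ^ n * c⁻¹) * (c * y * c⁻¹) by group,
        hcu _ (pow_mem hw n), hcy, ← mul_assoc, ← pow_succ, pow_succ']
  have h1 := hiter (orderOf c)
  rw [pow_orderOf_eq_one, one_mul, inv_one, mul_one] at h1
  have hw1 : (wk * wl⁻¹) ^ orderOf c = 1 := by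
    simpa using (mul_right_cancel (b := y) (by rw [one_mul]; exact h1.symm) :
      (wk * wl⁻¹) ^ orderOf c = 1)
  have hcop : Nat.Coprime (orderOf c) p := by
    refine Nat.Coprime.coprime_dvd_left (Subgroup.orderOf_dvd_natCard (H2 a b) hcH) ?_
    exact ((hp.out.coprime_iff_not_dvd).2 (S.not_dvd_card_H C hab)).symm
  have hw0 : wk * wl⁻¹ = 1 := by
    have h2 : orderOf (wk * wl⁻¹) ∣ p := orderOf_dvd_of_pow_eq_one (S.pow_card_P₀ K hab hw)
    exact orderOf_eq_one_iff.1 (Nat.eq_one_of_dvd_coprimes hcop (orderOf_dvd_of_pow_eq_one hw1) h2)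
  rw [hw0, one_mul] at hcy
  have hyP : y ∈ K.P := by rw [hlx]; exact mul_mem hwl.1 (zpow_mem hx _)
  have hyN : y ∉ S.P₀ K := by
    intro hy0
    refine hxN ?_
    have := S.P₀_normal C K hab (inv_mem (mul_mem hh₂.1 hh₁.1) : l⁻¹ ∈ stabilizer G a) hy0
    simpa [hy, mul_assoc] using this
  have hc1 : c = 1 := eq_one_of_commute_all K hab hcH fun v hv => by
    obtain ⟨w, hw, j, rfl⟩ := exists_mul_zpow K (inf_le_left : S.P₀ K ≤ K.P) hcard hyP hyN hv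
    have e1 : Commute c w := (mul_inv_eq_iff_eq_mul.1 (hcu w hw))
    have e2 : Commute c y := (mul_inv_eq_iff_eq_mul.1 hcy)
    exact (e1.mul_right (e2.zpow_right j)).eq
  exact mul_inv_eq_one.1 hc1

include S C in
/-- Outside `P₀` only one subgroup is centralised. -/
theorem centr_unique {b : Ω} (hab : b ≠ a) {h₁ h₂ : G} (hh₁ : h₁ ∈ H2 a b) (hh₂ : h₂ ∈ H2 a b)
    (hc₁ : Nat.card (centr K h₁) = p) (hc₂ : Nat.card (centr K h₂) = p)
    (hne₁ : centr K h₁ ≠ S.P₀ K) (hne₂ : centr K h₂ ≠ S.P₀ K) : centr K h₁ = centr K h₂ := by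
  by_contra hne
  have hnt : ∀ N : Subgroup G, Nat.card N = p → ∃ q ∈ N, q ≠ 1 := fun N hN => by
    by_contra hh
    push Not at hh
    rw [(Subgroup.eq_bot_iff_forall N).2 hh, Subgroup.card_bot] at hN
    exact hp.out.one_lt.ne hN
  have hP₀ := S.card_P₀ K hab
  obtain ⟨q₁, hq₁, hq₁1⟩ := hnt _ hc₁
  obtain ⟨q₂, hq₂, hq₂1⟩ := hnt _ hc₂
  obtain ⟨u, hu, hu1⟩ := hnt _ hP₀
  have hqP := ((mem_centr K).1 hq₁)
  have hqP₂ := ((mem_centr K).1 hq₂)
  have hq₁N : q₁ ∉ centr K h₂ := fun h => hne (eq_of_card_prime hc₁ hc₂ hq₁ h hq₁1)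
  obtain ⟨w, hw, j, hwj⟩ := exists_mul_zpow K (inf_le_left : centr K h₂ ≤ K.P) hc₂ hqP.1 hq₁N hu.1
  have hzgen : ∀ N : Subgroup G, Nat.card N = p → ∀ q ∈ N, q ≠ 1 → ∀ v ∈ N, ∃ i : ℤ, q ^ i = v := by
    intro N hN q hq hq1 v hv
    have h := zpowers_eq_top_of_prime_card hN (g := (⟨q, hq⟩ : N))
      (fun e => hq1 (congrArg Subtype.val e))
    obtain ⟨i, hi⟩ := (h ▸ Subgroup.mem_top (⟨v, hv⟩ : N) :
      (⟨v, hv⟩ : N) ∈ Subgroup.zpowers (⟨q, hq⟩ : N))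
    exact ⟨i, congrArg Subtype.val hi⟩
  -- `h₁` normalises the second subgroup
  have hconj : h₁ * w * h₁⁻¹ ∈ centr K h₂ := by
    have hw' := (mem_centr K).1 hw
    refine (mem_centr K).2 ⟨S.conj_mem C K hh₁ hw'.1, ?_⟩
    have e : h₂ * h₁ = h₁ * h₂ := S.H2_comm C K hab hh₂ hh₁
    calc h₂ * (h₁ * w * h₁⁻¹) = (h₂ * h₁) * w * h₁⁻¹ := by group
      _ = h₁ * (h₂ * w) * h₁⁻¹ := by rw [e]; group
      _ = h₁ * w * (h₁⁻¹ * (h₁ * h₂)) * h₁⁻¹ := by rw [hw'.2]; group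
      _ = h₁ * w * h₁⁻¹ * h₂ := by rw [← e]; group
  obtain ⟨l, hl⟩ := hzgen _ hP₀ u hu hu1 _ (S.P₀_normal C K hab hh₁.1 hu)
  have hu' : h₁ * u * h₁⁻¹ = (h₁ * w * h₁⁻¹) * q₁ ^ j := by
    rw [hwj, show h₁ * (w * q₁ ^ j) * h₁⁻¹ = (h₁ * w * h₁⁻¹) * (h₁ * q₁ * h₁⁻¹) ^ j by
      rw [conj_zpow]; group]
    rw [show h₁ * q₁ * h₁⁻¹ = q₁ by rw [hqP.2]; group]
  rw [← hl, hwj, Commute.mul_zpow (K.comm _ hw.1 _ (zpow_mem hqP.1 j)), ← zpow_mul] at hu'
  -- compare the two coordinates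
  have he : (h₁ * w * h₁⁻¹)⁻¹ * w ^ l = q₁ ^ (j - j * l) := by
    rw [inv_mul_eq_iff_eq_mul, zpow_sub, ← mul_assoc, ← hu', mul_inv_cancel_right]
  have hq0 : q₁ ^ (j - j * l) = 1 := by
    by_contra hq0
    exact hne (eq_of_card_prime hc₁ hc₂ (zpow_mem hq₁ _)
      (he ▸ mul_mem (inv_mem hconj) (zpow_mem hw l)) hq0)
  have hordq : orderOf q₁ = p := by
    have h : orderOf q₁ ∣ p := hc₁ ▸ Subgroup.orderOf_dvd_natCard _ hq₁
    exact ((Nat.dvd_prime hp.out).1 h).resolve_left fun e => hq₁1 (orderOf_eq_one_iff.1 e)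
  have hju : ¬ (p : ℤ) ∣ j := by
    intro hj
    rw [← hordq, orderOf_dvd_iff_zpow_eq_one] at hj
    rw [hj, mul_one] at hwj
    exact hne₂ (eq_of_card_prime hc₂ hP₀ hw (hwj ▸ hu) (hwj ▸ hu1))
  have hl1 : (p : ℤ) ∣ 1 - l := by
    rw [← orderOf_dvd_iff_zpow_eq_one, hordq, show j - j * l = j * (1 - l) by ring] at hq0
    exact ((Nat.prime_iff_prime_int.1 hp.out).dvd_or_dvd hq0).resolve_left hju
  have hul : u ^ l = u := by
    have hordu : orderOf u = p := by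
      have h : orderOf u ∣ p := hP₀ ▸ Subgroup.orderOf_dvd_natCard _ hu
      exact ((Nat.dvd_prime hp.out).1 h).resolve_left fun e => hu1 (orderOf_eq_one_iff.1 e)
    rw [← hordu, orderOf_dvd_iff_zpow_eq_one, zpow_sub, zpow_one, mul_inv_eq_one] at hl1
    exact hl1.symm
  refine hne₁ (eq_of_card_prime hc₁ hP₀ ((mem_centr K).2 ⟨hu.1, ?_⟩) hu hu1)
  rw [hul] at hl
  exact mul_inv_eq_iff_eq_mul.1 hl.symm

/-- The centraliser of `N` in the two point stabiliser. -/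
def cH (a b : Ω) (N : Subgroup G) : Subgroup G := H2 a b ⊓ Subgroup.centralizer (N : Set G)

theorem mem_cH {b : Ω} {N : Subgroup G} (hN : N ≤ K.P) {h : G} :
    h ∈ cH a b N ↔ h ∈ H2 a b ∧ N ≤ centr K h := by
  rw [cH, Subgroup.mem_inf, Subgroup.mem_centralizer_iff]
  refine and_congr_right fun _ => ⟨fun hh v hv => (mem_centr K).2 ⟨hN hv, (hh v hv).symm⟩,
    fun hh v hv => ((mem_centr K).1 (hh hv)).2.symm⟩

include S C in
theorem fixSet_cH {b : Ω} (hab : b ≠ a) {N : Subgroup G} (hN : N ≤ K.P) (hc : Nat.card N = p)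
    (hne : cH a b N ≠ ⊥) :
    (fixSet (cH a b N) : Set Ω) = insert a ((fun v => v • b) '' (N : Set G)) := by
  obtain ⟨h, hh, h1⟩ : ∃ h ∈ cH a b N, h ≠ 1 := by
    by_contra hh
    push Not at hh
    exact hne ((Subgroup.eq_bot_iff_forall _).2 hh)
  have hh' := (mem_cH K hN).1 hh
  have heq : N = centr K h := by
    refine Subgroup.eq_of_le_of_card_ge hh'.2 (le_of_eq ?_)
    rw [S.card_centr C K hab hh'.1 h1 ?_, hc]
    intro hb
    rw [(eq_bot_iff.2 (hb ▸ hh'.2) : N = ⊥), Subgroup.card_bot] at hc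
    exact hp.out.one_lt.ne hc
  ext z
  constructor
  · intro hz
    by_cases hza : z = a
    · exact Or.inl hza
    obtain ⟨v, hv, rfl⟩ := K.trans b z hab hza
    refine Or.inr ⟨v, ?_, rfl⟩
    rw [heq]
    exact (mem_centr K).2 ⟨hv, S.commute_of_smul_fix C K hab hh'.1 hv (hz h hh)⟩
  · rintro (rfl | ⟨v, hv, rfl⟩) w hw
    · exact hw.1.1
    · exact smul_fix_of_commute hw.1.2 (Subgroup.mem_centralizer_iff.1 hw.2 v hv).symm

include S C in
theorem ncard_fixSet_cH {b : Ω} (hab : b ≠ a) {N : Subgroup G} (hN : N ≤ K.P) (hc : Nat.card N = p)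
    (hne : cH a b N ≠ ⊥) : (fixSet (cH a b N) : Set Ω).ncard = p + 1 := by
  rw [S.fixSet_cH C K hab hN hc hne, Set.ncard_insert_of_notMem, Set.InjOn.ncard_image,
    show (N : Set G).ncard = p from (Nat.card_coe_set_eq _).symm.trans hc]
  · intro v hv w hw hvw
    refine inv_mul_eq_one.1 (K.free _ (hN (mul_mem (inv_mem hv) hw)) b hab ?_)
    rw [mul_smul, inv_smul_eq_iff]
    exact hvw.symm
  · rintro ⟨v, hv, he⟩
    exact eq_inv_smul_ne (K.fix v (hN hv)) hab he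

end Sys

end CfsgLib.TwoTransSquare
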