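import Cfsg.Agent.TwoTransSquarePlusOne.CaseTwoTrans
import Cfsg.Agent.PermGroups.Burnside
import Cfsg.Agent.TransferBasic.Central

/-!
The regular subgroup of order `p ^ 2` is normal in the point stabiliser.
-/

set_option autoImplicit false
set_option linter.style.haveILetI false
set_option linter.unusedSectionVars false

namespace CfsgLib.TwoTransSquare

open MulAction
open scoped commutatorElement Pointwise

/-- A group acting transitively on a prime number of points is doubly transitive or has an image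
with a normal cyclic group of order `p`. -/
theorem prime_degree_dichotomy {L X : Type*} [Group L] [Finite L] [Fintype X] {p : ℕ}
    [hp : Fact p.Prime] (hX : Fintype.card X = p) (ρ : L →* Equiv.Perm X)
    (htr : ∀ x y : X, ∃ k, ρ k x = y) :
    (∀ x y z w : X, x ≠ y → z ≠ w → ∃ k, ρ k x = z ∧ ρ k y = w) ∨
      ∀ v k : L, (ρ v) ^ p = 1 → ρ v ≠ 1 → ρ (k * v * k⁻¹) ∈ Subgroup.zpowers (ρ v) := by
  classical
  have hX' : Nat.card X = p := by rw [Nat.card_eq_fintype_card, hX]
  haveI : IsPretransitive ρ.range X :=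
    ⟨fun x y => (htr x y).elim fun k hk => ⟨⟨ρ k, k, rfl⟩, hk⟩⟩
  by_cases hs : Group.IsSolvable ρ.range
  · right
    intro v k hv hv1
    obtain ⟨P⟩ : Nonempty (Sylow p ρ.range) := inferInstance
    haveI := CfsgLib.PermGroups.sylow_normal_of_isSolvable hX' hs P
    set q : ρ.range := ⟨ρ v, v, rfl⟩
    have hq : IsPGroup p (Subgroup.zpowers q) :=
      IsPGroup.iff_card.2 ⟨1, by
        rw [Nat.card_zpowers, pow_one]
        exact orderOf_eq_prime (Subtype.ext (by simpa [q] using hv))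
          (fun e => hv1 (congrArg Subtype.val e))⟩
    obtain ⟨Q, hQ⟩ := hq.exists_le_sylow
    letI := Sylow.unique_of_normal P inferInstance
    have hPQ : (Q : Subgroup ρ.range) = P := by rw [Subsingleton.elim Q P]
    have hqP : q ∈ (P : Subgroup ρ.range) := hPQ ▸ hQ (Subgroup.mem_zpowers q)
    have hPz : (P : Subgroup ρ.range) = Subgroup.zpowers q := by
      refine (Subgroup.eq_of_le_of_card_ge ?_ ?_).symm
      · rwa [Subgroup.zpowers_le]
      · rw [CfsgLib.PermGroups.card_sylow_prime_degree hX' P, Nat.card_zpowers]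
        exact le_of_eq (orderOf_eq_prime (Subtype.ext (by simpa [q] using hv))
          (fun e => hv1 (congrArg Subtype.val e))).symm
    have hmem := Subgroup.Normal.conj_mem ‹_› q hqP (⟨ρ k, k, rfl⟩ : ρ.range)
    rw [hPz] at hmem
    obtain ⟨i, hi⟩ := hmem
    refine ⟨i, ?_⟩
    have := congrArg Subtype.val hi
    simpa [q, map_mul, map_inv] using this
  · left
    have h2 := CfsgLib.PermGroups.burnside_two_transitive hX hs
    intro x y z w hxy hzw
    obtain ⟨⟨_, k, rfl⟩, hk1, hk2⟩ := is_two_pretransitive_iff.1 h2 hxy hzw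
    exact ⟨k, hk1, hk2⟩

variable {G Ω : Type*} [Group G] [MulAction G Ω] [Finite G] [Finite Ω] [FaithfulSMul G Ω]
  {p : ℕ} [hp : Fact p.Prime]

namespace Sys

variable (S : Sys G Ω p) (C : Ctx G Ω p) {a : Ω} (K : Reg G Ω p a)

include S C in
/-- An element of `p`-power order of `N r`, `r` fixing a second point and normalising `N`, is in `N`. -/
theorem eq_one_of_pow_mul {b : Ω} (hab : b ≠ a) {N : Subgroup G} (hN : N ≤ K.P) {w r : G}
    (hw : w ∈ N) (hra : r • a = a) (hrb : r • b = b) (hrN : ∀ v ∈ N, r * v * r⁻¹ ∈ N) {i : ℕ}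
    (h : (w * r) ^ p ^ i = 1) : r = 1 := by
  have hkey : ∀ n : ℕ, ∃ w' ∈ N, (w * r) ^ n = w' * r ^ n ∧ ∀ v ∈ N, r ^ n * v * (r ^ n)⁻¹ ∈ N := by
    intro n
    induction n with
    | zero => exact ⟨1, one_mem _, by simp, fun v hv => by simpa using hv⟩
    | succ n ih =>
      obtain ⟨w', hw', he, hn⟩ := ih
      refine ⟨w' * (r ^ n * w * (r ^ n)⁻¹), mul_mem hw' (hn w hw), ?_, fun v hv => ?_⟩
      · rw [pow_succ, he, pow_succ]; group
      · rw [pow_succ, show r ^ n * r * v * (r ^ n * r)⁻¹ = r ^ n * (r * v * r⁻¹) * (r ^ n)⁻¹ by group]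
        exact hn _ (hrN v hv)
  obtain ⟨w', hw', he, -⟩ := hkey (p ^ i)
  rw [h] at he
  have hrfix : r ^ p ^ i ∈ stabilizer G b := pow_mem (show r ∈ stabilizer G b from hrb) _
  have hrP : r ^ p ^ i ∈ K.P := by
    rw [show r ^ p ^ i = w'⁻¹ by rw [eq_inv_iff_mul_eq_one, ← mul_eq_one_comm, ← he]]
    exact hN (inv_mem hw')
  have hr1 := K.free _ hrP b hab hrfix
  have h1 : orderOf r ∣ p ^ i := orderOf_dvd_of_pow_eq_one hr1
  have h2 : orderOf r ∣ Nat.card ↥(stabilizer G a ⊓ stabilizer G b) :=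
    Subgroup.orderOf_dvd_natCard _ ⟨hra, hrb⟩
  have hcop : Nat.Coprime (p ^ i) (Nat.card ↥(stabilizer G a ⊓ stabilizer G b)) :=
    Nat.Coprime.pow_left _ ((hp.out.coprime_iff_not_dvd).2 (S.not_dvd_card_H C hab))
  exact orderOf_eq_one_iff.1 (Nat.eq_one_of_dvd_coprimes hcop h1 h2)

theorem pow_card_P₀ {b : Ω} (hab : b ≠ a) {v : G} (hv : v ∈ S.P₀ K) : v ^ p = 1 := by
  have h := pow_card_eq_one' (G := S.P₀ K) (x := ⟨v, hv⟩)
  rw [S.card_P₀ K hab] at h
  exact congrArg Subtype.val h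

include C in
/-- The kernel normalises its regular subgroup. -/
theorem ker_normalizes_P₀ {b : Ω} (hab : b ≠ a) {m v : G} (hm : m ∈ S.ker a) (hv : v ∈ S.P₀ K) :
    m * v * m⁻¹ ∈ S.P₀ K := by
  classical
  haveI := Fintype.ofFinite Ω
  let B : SubMulAction (S.ker a) Ω :=
    { carrier := {z | S.R a b z}
      smul_mem' := fun g z hz => S.trans hz (g.2.2 z (S.ne hz).2) }
  haveI : Finite (S.ker a) := inferInstance
  haveI : Fintype B := Fintype.ofFinite _
  have hBcard : Fintype.card B = p := by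
    rw [← Nat.card_eq_fintype_card]
    exact (Nat.card_coe_set_eq _).trans (S.card hab)
  have htr : ∀ x y : B, ∃ k, MulAction.toPermHom (S.ker a) B k x = y := by
    rintro ⟨x, hx⟩ ⟨y, hy⟩
    obtain ⟨u, hu, hux⟩ := S.exists_P₀_smul K (S.trans (S.symm hx) hy)
    exact ⟨⟨u, hu.2⟩, Subtype.ext hux⟩
  have hinj : ∀ k : S.ker a, MulAction.toPermHom (S.ker a) B k = 1 → k = 1 := fun k hk =>
    Subtype.ext (S.ker_eq_one C K hab k.2 fun z hz =>
      congrArg Subtype.val (DFunLike.congr_fun hk (⟨z, hz⟩ : B)))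
  rcases prime_degree_dichotomy hBcard (MulAction.toPermHom (S.ker a) B) htr with h | h
  · exfalso
    refine S.not_transitive C K hab fun y z hy hz hyb hzb => ?_
    obtain ⟨k, hk1, hk2⟩ := h ⟨b, S.refl hab⟩ ⟨y, hy⟩ ⟨b, S.refl hab⟩ ⟨z, hz⟩
      (fun e => hyb (congrArg Subtype.val e).symm) (fun e => hzb (congrArg Subtype.val e).symm)
    exact ⟨k, k.2, congrArg Subtype.val hk1, congrArg Subtype.val hk2⟩
  · by_cases hv1 : v = 1
    · rw [hv1]; simp
    set v' : S.ker a := ⟨v, hv.2⟩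
    have hρ1 : MulAction.toPermHom (S.ker a) B v' ≠ 1 := fun e =>
      hv1 (congrArg Subtype.val (hinj v' e))
    obtain ⟨i, hi⟩ := h v' ⟨m, hm⟩
      (by rw [← map_pow, show v' ^ p = 1 from Subtype.ext (S.pow_card_P₀ K hab hv), map_one]) hρ1
    have h1 := hinj ((v' ^ i)⁻¹ * (⟨m, hm⟩ * v' * ⟨m, hm⟩⁻¹)) (by
      rw [map_mul, map_inv, map_zpow, ← hi]
      exact inv_mul_cancel _)
    have h2 : v ^ i = m * v * m⁻¹ := congrArg Subtype.val (inv_mul_eq_one.1 h1)
    rw [← h2]
    exact zpow_mem hv i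

include C in
/-- `P₀` is normal in the point stabiliser. -/
theorem P₀_normal {b : Ω} (hab : b ≠ a) {g v : G} (hg : g • a = a) (hv : v ∈ S.P₀ K) :
    g * v * g⁻¹ ∈ S.P₀ K := by
  obtain ⟨w, hw, r, hr, hrb, he⟩ := S.ker_decomp K hab (S.conj_mem_ker hg hv.2)
  have h1 : (w * r) ^ p ^ 1 = 1 := by
    rw [← he, pow_one, conj_pow, S.pow_card_P₀ K hab hv]; group
  have := S.eq_one_of_pow_mul C K hab (inf_le_left : S.P₀ K ≤ K.P) hw hr.1 hrb
    (fun u hu => S.ker_normalizes_P₀ C K hab hr hu) h1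
  rwa [he, this, mul_one]

include C in
theorem mem_P₀_of_commute {b : Ω} (hab : b ≠ a) {m : G} (hm : m ∈ S.ker a)
    (hc : ∀ u ∈ S.P₀ K, u * m = m * u) : m ∈ S.P₀ K := by
  obtain ⟨w, hw, r, hr, hrb, rfl⟩ := S.ker_decomp K hab hm
  suffices r = 1 by rw [this, mul_one]; exact hw
  refine S.ker_eq_one C K hab hr fun z hz => ?_
  obtain ⟨u, hu, rfl⟩ := S.exists_P₀_smul K hz
  have h := hc u hu
  rw [← mul_assoc, K.comm u hu.1 w hw.1, mul_assoc, mul_assoc] at h
  rw [← mul_smul, ← mul_left_cancel h, mul_smul, hrb]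

include C in
theorem ker_normalizes_P {b : Ω} (hab : b ≠ a) {m v : G} (hm : m ∈ S.ker a) (hv : v ∈ K.P) :
    m * v * m⁻¹ ∈ K.P := by
  have hc : m * v * m⁻¹ * v⁻¹ ∈ S.P₀ K := by
    refine S.mem_P₀_of_commute C K hab ?_ fun u hu => ?_
    · rw [mul_assoc, mul_assoc, ← mul_assoc v]
      exact mul_mem hm (S.conj_mem_ker (K.fix v hv) (inv_mem hm))
    · have h1 : m⁻¹ * u * m ∈ S.P₀ K := by
        simpa using S.ker_normalizes_P₀ C K hab (inv_mem hm) hu
      have h2 := K.comm _ h1.1 v hv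
      have h3 := K.comm u hu.1 v hv
      calc u * (m * v * m⁻¹ * v⁻¹) = m * ((m⁻¹ * u * m) * v) * m⁻¹ * v⁻¹ := by group
        _ = m * (v * (m⁻¹ * u * m)) * m⁻¹ * v⁻¹ := by rw [h2]
        _ = m * v * m⁻¹ * (u * v⁻¹) := by group
        _ = m * v * m⁻¹ * (v⁻¹ * u) := by rw [K.comm u hu.1 v⁻¹ (inv_mem hv)]
        _ = m * v * m⁻¹ * v⁻¹ * u := by group
  have := mul_mem hc.1 hv
  rwa [inv_mul_cancel_right] at this

/-- The setoid of the blocks seen from `a`. -/
def blockSetoid (a : Ω) : Setoid {y : Ω // y ≠ a} where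
  r y z := S.R a y z
  iseqv := ⟨fun y => S.refl y.2, S.symm, S.trans⟩

/-- The action of the point stabiliser on the blocks. -/
noncomputable def blockHom (a : Ω) :
    stabilizer G a →* Equiv.Perm (Quotient (S.blockSetoid a)) :=
  letI : SMul (stabilizer G a) (Quotient (S.blockSetoid a)) :=
    ⟨fun g => Quotient.map (fun y => ⟨(g : G) • (y : Ω), eq_inv_smul_ne g.2 y.2⟩)
      fun y z h => S.equiv_of_fix g.2 h⟩
  letI : MulAction (stabilizer G a) (Quotient (S.blockSetoid a)) :=
    { one_smul := fun q => Quotient.inductionOn q fun y => by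
        change Quotient.mk _ _ = Quotient.mk _ _
        congr 1; exact Subtype.ext (one_smul G (y : Ω))
      mul_smul := fun g h q => Quotient.inductionOn q fun y => by
        change Quotient.mk _ _ = Quotient.mk _ _
        congr 1; exact Subtype.ext (mul_smul (g : G) (h : G) (y : Ω)) }
  MulAction.toPermHom (stabilizer G a) (Quotient (S.blockSetoid a))

theorem blockHom_mk (g : stabilizer G a) (y : {y : Ω // y ≠ a}) :
    S.blockHom a g (Quotient.mk _ y) =
      Quotient.mk _ ⟨(g : G) • (y : Ω), eq_inv_smul_ne g.2 y.2⟩ := rfl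

include C in
theorem card_blocks (a : Ω) : Nat.card (Quotient (S.blockSetoid a)) = p := by
  classical
  haveI := Fintype.ofFinite (Quotient (S.blockSetoid a))
  have h1 : Nat.card {y : Ω // y ≠ a} = p ^ 2 := by
    rw [← C.card_compl a, ← Nat.card_coe_set_eq]; rfl
  have h2 : ∀ q : Quotient (S.blockSetoid a),
      Nat.card {y : {y : Ω // y ≠ a} // Quotient.mk _ y = q} = p := by
    intro q
    induction q using Quotient.inductionOn with
    | h z =>
      refine Eq.trans (Nat.card_congr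
        { toFun := fun y => (⟨(y.1 : Ω), S.symm (Quotient.exact y.2)⟩ : {w | S.R a z w})
          invFun := fun w => ⟨⟨w, (S.ne w.2).2⟩, Quotient.sound (S.symm w.2)⟩
          left_inv := fun _ => rfl
          right_inv := fun _ => rfl }) ?_
      rw [Nat.card_coe_set_eq, S.card z.2]
  rw [← Nat.card_congr (Equiv.sigmaFiberEquiv (Quotient.mk (S.blockSetoid a))), Nat.card_sigma,
    Finset.sum_congr rfl (fun q _ => h2 q), Finset.sum_const, smul_eq_mul, sq,
    Finset.card_univ, ← Nat.card_eq_fintype_card] at h1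
  exact Nat.eq_of_mul_eq_mul_right hp.out.pos h1

include C in
/-- The regular subgroup is normal, or the blocks are permuted doubly transitively. -/
theorem normal_or_two_transitive {b : Ω} (hab : b ≠ a) :
    (∀ g v : G, g • a = a → v ∈ K.P → g * v * g⁻¹ ∈ K.P) ∨
    (∀ y z y' z', y ≠ a → z ≠ a → y' ≠ a → z' ≠ a → ¬ S.R a y z → ¬ S.R a y' z' →
      ∃ g : G, g • a = a ∧ S.R a (g • y) y' ∧ S.R a (g • z) z') := by
  classical
  haveI := Fintype.ofFinite (Quotient (S.blockSetoid a))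
  have hcard : Fintype.card (Quotient (S.blockSetoid a)) = p := by
    rw [← Nat.card_eq_fintype_card, S.card_blocks C a]
  have htr : ∀ x y, ∃ k, S.blockHom a k x = y := by
    intro x y
    induction x using Quotient.inductionOn with
    | h x =>
      induction y using Quotient.inductionOn with
      | h y =>
        obtain ⟨v, hv, hvx⟩ := K.trans x y x.2 y.2
        exact ⟨⟨v, K.fix v hv⟩, by rw [blockHom_mk]; congr 1; exact Subtype.ext hvx⟩
  have hker : ∀ g : stabilizer G a, S.blockHom a g = 1 → (g : G) ∈ S.ker a := fun g hg =>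
    ⟨g.2, fun y hy => by
      have e : S.blockHom a g (Quotient.mk _ ⟨y, hy⟩) = Quotient.mk _ ⟨y, hy⟩ := by rw [hg]; rfl
      rw [blockHom_mk] at e
      exact S.symm (Quotient.exact e)⟩
  rcases prime_degree_dichotomy hcard (S.blockHom a) htr with h | h
  · right
    intro y z y' z' hy hz hy' hz' hyz hyz'
    obtain ⟨k, hk1, hk2⟩ := h (Quotient.mk _ ⟨y, hy⟩) (Quotient.mk _ ⟨z, hz⟩)
      (Quotient.mk _ ⟨y', hy'⟩) (Quotient.mk _ ⟨z', hz'⟩)
      (fun e => hyz (Quotient.exact e)) (fun e => hyz' (Quotient.exact e))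
    rw [blockHom_mk] at hk1 hk2
    exact ⟨k, k.2, Quotient.exact hk1, Quotient.exact hk2⟩
  · left
    intro g v hg hv
    by_cases hv0 : v ∈ S.P₀ K
    · exact (S.P₀_normal C K hab hg hv0).1
    set v' : stabilizer G a := ⟨v, K.fix v hv⟩
    set g' : stabilizer G a := ⟨g, hg⟩
    have hρ1 : S.blockHom a v' ≠ 1 := fun e => hv0 ⟨hv, hker v' e⟩
    have hρp : S.blockHom a v' ^ p = 1 := by
      have hQ : IsPGroup p ((K.P.subgroupOf (stabilizer G a)).map (S.blockHom a)) :=
        (IsPGroup.of_card (n := 2) (by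
          rw [Nat.card_congr (Subgroup.subgroupOfEquivOfLe
            (show K.P ≤ stabilizer G a from fun v hv => K.fix v hv)).toEquiv, K.card])).map _
      obtain ⟨j, hj⟩ := IsPGroup.iff_card.1 hQ
      have hdvd : p ^ j ∣ Nat.card (Equiv.Perm (Quotient (S.blockSetoid a))) :=
        hj ▸ Subgroup.card_subgroup_dvd_card _
      rw [Nat.card_perm, S.card_blocks C a] at hdvd
      have hj1 : j ≤ 1 := by
        by_contra hj1
        refine CfsgLib.PermGroups.sq_not_dvd_card
          (G := Equiv.Perm (Quotient (S.blockSetoid a))) (S.card_blocks C a) ?_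
        rw [Nat.card_perm, S.card_blocks C a]
        exact (pow_dvd_pow p (by omega : 2 ≤ j)).trans hdvd
      refine orderOf_dvd_iff_pow_eq_one.1 (dvd_trans ?_ ((pow_dvd_pow p hj1).trans (pow_one p).dvd))
      rw [← hj]
      exact Subgroup.orderOf_dvd_natCard _ ⟨v', hv, rfl⟩
    obtain ⟨i, hi⟩ := h v' g' hρp hρ1
    have hm := hker ((v' ^ i)⁻¹ * (g' * v' * g'⁻¹)) (by
      rw [map_mul, map_inv, map_zpow, ← hi]
      exact inv_mul_cancel _)
    obtain ⟨w, hw, r, hr, hrb, he⟩ := S.ker_decomp K hab hm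
    have he' : g * v * g⁻¹ = v ^ i * w * r := by
      rw [mul_assoc (v ^ i), ← he]
      simp [v', g']
    have h1 : (v ^ i * w * r) ^ p ^ 2 = 1 := by
      rw [← he', conj_pow]
      have := pow_card_eq_one' (G := K.P) (x := ⟨v, hv⟩)
      rw [K.card] at this
      rw [show v ^ p ^ 2 = 1 from congrArg Subtype.val this]; group
    have hw' : v ^ i * w ∈ K.P := mul_mem (zpow_mem hv i) hw.1
    have := S.eq_one_of_pow_mul C K hab le_rfl hw' hr.1 hrb
      (fun u hu => S.ker_normalizes_P C K hab hr hu) h1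
    rw [he', this, mul_one]
    exact hw'

/-- An invariant family from an invariant partition seen from one point. -/
def ofBase (C : Ctx G Ω p) (a : Ω) (E : Ω → Ω → Prop) (hne : ∀ {y z}, E y z → y ≠ a ∧ z ≠ a)
    (hrefl : ∀ {y}, y ≠ a → E y y) (hsymm : ∀ {y z}, E y z → E z y)
    (htrans : ∀ {y z w}, E y z → E z w → E y w)
    (hequiv : ∀ g : G, g • a = a → ∀ {y z}, E y z → E (g • y) (g • z))
    (hcard : ∀ {y}, y ≠ a → {z | E y z}.ncard = p) : Sys G Ω p :=
  have hex : ∀ x : Ω, ∃ g : G, g • x = a := fun x =>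
    haveI : IsPretransitive G Ω := by
      haveI := C.two
      exact MulAction.isPretransitive_of_is_two_pretransitive
    exists_smul_eq G x a
  { R := fun x y z => ∀ g : G, g • x = a → E (g • y) (g • z)
    ne := fun {x y z} h => by
      obtain ⟨g, hg⟩ := hex x
      have := hne (h g hg)
      exact ⟨fun e => this.1 (by rw [e, hg]), fun e => this.2 (by rw [e, hg])⟩
    refl := fun {x y} h g hg => hrefl fun e => h (MulAction.injective g (e.trans hg.symm))
    symm := fun h g hg => hsymm (h g hg)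
    trans := fun h h' g hg => htrans (h g hg) (h' g hg)
    equiv := fun k {x y z} h g hg => by
      rw [← mul_smul, ← mul_smul]
      exact h (g * k) (by rw [mul_smul, hg])
    card := fun {x y} h => by
      obtain ⟨g, hg⟩ := hex x
      have hy : g • y ≠ a := fun e => h (MulAction.injective g (e.trans hg.symm))
      rw [← hcard hy, ← Set.ncard_image_of_injective _ (MulAction.injective g)]
      congr 1
      ext w
      constructor
      · rintro ⟨z, hz, rfl⟩
        exact hz g hg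
      · intro hw
        refine ⟨g⁻¹ • w, fun k hk => ?_, smul_inv_smul _ _⟩
        have := hequiv (k * g⁻¹) (by rw [mul_smul, inv_smul_eq_iff.2 hg.symm, hk]) hw
        rwa [← mul_smul, inv_mul_cancel_right, mul_smul] at this }

theorem ofBase_iff {C : Ctx G Ω p} {a : Ω} {E : Ω → Ω → Prop} {hne} {hrefl} {hsymm} {htrans}
    {hequiv : ∀ g : G, g • a = a → ∀ {y z}, E y z → E (g • y) (g • z)} {hcard} {y z : Ω} :
    (ofBase C a E hne hrefl hsymm htrans hequiv hcard).R a y z ↔ E y z :=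
  ⟨fun h => by simpa using h 1 (one_smul G a), fun h g hg => hequiv g hg h⟩

include S C in
/-- The regular subgroup is normal in the point stabiliser. -/
theorem reg_normal {g v : G} (hg : g • a = a) (hv : v ∈ K.P) : g * v * g⁻¹ ∈ K.P := by
  classical
  obtain ⟨b, hab⟩ := C.exists_ne a
  rcases S.normal_or_two_transitive C K hab with h | h
  · exact h g v hg hv
  by_contra hnn
  have h3 := C.three_le
  -- the stabiliser of two points is transitive on the blocks not through `b`
  have hmove : ∀ y z, y ≠ a → z ≠ a → ¬ S.R a b y → ¬ S.R a b z →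
      ∃ k : G, k • a = a ∧ k • b = b ∧ S.R a (k • y) z := by
    intro y z hy hz hby hbz
    obtain ⟨k, hka, hk1, hk2⟩ := h b y b z hab hy hab hz hby hbz
    obtain ⟨w, hw, hwb⟩ := S.exists_P₀_smul K hk1
    refine ⟨w * k, by rw [mul_smul, hka]; exact K.fix w hw.1, by rw [mul_smul, hwb], ?_⟩
    rw [mul_smul]
    exact S.trans (S.symm (S.R_smul_P₀ K hw (eq_inv_smul_ne hka hy))) hk2
  -- the kernel is regular on each block
  have hM : ∀ m ∈ S.ker a, m • b = b → m = 1 := by
    intro m hm hmb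
    by_contra hm1
    refine S.block_fix C K hab hm hmb hm1 fun r hr hrb c hc => ?_
    by_cases hca : c = a
    · rw [hca]; exact hr.1
    obtain ⟨c₀, hc₀, hc₀a, hc₀b⟩ := S.exists_outside C hab
    haveI := Fintype.ofFinite Ω
    set C' := ((Finset.univ.filter fun z => S.R b a z).erase a) with hC'
    have hC'card : C'.card = p - 1 := by
      rw [hC', Finset.card_erase_of_mem (Finset.mem_filter.2 ⟨Finset.mem_univ _, S.refl hab.symm⟩)]
      have := S.card hab.symm (x := b) (y := a)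
      rw [Set.ncard_eq_toFinset_card'] at this
      simpa using congrArg (· - 1) this
    let blk : {z // z ∈ C'} → Quotient (S.blockSetoid a) :=
      fun z => Quotient.mk _ ⟨z, Finset.ne_of_mem_erase z.2⟩
    have hblkinj : Function.Injective blk := by
      haveI := Fintype.ofFinite (Quotient (S.blockSetoid a))
      have hsurj : ∀ q, q ≠ Quotient.mk _ ⟨b, hab⟩ → ∃ z, blk z = q := by
        intro q
        induction q using Quotient.inductionOn with
        | h y =>
          intro hy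
          obtain ⟨k, hka, hkb, hk⟩ := hmove c₀ y hc₀a y.2 hc₀b
            (fun e => hy (Quotient.sound (S.symm e)))
          refine ⟨⟨k • c₀, Finset.mem_erase.2 ⟨eq_inv_smul_ne hka hc₀a,
            Finset.mem_filter.2 ⟨Finset.mem_univ _, ?_⟩⟩⟩, Quotient.sound hk⟩
          have := S.equiv_of_fix hkb hc₀
          rwa [hka] at this
      have hsub : (Finset.univ.erase (Quotient.mk _ ⟨b, hab⟩)) ⊆ Finset.univ.image blk :=
        fun q hq => Finset.mem_image.2 <| (hsurj q (Finset.ne_of_mem_erase hq)).elim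
          fun z hz => ⟨z, Finset.mem_univ _, hz⟩
      have h1 := Finset.card_le_card hsub
      rw [Finset.card_erase_of_mem (Finset.mem_univ _), Finset.card_univ,
        ← Nat.card_eq_fintype_card, S.card_blocks C a] at h1
      have h2 : (Finset.univ.image blk).card ≤ (Finset.univ : Finset {z // z ∈ C'}).card :=
        Finset.card_image_le
      have h5 : (Finset.univ : Finset {z // z ∈ C'}).card = p - 1 := by
        rw [Finset.card_univ, Fintype.card_coe, hC'card]
      intro z w hzw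
      exact Finset.injOn_of_card_image_eq (by omega) (Finset.mem_univ z) (Finset.mem_univ w) hzw
    have hrc : r • c ∈ C' := Finset.mem_erase.2 ⟨eq_inv_smul_ne hr.1 hca,
      Finset.mem_filter.2 ⟨Finset.mem_univ _, by
        have := S.equiv_of_fix hrb hc
        rwa [hr.1] at this⟩⟩
    have hcc : c ∈ C' := Finset.mem_erase.2 ⟨hca, Finset.mem_filter.2 ⟨Finset.mem_univ _, hc⟩⟩
    exact congrArg Subtype.val
      (hblkinj (a₁ := ⟨r • c, hrc⟩) (a₂ := ⟨c, hcc⟩) (Quotient.sound (S.symm (hr.2 c hca))))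
  have hkerP₀ : S.ker a ≤ S.P₀ K := fun m hm => by
    obtain ⟨w, hw, r, hr, hrb, rfl⟩ := S.ker_decomp K hab hm
    rw [hM r hr hrb, mul_one]; exact hw
  -- the centraliser of `P₀` and its derived group
  set C₀ := Subgroup.centralizer (S.P₀ K : Set G) ⊓ stabilizer G a with hC₀
  have hPC₀ : K.P ≤ C₀ := fun w hw =>
    ⟨Subgroup.mem_centralizer_iff.2 fun u hu => K.comm u hu.1 w hw, K.fix w hw⟩
  have hC₀norm : ∀ k, k • a = a → ∀ c ∈ C₀, k * c * k⁻¹ ∈ C₀ := by
    rintro k hk c ⟨hc, hca⟩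
    refine ⟨Subgroup.mem_centralizer_iff.2 fun u hu => ?_, mem_stabilizer_iff.2 (by
      rw [mul_smul, mul_smul, inv_smul_eq_iff.2 hk.symm, mem_stabilizer_iff.1 hca, hk])⟩
    have h1 := Subgroup.mem_centralizer_iff.1 hc _
      (S.P₀_normal C K hab (show k⁻¹ • a = a by rw [inv_smul_eq_iff, hk]) hu)
    rw [inv_inv] at h1
    calc u * (k * c * k⁻¹) = k * ((k⁻¹ * u * k) * c) * k⁻¹ := by group
      _ = k * (c * (k⁻¹ * u * k)) * k⁻¹ := by rw [h1]
      _ = k * c * k⁻¹ * u := by group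
  set D := (commutator C₀).map C₀.subtype with hD
  have hDC₀ : D ≤ C₀ := Subgroup.map_subtype_le _
  have hDnorm : ∀ k, k • a = a → ∀ d ∈ D, k * d * k⁻¹ ∈ D := by
    intro k hk d hd
    rw [hD, map_commutator_eq, Subgroup.range_subtype] at hd ⊢
    have hmap : C₀.map (MulAut.conj k).toMonoidHom = C₀ := by
      refine le_antisymm ?_ fun c hc => ⟨k⁻¹ * c * k, ?_, by simp [mul_assoc]⟩
      · rintro _ ⟨c, hc, rfl⟩; exact hC₀norm k hk c hc
      · simpa using hC₀norm k⁻¹ (by rw [inv_smul_eq_iff, hk]) c hc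
    have := Subgroup.mem_map_of_mem (MulAut.conj k).toMonoidHom hd
    rwa [Subgroup.map_commutator, hmap] at this
  -- the transfer
  have hDP₀ : ∀ z ∈ D, z ∈ S.P₀ K → z = 1 := by
    rintro _ ⟨z, hz, rfl⟩ hzP
    set P' := K.P.subgroupOf C₀ with hP'
    have hcop : (Nat.card P').Coprime P'.index := by
      rw [Nat.card_congr (Subgroup.subgroupOfEquivOfLe hPC₀).toEquiv, K.card]
      refine Nat.Coprime.pow_left _ ((hp.out.coprime_iff_not_dvd).2 fun hd => ?_)
      have h1 : p ^ 3 ∣ Nat.card C₀ := by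
        rw [← Subgroup.card_mul_index P', Nat.card_congr (Subgroup.subgroupOfEquivOfLe hPC₀).toEquiv,
          K.card, pow_succ p 2]
        exact mul_dvd_mul_left _ hd
      have h2 := h1.trans (Subgroup.card_dvd_of_le (inf_le_right : C₀ ≤ stabilizer G a))
      rw [C.card_stabilizer hab, pow_succ] at h2
      exact S.not_dvd_card_H C hab (Nat.dvd_of_mul_dvd_mul_left (pow_pos hp.out.pos 2) h2)
    have hzc : z ∈ Subgroup.center C₀ := Subgroup.mem_center_iff.2 fun c => Subtype.ext (by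
      exact (Subgroup.mem_centralizer_iff.1 c.2.1 (z : G) hzP).symm)
    have hmem := CfsgLib.TransferBasic.central_mem_commutator_of_coprime P' hcop z hzc hzP.1 hz
    haveI : IsMulCommutative P' := ⟨⟨fun x y => Subtype.ext (Subtype.ext (K.comm _ x.2 _ y.2))⟩⟩
    have hbot : commutator P' = ⊥ := by
      rw [commutator_def, Subgroup.commutator_eq_bot_iff_le_centralizer]
      intro x _
      exact Subgroup.mem_centralizer_iff.2 fun y _ => mul_comm' y x
    rw [hbot, Subgroup.mem_bot] at hmem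
    exact congrArg (fun x : P' => ((x : C₀) : G)) hmem
  -- the derived group moves the block of `b`
  obtain ⟨d, hd, y, hy, hdy⟩ : ∃ d ∈ D, ∃ y, y ≠ a ∧ ¬ S.R a y (d • y) := by
    by_contra hh
    push Not at hh
    have hab' : ∀ c ∈ C₀, ∀ c' ∈ C₀, c * c' = c' * c := by
      intro c hc c' hc'
      have hmem : c * c' * c⁻¹ * c'⁻¹ ∈ D := by
        refine ⟨⁅(⟨c, hc⟩ : C₀), ⟨c', hc'⟩⁆, Subgroup.commutator_mem_commutator
          (Subgroup.mem_top _) (Subgroup.mem_top _), rfl⟩
      have := hDP₀ _ hmem (hkerP₀ (S.mem_ker.2 ⟨(hDC₀ hmem).2, hh _ hmem⟩))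
      rwa [mul_inv_eq_one, mul_inv_eq_iff_eq_mul] at this
    apply hnn
    have h1 : g * v * g⁻¹ ∈ C₀ := hC₀norm g hg v (hPC₀ hv)
    obtain ⟨w, hw, hwb⟩ := K.trans b _ hab (eq_inv_smul_ne (h1.2) hab)
    have h2 : w⁻¹ * (g * v * g⁻¹) = 1 := by
      refine FaithfulSMul.eq_of_smul_eq_smul (α := Ω) fun z => ?_
      rw [one_smul]
      by_cases hz : z = a
      · rw [hz, mul_smul, show (g * v * g⁻¹) • a = a from h1.2, inv_smul_eq_iff, K.fix w hw]
      obtain ⟨u, hu, rfl⟩ := K.trans b z hab hz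
      rw [← mul_smul, hab' _ (mul_mem (inv_mem (hPC₀ hw)) h1) u (hPC₀ hu), mul_smul, mul_smul,
        ← hwb, inv_smul_smul]
    rw [← inv_mul_eq_one.1 h2]
    exact hw
  obtain ⟨u, hu, hub⟩ := K.trans y b hy hab
  have hdb : ∃ d ∈ D, ¬ S.R a b (d • b) := by
    refine ⟨u * d * u⁻¹, hDnorm u (K.fix u hu) d hd, fun e => hdy ?_⟩
    rw [← S.equiv_iff u, K.fix u hu, hub]
    rwa [mul_smul, mul_smul, inv_smul_eq_iff.2 hub.symm] at e
  -- the orbit of `b` under the derived group
  obtain ⟨d₀, hd₀, hd₀b⟩ := hdb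
  have horbblock : ∀ z, z ≠ a → ∃ e ∈ D, S.R a z (e • b) := by
    intro z hz
    by_cases hbz : S.R a b z
    · exact ⟨1, one_mem _, by rw [one_smul]; exact S.symm hbz⟩
    have hd₀a : d₀ • a = a := (hDC₀ hd₀).2
    obtain ⟨k, hka, hkb, hk⟩ := hmove _ z (eq_inv_smul_ne hd₀a hab) hz hd₀b hbz
    refine ⟨k * d₀ * k⁻¹, hDnorm k hka d₀ hd₀, ?_⟩
    rw [mul_smul, mul_smul, inv_smul_eq_iff.2 hkb.symm]
    exact S.symm hk
  set U : Subgroup G :=
    { carrier := {w | w ∈ K.P ∧ ∃ e ∈ D, e • b = w • b}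
      one_mem' := ⟨one_mem _, 1, one_mem _, rfl⟩
      mul_mem' := by
        rintro w x ⟨hw, e, he, heb⟩ ⟨hx, f, hf, hfb⟩
        refine ⟨mul_mem hw hx, w * f * w⁻¹ * e, mul_mem (hDnorm w (K.fix w hw) f hf) he, ?_⟩
        rw [mul_smul, heb, mul_smul, mul_smul, inv_smul_smul, hfb, mul_smul]
      inv_mem' := by
        rintro w ⟨hw, e, he, heb⟩
        refine ⟨inv_mem hw, w⁻¹ * e⁻¹ * w, ?_, ?_⟩
        · simpa using hDnorm w⁻¹ (K.fix _ (inv_mem hw)) e⁻¹ (inv_mem he)
        · rw [mul_smul, mul_smul, ← heb, inv_smul_smul] } with hU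
  have hUorb : ∀ e ∈ D, ∃ w ∈ U, w • b = e • b := fun e he => by
    obtain ⟨w, hw, hwb⟩ := K.trans b (e • b) hab (eq_inv_smul_ne (hDC₀ he).2 hab)
    exact ⟨w, ⟨hw, e, he, hwb.symm⟩, hwb⟩
  have hUcard : Nat.card U = p := by
    have hdvd : Nat.card U ∣ p ^ 2 := K.card ▸ Subgroup.card_dvd_of_le fun w hw => hw.1
    obtain ⟨i, hi, hie⟩ := (Nat.dvd_prime_pow hp.out).1 hdvd
    interval_cases i
    · exfalso
      obtain ⟨w, hw, hwb⟩ := hUorb d₀ hd₀
      rw [pow_zero, Subgroup.card_eq_one] at hie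
      rw [hie, Subgroup.mem_bot] at hw
      subst hw
      rw [one_smul] at hwb
      exact hd₀b (hwb ▸ S.refl hab)
    · rw [hie, pow_one]
    · exfalso
      have hUP : U = ⊤ ⊓ K.P := by
        refine Subgroup.eq_of_le_of_card_ge (fun w hw => ⟨trivial, hw.1⟩) ?_
        rw [hie, top_inf_eq, K.card]
      -- then `p ^ 2` divides the order of the derived group
      have horb : orbit D b = ({a}ᶜ : Set Ω) := by
        ext z
        constructor
        · rintro ⟨e, rfl⟩
          exact eq_inv_smul_ne (hDC₀ e.2).2 hab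
        · intro hz
          obtain ⟨w, hw, rfl⟩ := K.trans b z hab hz
          obtain ⟨-, e, he, heb⟩ := (hUP ▸ ⟨trivial, hw⟩ : w ∈ U)
          exact ⟨⟨e, he⟩, heb⟩
      have h2 : p ^ 2 ∣ Nat.card D := by
        rw [← C.card_compl a, ← horb, ← Nat.card_coe_set_eq,
          Nat.card_congr (orbitEquivQuotientStabilizer D b)]
        exact Dvd.intro _ (Subgroup.card_eq_card_quotient_mul_card_subgroup _).symm
      obtain ⟨Q, hQ⟩ := Sylow.exists_subgroup_card_pow_prime (G := D) p h2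
      set Q' := Q.map D.subtype
      have hQ'c : Nat.card Q' = p ^ 2 := by
        rw [Subgroup.card_map_of_injective D.subtype_injective, hQ]
      -- `P₀` lies in this Sylow subgroup
      have hQ'D : Q' ≤ D := Subgroup.map_subtype_le _
      set R := S.P₀ K ⊔ Q'
      have hRcard : Nat.card R ∣ p ^ 3 ∧ Nat.card R ∣ Nat.card (stabilizer G a) := by
        refine ⟨?_, Subgroup.card_dvd_of_le (sup_le (fun w hw => K.fix w hw.1)
          fun w hw => (hDC₀ (hQ'D hw)).2)⟩
        have hnorm : Q' ≤ Subgroup.normalizer ((S.P₀ K : Subgroup G) : Set G) := fun w hw => by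
          refine Subgroup.mem_normalizer_iff.2 fun u => ⟨fun hu => S.P₀_normal C K hab
            (hDC₀ (hQ'D hw)).2 hu, fun hu => ?_⟩
          have h1 := S.P₀_normal C K hab (inv_mem (hDC₀ (hQ'D hw)).2 : w⁻¹ ∈ stabilizer G a) hu
          simpa [mul_assoc] using h1
        have hdis : S.P₀ K ⊓ Q' = ⊥ := (Subgroup.eq_bot_iff_forall _).2 fun u hu =>
          hDP₀ u (hQ'D hu.2) hu.1
        have e1 : Nat.card R = Nat.card (S.P₀ K) * Nat.card Q' := by
          have := Subgroup.coe_mul_of_right_le_normalizer_left (H := Q') (N := S.P₀ K) hnorm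
          rw [show Nat.card R = Nat.card (R : Set G) from rfl]
          rw [show (R : Set G) = (S.P₀ K : Set G) * (Q' : Set G) from this]
          have hbij : Function.Bijective
              (fun x : S.P₀ K × Q' => (⟨(x.1 : G) * x.2, Set.mul_mem_mul x.1.2 x.2.2⟩ :
                ((S.P₀ K : Set G) * (Q' : Set G) : Set G))) := by
            refine ⟨?_, ?_⟩
            · rintro ⟨u, q⟩ ⟨u', q'⟩ he
              have he' : (u : G) * q = u' * q' := congrArg Subtype.val he
              have hu : ((u' : G))⁻¹ * u = q' * (q : G)⁻¹ := by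
                rw [eq_mul_inv_iff_mul_eq, mul_assoc, he', inv_mul_cancel_left]
              have h0 : ((u' : G))⁻¹ * u ∈ S.P₀ K ⊓ Q' :=
                Subgroup.mem_inf.2 ⟨mul_mem (inv_mem u'.2) u.2, hu ▸ mul_mem q'.2 (inv_mem q.2)⟩
              rw [hdis, Subgroup.mem_bot] at h0
              have hu' : u' = u := Subtype.ext (inv_mul_eq_one.1 h0)
              subst hu'
              exact Prod.ext rfl (Subtype.ext (mul_left_cancel he'))
            · rintro ⟨_, u, hu, q, hq, rfl⟩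
              exact ⟨(⟨u, hu⟩, ⟨q, hq⟩), rfl⟩
          rw [← Nat.card_prod, Nat.card_congr (Equiv.ofBijective _ hbij)]
        rw [e1, S.card_P₀ K hab, hQ'c, ← pow_succ']
      have h3' : p ^ 3 ∣ Nat.card (stabilizer G a) := by
        refine dvd_trans (dvd_of_eq ?_) hRcard.2
        obtain ⟨j, hj, hje⟩ := (Nat.dvd_prime_pow hp.out).1 hRcard.1
        have h4 : Nat.card Q' ∣ Nat.card R := Subgroup.card_dvd_of_le le_sup_right
        rw [hQ'c, hje, Nat.pow_dvd_pow_iff_le_right hp.out.one_lt] at h4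
        interval_cases j
        · exfalso
          have hRQ : Q' = R := Subgroup.eq_of_le_of_card_ge le_sup_right (by rw [hje, hQ'c])
          obtain ⟨φ, -, -, hφm, -, hφi⟩ := S.exists_coord K hab
          exact one_ne_zero (hφi ((hDP₀ _ (hQ'D (hRQ ▸ Subgroup.mem_sup_left (hφm 1))) (hφm 1)).trans
            (hDP₀ _ (hQ'D (hRQ ▸ Subgroup.mem_sup_left (hφm 0))) (hφm 0)).symm))
        · exact hje.symm
      rw [C.card_stabilizer hab, pow_succ] at h3'
      exact S.not_dvd_card_H C hab (Nat.dvd_of_mul_dvd_mul_left (pow_pos hp.out.pos 2) h3')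
  -- a second block system: the orbits of the derived group
  let S₂ : Sys G Ω p := ofBase C a (fun y z => y ≠ a ∧ ∃ e ∈ D, e • y = z)
    (fun {y z} h => ⟨h.1, by obtain ⟨e, he, rfl⟩ := h.2; exact eq_inv_smul_ne (hDC₀ he).2 h.1⟩)
    (fun h => ⟨h, 1, one_mem _, one_smul _ _⟩)
    (fun {y z} h => by
      obtain ⟨hy, e, he, rfl⟩ := h
      exact ⟨eq_inv_smul_ne (hDC₀ he).2 hy, e⁻¹, inv_mem he, inv_smul_smul _ _⟩)
    (fun {y z w} h h' => by
      obtain ⟨hy, e, he, rfl⟩ := h
      obtain ⟨-, f, hf, rfl⟩ := h'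
      exact ⟨hy, f * e, mul_mem hf he, mul_smul _ _ _⟩)
    (fun k hk {y z} h => by
      obtain ⟨hy, e, he, rfl⟩ := h
      exact ⟨eq_inv_smul_ne hk hy, k * e * k⁻¹, hDnorm k hk e he,
        by rw [mul_smul, mul_smul, inv_smul_smul]⟩)
    (fun {y} hy => by
      obtain ⟨w, hw, rfl⟩ := K.trans b y hab hy
      rw [← hUcard, ← Nat.card_coe_set_eq]
      refine (Nat.card_congr (Equiv.ofBijective (fun x : U => (⟨w • (x : G) • b, hy, ?_⟩ :
        {z | w • b ≠ a ∧ ∃ e ∈ D, e • w • b = z})) ⟨?_, ?_⟩)).symm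
      · obtain ⟨-, e, he, heb⟩ := x.2
        refine ⟨w * e * w⁻¹, hDnorm w (K.fix w hw) e he, ?_⟩
        rw [mul_smul, mul_smul, inv_smul_smul, heb]
      · intro x x' hxx
        have := MulAction.injective w (congrArg Subtype.val hxx)
        refine Subtype.ext (inv_mul_eq_one.1 (K.free _ (mul_mem (inv_mem x.2.1) x'.2.1) b hab ?_))
        rw [mul_smul, inv_smul_eq_iff]
        exact this.symm
      · rintro ⟨z, -, e, he, rfl⟩
        obtain ⟨x, hx, hxb⟩ := hUorb (w⁻¹ * e * w) (by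
          simpa using hDnorm w⁻¹ (K.fix _ (inv_mem hw)) e he)
        refine ⟨⟨x, hx⟩, Subtype.ext ?_⟩
        change w • x • b = e • w • b
        rw [hxb, mul_smul, mul_smul, smul_inv_smul])
  have hR₂ : ∀ y z, S₂.R a y z ↔ y ≠ a ∧ ∃ e ∈ D, e • y = z := fun y z => ofBase_iff
  -- the product of the two normal subgroups of order `p` is `K.P`
  have hne : ¬ S₂.P₀ K ≤ S.P₀ K := by
    intro hle
    obtain ⟨u, hu, hub'⟩ := S₂.exists_P₀_smul K ((hR₂ b (d₀ • b)).2 ⟨hab, d₀, hd₀, rfl⟩)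
    exact hd₀b (hub' ▸ S.R_smul_P₀ K (hle hu) hab)
  obtain ⟨x, hx, hx'⟩ := SetLike.not_le_iff_exists.1 hne
  have hgen : ∀ u ∈ K.P, ∃ u₀ ∈ S.P₀ K, ∃ u₂ ∈ S₂.P₀ K, u = u₀ * u₂ := by
    intro u hu
    obtain ⟨φ, hφ0, -, hφm, hφs, hφi⟩ := S.exists_coord K hab
    obtain ⟨ψ, hψ0, -, hψm, hψs, hψi⟩ := S₂.exists_coord K hab
    have hdis : ∀ u, u ∈ S.P₀ K → u ∈ S₂.P₀ K → u = 1 := by
      intro u h1 h2
      by_contra hu1
      have : Subgroup.zpowers (⟨x, hx⟩ : S₂.P₀ K) ≤
          Subgroup.zpowers (⟨u, h2⟩ : S₂.P₀ K) := by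
        rw [zpowers_eq_top_of_prime_card (g := (⟨u, h2⟩ : S₂.P₀ K)) (S₂.card_P₀ K hab)
          (fun e => hu1 (congrArg Subtype.val e))]
        exact le_top
      obtain ⟨n, hn⟩ := Subgroup.zpowers_le.1 this
      have hn' : u ^ n = x := congrArg Subtype.val hn
      exact hx' (hn' ▸ zpow_mem h1 n)
    have hinj : Function.Injective (fun ij : ZMod p × ZMod p =>
        (⟨φ ij.1 * ψ ij.2, mul_mem (hφm ij.1).1 (hψm ij.2).1⟩ : K.P)) := by
      rintro ⟨i, j⟩ ⟨i', j'⟩ he
      have he' : φ i * ψ j = φ i' * ψ j' := congrArg Subtype.val he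
      have h1 : (φ i')⁻¹ * φ i = ψ j' * (ψ j)⁻¹ := by
        rw [eq_mul_inv_iff_mul_eq, mul_assoc, he', inv_mul_cancel_left]
      have h2 := hdis _ (mul_mem (inv_mem (hφm i')) (hφm i))
        (h1 ▸ mul_mem (hψm j') (inv_mem (hψm j)))
      have hi : i' = i := hφi (inv_mul_eq_one.1 h2)
      subst hi
      exact Prod.ext rfl (hψi (mul_left_cancel he'))
    haveI : Finite (ZMod p × ZMod p) := inferInstance
    have hbij := (Nat.bijective_iff_injective_and_card _).2 ⟨hinj, by
      rw [Nat.card_prod, Nat.card_zmod, K.card, sq]⟩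
    obtain ⟨⟨i, j⟩, hij⟩ := hbij.2 ⟨u, hu⟩
    exact ⟨φ i, hφm i, ψ j, hψm j, (congrArg Subtype.val hij).symm⟩
  obtain ⟨u₀, hu₀, u₂, hu₂, rfl⟩ := hgen v hv
  apply hnn
  rw [show g * (u₀ * u₂) * g⁻¹ = (g * u₀ * g⁻¹) * (g * u₂ * g⁻¹) by group]
  exact mul_mem (S.P₀_normal C K hab hg hu₀).1 (S₂.P₀_normal C K hab hg hu₂).1

end Sys

end CfsgLib.TwoTransSquare
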